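import Cfsg.Agent.H4.J1Cen
import Cfsg.Agent.H4.J1.Iso
import Cfsg.Agent.H4.J1.Base
import Cfsg.Agent.H4.J1.N0.Main
import Cfsg.Agent.H4.J1.N1.Main
import Cfsg.Agent.H4.J1.N2.Main
import Cfsg.Agent.H4.J1.N3.Main
import Cfsg.Agent.H4.J1.N4.Main
import Cfsg.Agent.H4.J1.N5.Main
import Cfsg.Agent.H4.J1.N6.Main
import Cfsg.Agent.H4.J1.N7.Main
import Cfsg.Agent.H4.J1.N8.Main
import Cfsg.Agent.H4.J1.N9.Main
import Cfsg.Agent.H4.J1.N10.Main

/-!
# Groups with an involution centralizer `2 × A₅`: the identification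
-/

set_option autoImplicit false
set_option maxRecDepth 100000

open Subgroup

namespace Cfsg.H4.JC

open K120 Cfsg.H6 J1

universe u

variable {G : Type u} [Group G] {f : K120 →* G} {r : G}

/-- The letters. -/
def evG (f : K120 →* G) (r : G) : ℕ → G := evM [1, f 2, f 3, f 4, f 5, f 6, r, r⁻¹]

/-- The commutator of two words. -/
def com (a b : List ℕ) : List ℕ :=
  a ++ b ++ invW 434321403852947968 a ++ invW 434321403852947968 b

theorem evL_com {ev : ℕ → G} (h : Good ev 434321403852947968) (a b : List ℕ) :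
    evL ev (com a b) = 1 ↔ Commute (evL ev a) (evL ev b) := by
  rw [com, evL_append, evL_append, evL_append, evL_invW h, evL_invW h,
    ← commutatorElement_eq_one_iff_commute, commutatorElement_def]

theorem evG_word {w : List ℕ} (hw : ∀ l ∈ w, l < 6) : evL (evG f r) w = f (evL lt w) := by
  rw [map_evL]
  refine evL_congr fun l hl => ?_
  have := hw l hl
  interval_cases l
  exacts [(map_one f).symm, rfl, rfl, rfl, rfl, rfl]

theorem good (f : K120 →* G) (r : G) : Good (evG f r) 434321403852947968 := by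
  refine good_of_rels (m := 8) rfl (fun l hl => evM_ge _ l hl) (by norm_num) fun w hw => ?_
  have key : ∀ w ∈ (List.range 8).map fun l => [invL 434321403852947968 l, l],
      ((∀ l ∈ w, l < 6) ∧ evL lt w = 1) ∨ w = [7, 6] ∨ w = [6, 7] := by decide +kernel
  rcases key w hw with ⟨a, b⟩ | rfl | rfl
  · rw [evG_word a, b, map_one]
  · simp [evL, evG, evM]
  · simp [evL, evG, evM]

theorem evG_conj (i : ℕ) {w : List ℕ} (hw : ∀ l ∈ w, l < 6) :
    evL (evG f r) (rp i [7] ++ w ++ rp i [6]) = (r ^ i)⁻¹ * f (evL lt w) * r ^ i := by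
  rw [evL_append, evL_append, evL_rp, evL_rp, evG_word hw, evL_singleton, evL_singleton, ← inv_pow]
  rfl

theorem rels0 (hr : Gen f r) : Rels (evG f r) R0 := by
  intro w hw
  have key : ∀ w ∈ R0, ((∀ l ∈ w, l < 6) ∧ evL lt w = 1) ∨ w = rp 7 [6] ∨ w = [2, 6, 1, 7, 7] ∨
      ∃ i : Fin 8, ∃ a ∈ [[5], [3], [2, 3, 1]], ∃ b ∈ [[3], [2, 3, 1], [5, 3]],
        w = rp 1 [7] ++ a ++ rp 1 [6] ++ b ∧ (∀ l ∈ a, l < 6) ∧ (∀ l ∈ b, l < 6) ∧
        evL lt a = emb i ∧ emb (lin8 2 4 3 i) * evL lt b = 1 := by decide +kernel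
  rcases key w hw with ⟨a, b⟩ | rfl | rfl | ⟨i, a, -, b, -, rfl, h1, h2, h3, h4⟩
  · rw [evG_word a, b, map_one]
  · rw [evL_rp, evL_singleton]; exact hr.pow
  · have : evL (evG f r) [2, 6, 1, 7, 7] = f 3 * r * f 2 * (r ^ 2)⁻¹ := by
      simp [evL, evG, evM, sq, mul_assoc]
    rw [this, hr.conj, mul_inv_cancel]
  · rw [evL_append, evG_conj 1 h1, evG_word h2, pow_one, h3, hr.act, ← map_mul, h4, map_one]

theorem rels1 (hr : Gen f r) {p z : K120} {i : ℕ} (hc : Commute (f p) ((r ^ i)⁻¹ * f z * r ^ i))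
    (a b : List ℕ) {w : List ℕ} (hw : (∀ l ∈ a, l < 6) ∧ (∀ l ∈ b, l < 6) ∧ evL lt a = p ∧
      evL lt b = z ∧ com a (rp i [7] ++ b ++ rp i [6]) = w) : Rels (evG f r) (w :: R0) := by
  obtain ⟨h1, h2, rfl, rfl, rfl⟩ := hw
  exact Rels.cons ((evL_com (good f r) _ _).mpr (by rwa [evG_word h1, evG_conj i h2])) (rels0 hr)

theorem gen_le_range : gen (evG f r) [[1], [3], [4], [5]] ≤ f.range :=
  gen_le fun w hw => ⟨_, (evG_word (by revert w; decide)).symm⟩

variable (h : JC f)
include h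

theorem not_mem (hr : Gen f r) : evL (evG f r) [6] ∉ gen (evG f r) [[1], [3], [4], [5]] := by
  intro e
  obtain ⟨y, hy⟩ := gen_le_range e
  obtain rfl : f y = r := hy.trans (evL_singleton _ _)
  have key : ∀ y : K120, y⁻¹ * emb 1 * y ≠ emb (lin8 2 4 3 1) := by decide +kernel
  exact key y (h.inj (by simpa using hr.act 1))

theorem rels [Finite G] (hr : Gen f r) : Rels (evG f r) R := by
  have g := good f r
  have hn := h.not_mem hr
  by_cases h3 : centralizer {f 15} ≤ f.range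
  swap
  · rcases h.exists_com hr (Or.inl rfl) h3 with ⟨z, rfl | rfl | rfl | rfl, hc⟩ |
      ⟨z, rfl | rfl | rfl | rfl, hc⟩
    · exact rels1 hr hc [3, 4] [2, 3, 4] (by decide +kernel)
    · exact absurd (N0.mem g (rels1 hr hc [3, 4] [1, 3, 4, 3] (by decide +kernel)) [6] (by decide)) hn
    · exact absurd (N1.mem g (rels1 hr hc [3, 4] [1, 4, 3, 1] (by decide +kernel)) [6] (by decide)) hn
    · exact absurd (N2.mem g (rels1 hr hc [3, 4] [2, 3, 2, 4] (by decide +kernel)) [6] (by decide)) hn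
    · exact absurd (N3.mem g (rels1 hr hc [3, 4] [1, 3, 4] (by decide +kernel)) [6] (by decide)) hn
    · exact absurd (N4.mem g (rels1 hr hc [3, 4] [1, 3, 1, 4] (by decide +kernel)) [6] (by decide)) hn
    · exact absurd (N5.mem g (rels1 hr hc [3, 4] [1, 3, 2, 4] (by decide +kernel)) [6] (by decide)) hn
    · exact absurd (N6.mem g (rels1 hr hc [3, 4] [2, 3, 4, 3] (by decide +kernel)) [6] (by decide)) hn
  have h4 : ∀ g, g * f 15 = f 15 * g → g ∈ f.range := fun g e =>
    h3 (mem_centralizer_singleton_iff.mpr e)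
  have h5 : ∀ (g : G) (z : K120), (∃ k, k * z * k⁻¹ = 15) → ¬ Commute (f 33) (g⁻¹ * f z * g) := by
    rintro g z ⟨k, hk⟩ hc
    have h6 : Commute (f k * g * f 33 * (f k * g)⁻¹) (f 15) := by
      rw [← hk, map_mul, map_mul, map_inv,
        show f k * f z * (f k)⁻¹ = f k * g * (g⁻¹ * f z * g) * (f k * g)⁻¹ by group]
      exact hc.map (MulAut.conj (f k * g))
    obtain ⟨y, hy⟩ := h4 _ h6
    have key : ∀ y : K120, y * 15 = 15 * y → y ^ 5 = 1 → y = 1 := by decide +kernel
    rw [key y (h.inj (by rw [map_mul, map_mul, hy]; exact h6)) (h.inj (by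
      rw [map_pow, hy, conj_pow, ← map_pow, show (33 : K120) ^ 5 = 1 by decide +kernel]; simp)),
      map_one, eq_comm, conj_eq_one_iff] at hy
    exact h.ne_one (by decide +kernel) hy
  refine (h.not_small h4 fun x e => by_contra fun h6 => ?_).elim
  rcases h.exists_com hr (Or.inr rfl) (fun h7 => h6 (h7 (mem_centralizer_singleton_iff.mpr e))) with
    ⟨z, rfl | rfl | rfl | rfl, hc⟩ | ⟨z, rfl | rfl | rfl | rfl, hc⟩
  · exact hn (N7.mem g (rels1 hr hc [3, 1, 4, 2] [2, 3, 4] (by decide +kernel)) [6] (by decide))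
  · exact h5 _ _ (by decide +kernel) hc
  · exact hn (N8.mem g (rels1 hr hc [3, 1, 4, 2] [1, 4, 3, 1] (by decide +kernel)) [6] (by decide))
  · exact h5 _ _ (by decide +kernel) hc
  · exact hn (N9.mem g (rels1 hr hc [3, 1, 4, 2] [1, 3, 4] (by decide +kernel)) [6] (by decide))
  · exact h5 _ _ (by decide +kernel) hc
  · exact hn (N10.mem g (rels1 hr hc [3, 1, 4, 2] [1, 3, 2, 4] (by decide +kernel)) [6] (by decide))
  · exact h5 _ _ (by decide +kernel) hc

omit h in
theorem index_ne_two {P : Type*} [Group P] [IsSimpleGroup P] (hc : Nat.card P ≠ 2)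
    (N : Subgroup P) : N.index ≠ 2 := fun hN => by
  rcases (normal_of_index_eq_two hN).eq_bot_or_eq_top with rfl | rfl
  · exact hc (index_bot.symm.trans hN)
  · simp at hN

theorem isoJ1 [Finite G] : Spor.IsoJ1 G := by
  obtain ⟨f, r, h, hr⟩ := h.exists_gen
  have := simple
  obtain ⟨ψ, hψ⟩ := lift (good f r) (h.rels hr)
  have hw : ∀ w, ψ (evL ev w) = evL (evG f r) w := fun w => by
    rw [map_evL]; exact evL_congr fun l _ => hψ l
  have hi : Function.Injective ψ := injective_of_simple ψ (x := ev 5)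
    (by rw [hψ]; exact h.ne_one (y := 6) (by decide +kernel))
  let e := MonoidHom.ofInjective hi
  have := e.symm.isSimpleGroup
  have hc : Nat.card ψ.range = 175560 := (Nat.card_congr e.toEquiv).symm.trans main.1
  have hK : ∀ y, ∃ w ∈ words, f y = evL (evG f r) w := fun y => by
    obtain ⟨w, h1, h2⟩ := exists_word y⁻¹
    refine ⟨w, h1, ?_⟩
    rw [evG_word ((by decide +kernel : ∀ w ∈ words, ∀ l ∈ w, l < 6) w h1), inv_mul_eq_one.mp h2]
  have ht := h.eq_top (H := ψ.range) (by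
      rintro _ ⟨y, rfl⟩
      obtain ⟨w, -, e⟩ := hK y
      exact ⟨_, (hw w).trans e.symm⟩) hc (index_ne_two (by omega)) fun d _ hd => by
    obtain ⟨y, hy⟩ := (h.cen (d * r⁻¹)).mp (by
      calc _ = d * (r⁻¹ * f 6 * r) * r⁻¹ := by group
        _ = _ := by rw [show r⁻¹ * f 6 * r = f 4 from hr.act 1, ← hd]; group)
    obtain ⟨w, h1, h2⟩ := hK y
    have h3 : d = evL (evG f r) (w ++ [6]) := by
      rw [evL_append, ← h2, hy, evL_singleton]; exact (inv_mul_cancel_right d r).symm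
    refine ⟨_, ⟨_, hw [7, 4, 6]⟩, fun hc => ?_⟩
    have h4 : (evL (evG f r) [7, 4, 6])⁻¹ * f 6 * evL (evG f r) [7, 4, 6] =
        evL (evG f r) (invW 434321403852947968 [7, 4, 6] ++ [5] ++ [7, 4, 6]) := by
      rw [evL_append, evL_append, evL_invW (good f r), evL_singleton]; rfl
    rw [h4, h3, ← evL_invW (good f r), ← evL_append, ← evL_append, ← evL_com (good f r), ← hw,
      map_eq_one_iff ψ hi] at hc
    refine hφ.ne_one (p := 0) ?_ hc
    clear hc h2 h3
    revert w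
    decide +kernel
  obtain ⟨e'⟩ := iso
  exact ⟨((topEquiv.symm.trans (MulEquiv.subgroupCongr ht.symm)).trans e.symm).trans e'⟩

end Cfsg.H4.JC
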