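import Cfsg.Agent.H4.CD
import Cfsg.Agent.H8.ZJ
import Cfsg.Agent.H9.Amalgam
import Cfsg.Prelude.Def_DStar

/-!
# The characteristic subgroup `D*(S)` of Glauberman and Solomon
-/

set_option autoImplicit false
set_option linter.dupNamespace false
set_option linter.unusedSectionVars false

open scoped commutatorElement
open Subgroup Cfsg.L0

namespace Cfsg.H4

universe u

variable {G : Type u} [Group G] {p : ℕ}

local notation "C " X:max => centralizer ((X : Subgroup G) : Set G)

/-- Class at most two. -/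
def Cl2 (K : Subgroup G) : Prop := ⁅⁅K, K⁆, K⁆ = ⊥

theorem Cl2.mono {K L : Subgroup G} (h : Cl2 L) (h1 : K ≤ L) : Cl2 K :=
  le_bot_iff.mp (h ▸ commutator_mono (commutator_mono h1 h1) h1)

theorem cl2_map_iff {G' : Type*} [Group G'] {f : G →* G'} (hf : Function.Injective f)
    {K : Subgroup G} : Cl2 (K.map f) ↔ Cl2 K := by
  simp only [Cl2, ← map_commutator, map_eq_bot_iff_of_injective _ hf]

theorem cl2_sup {U V : Subgroup G} (hU : U ≤ C U) (hV : V ≤ C V) (h : ⁅U, V⁆ ≤ C U ⊓ C V) :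
    Cl2 (U ⊔ V) := by
  rw [← H7.centralizer_sup] at h
  have h1 : U ⊔ V ≤ normalizer (C (U ⊔ V) : Set G) := H7.le_normalizer_centralizer le_normalizer
  have h2 := le_sup_left.trans h1
  have h3 := le_sup_right.trans h1
  rw [← commutator_eq_bot_iff_le_centralizer] at hU hV
  refine commutator_eq_bot_iff_le_centralizer.mpr (H9.commutator_sup_le h2 h3 ?_ ?_) <;>
    rw [commutator_comm]
  · exact H9.commutator_sup_le h2 h3 (hU ▸ bot_le) (commutator_comm U V ▸ h)
  · exact H9.commutator_sup_le h2 h3 h (hV ▸ bot_le)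

/-- The family generating `D*(S)`. -/
def DS (S A : Subgroup G) : Prop := A ≤ S ∧ A ≤ C A ∧ ∀ x ∈ S, Cl2 (A ⊔ zpowers x) → x ∈ C A

/-- `D*(S)`. -/
def DSt (S : Subgroup G) : Subgroup G := sSup {A | DS S A}

theorem ds_top_iff {A : Subgroup G} : DS ⊤ A ↔ A ∈ dStarFamily G :=
  ⟨fun h => ⟨isMulCommutative_iff_le.mpr h.2.1, fun x => h.2.2 x trivial⟩,
    fun h => ⟨le_top, isMulCommutative_iff_le.mp h.1, fun x _ => h.2 x⟩⟩

theorem dSt_top : DSt (⊤ : Subgroup G) = dStar G := congrArg sSup (Set.ext fun _ => ds_top_iff)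

theorem ds_map_iff {G' : Type*} [Group G'] {f : G →* G'} (hf : Function.Injective f)
    {S A : Subgroup G} : DS (S.map f) (A.map f) ↔ DS S A := by
  have h1 : ∀ x, f x ∈ centralizer (A.map f : Set G') ↔ x ∈ C A := fun x => by
    simp only [mem_centralizer_iff, SetLike.mem_coe, mem_map, forall_exists_index, and_imp,
      forall_apply_eq_imp_iff₂, ← map_mul, hf.eq_iff]
  refine and_congr (map_le_map_iff_of_injective hf) (and_congr ?_ ?_)
  · rw [map_le_iff_le_comap]
    exact forall₂_congr fun x _ => h1 x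
  · simp only [mem_map, forall_exists_index, and_imp, forall_apply_eq_imp_iff₂, h1,
      ← MonoidHom.map_zpowers, ← Subgroup.map_sup, cl2_map_iff hf]

theorem dStarOf_eq (S : Subgroup G) : dStarOf S = DSt S := by
  have h1 : (⊤ : Subgroup S).map S.subtype = S := by
    rw [← MonoidHom.range_eq_map, range_subtype]
  rw [dStarOf, ← dSt_top]
  refine le_antisymm (map_le_iff_le_comap.mpr (sSup_le fun A hA => map_le_iff_le_comap.mp
    (le_sSup ?_))) (sSup_le fun A hA => ?_)
  · have := (ds_map_iff S.subtype_injective).mpr hA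
    rwa [h1] at this
  · rw [← map_subgroupOf_eq_of_le hA.1]
    refine map_mono (le_sSup ((ds_map_iff S.subtype_injective).mp ?_))
    rwa [h1, map_subgroupOf_eq_of_le hA.1]

namespace DS

variable {S T A B : Subgroup G}

theorem mono (h : DS S A) (h1 : A ≤ T) (h2 : T ≤ S) : DS T A :=
  ⟨h1, h.2.1, fun x hx => h.2.2 x (h2 hx)⟩

theorem cj (h : DS S A) (g : G) : DS (cj g S) (cj g A) :=
  (ds_map_iff (MulAut.conj g).injective).mpr h

theorem cj_of_mem (h : DS S A) {g : G} (hg : g ∈ normalizer (S : Set G)) : DS S (L0.cj g A) := by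
  have := h.cj g
  rwa [cj_eq_iff.mpr hg] at this

theorem le_centralizer (h : DS S A) (h1 : B ≤ S) (h2 : B ≤ C B) (h3 : ⁅A, B⁆ ≤ C A ⊓ C B) :
    B ≤ C A := fun x hx =>
  h.2.2 x (h1 hx) ((cl2_sup h.2.1 h2 h3).mono (sup_le_sup_left (zpowers_le.mpr hx) _))

theorem comm [Finite G] [Fact p.Prime] (hS : IsPGroup p S) (hA : DS S A) (hB : DS S B) :
    B ≤ C A := by
  induction hc : Nat.card S using Nat.strong_induction_on generalizing S A B with | _ n IH => ?_
  have key : ∀ A, DS S A → H8.ncl S A ≤ C A := fun A hA => by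
    rcases hA.1.eq_or_lt with rfl | h
    · exact (H8.ncl_le le_rfl le_normalizer).trans hA.2.1
    · obtain ⟨M, h1, h2, h3, -⟩ := H8.exists_lt_of_ne_bot hS h
      exact H8.ncl_le_iff.mpr fun g hg => IH _ (hc ▸ H7.card_lt_of_lt h2) (hS.to_le h2.le)
        (hA.mono h1 h2.le) ((hA.cj_of_mem (le_normalizer hg)).mono (cj_le_of_le h1 (h3 hg)) h2.le) rfl
  have key2 : ∀ A B, DS S A → B ≤ S → ⁅B, A⁆ ≤ C A := fun A B hA hB =>
    ((commutator_mono le_rfl (H8.le_ncl S A)).trans (le_normalizer_iff_commutator_le_right.mp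
      (hB.trans (H8.le_normalizer_ncl S A)))).trans (key A hA)
  exact hA.le_centralizer hB.1 hB.2.1 (le_inf (commutator_comm A B ▸ key2 A B hA hB.1)
    (key2 B A hB hA.1))

end DS

theorem ds_dSt [Finite G] [Fact p.Prime] {S : Subgroup G} (hS : IsPGroup p S) : DS S (DSt S) :=
  ⟨sSup_le fun _ h => h.1, sSup_le fun _ hA => le_centralizer_iff.mp (sSup_le fun _ hB =>
    DS.comm hS hA hB), fun x hx h => zpowers_le.mp (le_centralizer_iff.mp (sSup_le fun _ hA =>
      le_centralizer_iff.mp (zpowers_le.mpr (hA.2.2 x hx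
        (h.mono (sup_le_sup_right (le_sSup hA) _))))))⟩

theorem normalizer_le_normalizer_dSt [Finite G] (S : Subgroup G) :
    normalizer (S : Set G) ≤ normalizer (DSt S : Set G) :=
  le_normalizer_sSup fun _ hg _ h => DS.cj_of_mem h hg

theorem dSt_le_centralizer [Finite G] [Fact p.Prime] {S A : Subgroup G} (hS : IsPGroup p S)
    (h1 : A ≤ S) (h2 : A ≤ C A) (h3 : DSt S ≤ normalizer (A : Set G)) : A ≤ C (DSt S) := by
  have h := ds_dSt hS
  refine h.le_centralizer h1 h2 ((commutator_le_inf_of_normalizes h3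
    (h1.trans (le_normalizer.trans (normalizer_le_normalizer_dSt S)))).trans (inf_le_inf h.2.1 h2))

theorem dSt_le_maxAb [Finite G] [Fact p.Prime] {S A : Subgroup G} (hS : IsPGroup p S)
    (hA : H8.MaxAb 0 S A) : A ≤ C (DSt S) := by
  by_contra h1
  have h := ds_dSt hS
  obtain ⟨A, ⟨hA, h1⟩, hmax⟩ := Set.exists_max_image {A | H8.MaxAb 0 S A ∧ ¬ A ≤ C (DSt S)}
    (fun A => Nat.card ↥(A ⊓ DSt S)) (Set.toFinite _) ⟨A, hA, h1⟩
  have h2 : ⁅DSt S, DSt S⁆ = ⊥ := commutator_eq_bot_iff_le_centralizer.mpr h.2.1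
  have h3 : ¬ DSt S ≤ normalizer (A : Set G) := fun h4 =>
    h1 (dSt_le_centralizer hS hA.le hA.comm h4)
  obtain ⟨A', hA', h4, h5, -⟩ := hA.replacement hS h.1 (h2 ▸ bot_le) (h2 ▸ bot_le)
    (Or.inr ⟨h2, fun b _ => pow_zero b⟩)
    (hA.le.trans (le_normalizer.trans (normalizer_le_normalizer_dSt S))) h3
  have h6 : A' ≤ C (DSt S) := by
    by_contra h6
    exact (H7.card_lt_of_lt h4).not_ge (hmax A' ⟨hA', h6⟩)
  exact h3 ((hA'.le_of_centralizer h.1 (le_centralizer_iff.mp h6)
    fun b _ => pow_zero b).trans h5)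

theorem normal_dSt [Finite G] [Fact p.Prime] (hc : C (pCore p G) ≤ pCore p G)
    (hst : ∀ (P : Subgroup G) [P.Normal], IsPGroup p P → IsPStableOn p P) {S : Subgroup G}
    (hS : H8.IsSyl p S ⊤) : (DSt S).Normal := by
  have h := ds_dSt hS.isPGroup
  have hT := H7.isPGroup_pCore p G
  have hTS : pCore p G ≤ S := hS.le_of_normalizes hT le_top le_normalizer_of_normal
  have h1 : DSt S ≤ pCore p G := fun x hx => by
    have h2 := H8.isPStableOn_iff.mp (hst _ hT) x (commutator_eq_bot_iff_le_centralizer.mpr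
      (((commutator_mono le_rfl (zpowers_le.mpr hx)).trans (le_normalizer_iff_commutator_le_right.mp
        (hTS.trans (le_normalizer.trans (normalizer_le_normalizer_dSt S))))).trans
          (h.2.1.trans (H7.centralizer_anti (zpowers_le.mpr hx)))))
    have := H7.normal_of_le_normalizer_top (H8.self_le_normalizer_opMod (p := p)
      (le_normalizer_of_normal (H := C (pCore p G)) (K := ⊤)))
    refine H7.le_pCore (H7.isPGroup_of_pow_mem hT fun y hy => ?_) h2
    exact (H8.pow_mem_of_mem_opMod le_normalizer_of_normal hy).imp fun _ h => hc h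
  have hW := ds_dSt hT
  set V := H8.ncl ⊤ (DSt S)
  have hV : V.Normal := H7.normal_of_le_normalizer_top (H8.le_normalizer_ncl _ _)
  have h2 : V ≤ DSt (pCore p G) := H8.ncl_le (le_sSup (h.mono h1 hTS))
    (le_normalizer_of_normal.trans (normalizer_le_normalizer_dSt _))
  have h3 : V ≤ C V := h2.trans (hW.2.1.trans (H7.centralizer_anti h2))
  refine H7.normal_of_le_normalizer_top (H8.le_normalizer_of_ncl_le (le_sSup
    ⟨h2.trans (hW.1.trans hTS), h3, fun x hx h4 => ?_⟩))
  have h5 := H8.isPStableOn_iff.mp (hst V (hT.to_le (h2.trans hW.1))) x (le_bot_iff.mp (h4 ▸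
    commutator_mono (commutator_mono le_sup_left le_sup_right) le_sup_right))
  have hn : ⊤ ≤ normalizer (C V : Set G) := le_normalizer_of_normal
  have hL := H8.self_le_normalizer_opMod (p := p) hn
  refine zpowers_le.mp (le_centralizer_iff.mp (H8.ncl_le_iff.mpr fun g _ => ?_))
  obtain ⟨n, hn1, l, hl, rfl⟩ := (hS.inf le_top (le_top.trans hL)).frattini' (hL (mem_top g))
  have hDV : DSt S ≤ V := H8.le_ncl _ _
  have h6 : H8.opMod p ⊤ (C V) ≤ normalizer (DSt S : Set G) := (hS.opMod_le_sup hn).trans (sup_le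
    ((H7.centralizer_anti hDV).trans (centralizer_le_normalizer _))
    (inf_le_left.trans (le_normalizer.trans (normalizer_le_normalizer_dSt S))))
  rw [cj_mul, cj_eq_iff.mpr (h6 hl)]
  have h7 := (h.mono (le_inf h.1 (hDV.trans (h3.trans (le_trans (le_inf le_top le_rfl)
    (H8.inf_le_opMod hn))))) inf_le_left).cj_of_mem hn1
  exact le_centralizer_iff.mp (zpowers_le.mpr (h7.2.2 x ⟨hx, h5⟩
    (h4.mono (sup_le_sup_right (H8.cj_le_ncl _ (mem_top n)) _))))

end Cfsg.H4
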