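import Cfsg.Agent.H4.Dih8

/-!
# Groups with an involution centralizer dihedral of order eight: two classes of involutions
-/

set_option autoImplicit false

open scoped ComplexConjugate commutatorElement
open Subgroup Finset DihedralGroup

namespace Cfsg.H4

universe u

variable {G : Type u} [Group G]

/-- The centralizer of the involution `f (r 2)` is the image of the embedding `f`. -/
structure D8 (f : DihedralGroup 4 →* G) : Prop where
  inj : Function.Injective f
  cen : ∀ x, x * f (r 2) = f (r 2) * x ↔ x ∈ f.range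

/-- The automorphism exchanging the two four-groups. -/
def d8swap : DihedralGroup 4 ≃* DihedralGroup 4 where
  toFun x := match x with
    | r i => r (-i)
    | sr i => sr (1 - i)
  invFun x := match x with
    | r i => r (-i)
    | sr i => sr (1 - i)
  left_inv := by decide
  right_inv := by decide
  map_mul' := by decide

theorem exists_d8 {t : G} (ht : orderOf t = 2) (e : centralizer ({t} : Set G) ≃* DihedralGroup 4) :
    ∃ f : DihedralGroup 4 →* G, D8 f ∧ f (r 2) = t := by
  set D := centralizer ({t} : Set G) with hD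
  let f : DihedralGroup 4 →* G := D.subtype.comp e.symm.toMonoidHom
  have hf : Function.Injective f := D.subtype_injective.comp e.symm.injective
  have hDf : ∀ x ∈ D, ∃ y, f y = x := fun x hx => ⟨e ⟨x, hx⟩, by simp [f]⟩
  obtain ⟨x, hx⟩ := hDf t (mem_centralizer_singleton_iff.mpr rfl)
  have key : ∀ x : DihedralGroup 4, x ≠ 1 → (∀ y, y * x = x * y) → x = r 2 := by decide
  have h1 := key x (by rintro rfl; rw [map_one] at hx; simp [← hx] at ht) fun y => hf (by
    rw [map_mul, map_mul, hx]; exact mem_centralizer_singleton_iff.mp (e.symm y).2)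
  subst h1
  refine ⟨f, ⟨hf, fun y => ?_⟩, hx⟩
  rw [hx, ← mem_centralizer_singleton_iff]
  exact ⟨hDf y, by rintro ⟨w, rfl⟩; exact (e.symm w).2⟩

namespace D8

variable {f : DihedralGroup 4 →* G} (h : D8 f)
include h

theorem swap : D8 (f.comp d8swap.toMonoidHom) where
  inj := h.inj.comp d8swap.injective
  cen x := by
    rw [show (f.comp d8swap.toMonoidHom) (r 2) = f (r 2) from rfl, h.cen]
    exact ⟨fun ⟨y, hy⟩ => ⟨d8swap.symm y, by simpa using hy⟩, fun ⟨y, hy⟩ => ⟨_, hy⟩⟩

theorem cen_eq : centralizer {f (r 2)} = f.range := by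
  ext x
  rw [mem_centralizer_singleton_iff, h.cen]

theorem card_range : Nat.card f.range = 8 := by
  rw [← Nat.card_congr (MonoidHom.ofInjective h.inj).toEquiv, DihedralGroup.nat_card]

theorem orderOf_z : orderOf (f (r 2)) = 2 := by
  rw [orderOf_injective f h.inj]
  exact orderOf_eq_prime (by decide) (by decide)

theorem orderOf_sr (i : ZMod 4) : orderOf (f (sr i)) = 2 := by
  rw [orderOf_injective f h.inj, DihedralGroup.orderOf_sr]

theorem isPGroup : IsPGroup 2 f.range := IsPGroup.of_card (p := 2) (n := 3) h.card_range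

/-- An element conjugating a nontrivial rotation to a rotation lies in the dihedral group. -/
theorem ti {g : G} {i j : ZMod 4} (hi : i ≠ 0) (e : g * f (r i) * g⁻¹ = f (r j)) :
    g ∈ f.range := by
  have key : ∀ i : ZMod 4, i ≠ 0 → ∃ k < 3, (r i : DihedralGroup 4) ^ k = r 2 := by decide
  obtain ⟨k, -, hk⟩ := key i hi
  have h1 : g * f (r 2) * g⁻¹ = f (r j ^ k) := by rw [← hk, map_pow, map_pow, ← e, conj_pow]
  have h2 : orderOf (r j ^ k : DihedralGroup 4) = 2 := by
    rw [← orderOf_injective f h.inj, ← h1, orderOf_conj, h.orderOf_z]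
  have key2 : ∀ j : ZMod 4, (r j : DihedralGroup 4) ≠ 1 → (r j : DihedralGroup 4) ^ 2 = 1 →
    j = 2 := by decide
  rw [r_pow] at h1 h2
  rw [key2 (j * k) (fun h3 => by simp [h3] at h2) (by rw [← h2, pow_orderOf_eq_one])] at h1
  exact (h.cen g).mp (mul_inv_eq_iff_eq_mul.mp h1)

theorem normalizer_le : normalizer (f.range : Set G) ≤ f.range := fun g hg => by
  obtain ⟨y, hy⟩ := (mem_normalizer_iff.mp hg _).mp ⟨r 1, rfl⟩
  have h2 : orderOf y = 4 := by
    rw [← orderOf_injective f h.inj, hy, orderOf_conj, orderOf_injective f h.inj, orderOf_r_one]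
  rcases y with j | j
  · exact h.ti (by decide) hy.symm
  · simp at h2

theorem odd_index [Finite G] : Odd f.range.index := by
  obtain ⟨S, hS⟩ := h.isPGroup.exists_le_sylow
  have h2 : (S : Subgroup G) = f.range := by
    by_contra hne
    have : Group.IsNilpotent (S : Subgroup G) := S.isPGroup'.isNilpotent
    have h3 := Group.normalizerCondition_of_isNilpotent (G := (S : Subgroup G))
      (f.range.subgroupOf S) (lt_top_iff_ne_top.mpr fun e =>
        hne (le_antisymm (subgroupOf_eq_top.mp e) hS))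
    refine h3.ne (le_antisymm le_normalizer fun x hx => h.normalizer_le ?_)
    refine mem_normalizer_fintype fun y hy => ?_
    exact (mem_normalizer_iff.mp hx ⟨y, hS hy⟩).mp hy
  rw [← h2, Nat.odd_iff, ← Nat.two_dvd_ne_zero]
  exact S.not_dvd_index

theorem card_eq : Nat.card G = f.range.index * 8 := by rw [← h.card_range, index_mul_card]

theorem card_class [Finite G] : Nat.card {x : G // IsConj (f (r 2)) x} = f.range.index := by
  have := card_isConj_mul_card_centralizer (f (r 2))
  rw [h.cen_eq, h.card_range, h.card_eq] at this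
  omega

theorem isConj_iff_of_two_classes (hb : IsConj (f (r 2)) (f (sr 0)))
    (hc : ¬ IsConj (f (r 2)) (f (sr 1))) (y : DihedralGroup 4) :
    IsConj (f (r 2)) (f y) ↔ y = r 2 ∨ y = sr 0 ∨ y = sr 2 := by
  constructor
  · intro hy
    have h2 : orderOf y = 2 := by
      rw [← orderOf_injective f h.inj, ← orderOf_eq_of_isConj hy, h.orderOf_z]
    have key : ∀ y : DihedralGroup 4, y ≠ 1 → y ^ 2 = 1 →
      (y = r 2 ∨ y = sr 0 ∨ y = sr 2) ∨ ∃ w, w * y * w⁻¹ = sr 1 := by decide
    rcases key y (fun h3 => by simp [h3] at h2) (by rw [← h2, pow_orderOf_eq_one]) with h3 | h3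
    · exact h3
    · exact absurd (hy.trans (f.map_isConj (isConj_iff.mpr h3))) hc
  · rintro (rfl | rfl | rfl)
    · exact IsConj.refl _
    · exact hb
    · exact hb.trans (f.map_isConj (isConj_iff.mpr (by decide)))

theorem card_of_two_classes [Finite G] (hb' : IsConj (f (r 2)) (f (sr 0)))
    (hc' : ¬ IsConj (f (r 2)) (f (sr 1))) : Nat.card G = 24 ∨ Nat.card G = 120 := by
  classical
  have := Fintype.ofFinite G
  have hf := h.inj
  set t := f (r 2) with htf
  have ht : orderOf t = 2 := h.orderOf_z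
  have ht1 : t ≠ 1 := by rintro e; simp [e] at ht
  have ht2 : t ^ 2 = 1 := by rw [← ht, pow_orderOf_eq_one]
  set a := f (r 1) with ha
  set b := f (sr 0) with hb
  have hord : orderOf a = 4 := by rw [orderOf_injective f hf, orderOf_r_one]
  have hta : t = a ^ 2 := by rw [htf, ← map_pow]; congr 1
  set M := zpowers a with hM
  have hMc : Nat.card M = 4 := by rw [Nat.card_zpowers, hord]
  have hr : ∀ i, f (r i) ∈ M := fun i => by
    rw [← ZMod.natCast_zmod_val i, ← r_one_pow, map_pow]
    exact npow_mem_zpowers _ _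
  have hMr : ∀ x ∈ M, ∃ i, f (r i) = x := by
    rintro _ ⟨k, rfl⟩
    exact ⟨k, by rw [← r_one_zpow, map_zpow]⟩
  have hsr : ∀ i, f (sr i) ∉ M := fun i hi => by
    obtain ⟨j, hj⟩ := hMr _ hi
    exact absurd (hf hj) (by simp)
  have hTI : ∀ g, ∀ x ∈ M, x ≠ 1 → g * x * g⁻¹ ∈ M → g ∈ f.range := fun g x hx h1 hg => by
    obtain ⟨i, rfl⟩ := hMr x hx
    obtain ⟨j, hj⟩ := hMr _ hg
    exact h.ti (by rintro rfl; exact h1 (map_one f)) hj.symm
  have hDM : ∀ g ∈ f.range, g ∈ M ∨ g * b⁻¹ ∈ M := by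
    rintro _ ⟨i | i, rfl⟩
    · exact Or.inl (hr i)
    · right
      rw [← map_inv, ← map_mul]
      exact hr _
  have hbM : ∀ c ∈ M, b * c * b⁻¹ ∈ M := fun c hc => by
    obtain ⟨i, rfl⟩ := hMr c hc
    rw [← map_inv, ← map_mul, ← map_mul]
    exact hr _
  have hodd := h.odd_index
  have hG := h.card_eq
  have hMi : M.index = 2 * f.range.index := by
    have := index_mul_card M
    rw [hMc, hG] at this
    omega
  -- the linear character
  let a' : M := ⟨a, mem_zpowers a⟩
  let i : ℂˣ := Units.mk0 Complex.I Complex.I_ne_zero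
  have hgen : ∀ x : M, x ∈ zpowers a' := by
    rintro ⟨_, k, rfl⟩
    exact ⟨k, rfl⟩
  have hi : orderOf i ∣ orderOf a' := by
    rw [Subgroup.orderOf_mk, hord, orderOf_dvd_iff_pow_eq_one]
    ext
    simp [i]
  let lam : M →* ℂ := (Units.coeHom ℂ).comp (monoidHomOfForallMemZpowers hgen hi)
  have hlam : lam a' = Complex.I :=
    congrArg Units.val (monoidHomOfForallMemZpowers_apply_gen hgen hi)
  have hI : Complex.I ≠ 1 := fun h => by simpa using congrArg Complex.im h
  have hTI' : ∀ g, ∀ x ∈ {x | x ∈ M ∧ x ≠ 1}, g * x * g⁻¹ ∈ {x | x ∈ M ∧ x ≠ 1} →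
      g ∈ M ∨ g * b⁻¹ ∈ M := fun g x hx hg => hDM g (hTI g x hx.1 hx.2 hg.1)
  have hA : ∀ x : M, lam x ≠ 1 → (x : G) ∈ {x | x ∈ M ∧ x ≠ 1} := fun x hx =>
    ⟨x.2, fun h => hx (by rw [show x = 1 from Subtype.ext h, map_one])⟩
  obtain ⟨χ, ψ, i1, i2, n12, n1, n2, he⟩ := exists_triple (hsr 0) hbM hTI' lam hA
    ⟨a', hlam ▸ hI⟩ ⟨a', by
      intro h3
      have h4 := map_mul lam ⟨b * a * b⁻¹, hbM a (mem_zpowers a)⟩ a'
      rw [h3, hlam, show (⟨b * a * b⁻¹, hbM a (mem_zpowers a)⟩ : M) * a' = 1 from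
          Subtype.ext (by
            show b * a * b⁻¹ * a = 1
            rw [← map_inv, ← map_mul, ← map_mul, ← map_mul, ← map_one f]
            congr 1), map_one] at h4
      simp at h4
      norm_num at h4⟩
  have htM : t ∈ M := hta ▸ npow_mem_zpowers a 2
  have e1 : χ 1 = ψ 1 + 1 := by
    have := congrFun he 1
    simp only [indFun_apply_one, Pi.sub_apply, map_one, sub_self, mul_zero] at this
    linear_combination -this
  have hlt : lam ⟨t, htM⟩ = -1 := by
    rw [show (⟨t, htM⟩ : M) = a' ^ 2 from Subtype.ext hta, map_pow, hlam, Complex.I_sq]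
  have e2 : χ t = ψ t - 3 := by
    have h1 := congrFun he t
    rw [indFun_apply_of_TI_two (hsr 0) hTI' ((isIrrCharacter_monoidHom lam).isClassFunction.sub
      (IsClassFunction.const 1)) (fun x hx => by
        by_contra h
        exact hx (hA x fun h' => h (by simp [h']))) ⟨htM, ht1⟩,
      show b * t * b⁻¹ = t from mul_inv_eq_iff_eq_mul.mpr ((h.cen _).mpr ⟨_, rfl⟩),
      extendByZero_of_mem _ htM] at h1
    simp only [Pi.sub_apply, hlt] at h1
    linear_combination -h1
  -- counting
  have := Fintype.ofFinite M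
  have e3 := sum_sum_isConj_indFun ((fun x => lam x) - fun _ => 1) t t
  have hcount : ∀ j : ZMod 4, j ≠ 0 →
      (univ.filter fun x : G => IsConj t x ∧ IsConj t (x⁻¹ * f (r j))).card =
        if j = 2 then 2 else 0 := by
    intro j h1
    have h2 : (univ.filter fun x : G => IsConj t x ∧ IsConj t (x⁻¹ * f (r j))) =
        (univ.filter fun y : DihedralGroup 4 => (y = r 2 ∨ y = sr 0 ∨ y = sr 2) ∧
          (y⁻¹ * r j = r 2 ∨ y⁻¹ * r j = sr 0 ∨ y⁻¹ * r j = sr 2)).map ⟨f, hf⟩ := by
      ext x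
      simp only [mem_filter, mem_univ, true_and, Finset.mem_map, Function.Embedding.coeFn_mk,
        ← h.isConj_iff_of_two_classes hb' hc', map_mul, map_inv]
      refine ⟨fun ⟨h2, h3⟩ => ?_, by rintro ⟨y, hy, rfl⟩; exact hy⟩
      have h4 : orderOf x = 2 := by rw [← orderOf_eq_of_isConj h2, ht]
      have h5 : orderOf (x⁻¹ * f (r j)) = 2 := by rw [← orderOf_eq_of_isConj h3, ht]
      have h6 : x⁻¹ = x := by
        rw [inv_eq_iff_mul_eq_one, ← pow_two, ← h4, pow_orderOf_eq_one]
      have h7 : x⁻¹ * f (r j) * (x⁻¹ * f (r j)) = 1 := by rw [← pow_two, ← h5, pow_orderOf_eq_one]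
      obtain ⟨y, rfl⟩ := h.ti (g := x) (j := -j) h1 (by
        rw [← inv_r, map_inv, eq_inv_iff_mul_eq_one, ← h7]; nth_rewrite 1 [← h6]; group)
      exact ⟨y, ⟨h2, h3⟩, rfl⟩
    rw [h2, card_map]
    clear h2
    revert j
    decide
  rw [sum_eq_single (⟨t, htM⟩ : M) (fun x _ hx => by
    obtain ⟨j, hj⟩ := hMr x x.2
    by_cases h1 : j = 0
    · rw [show x = 1 from Subtype.ext (by rw [← hj, h1]; exact map_one f)]
      simp
    · rw [← hj, hcount j h1, if_neg (by rintro rfl; exact hx (Subtype.ext hj.symm))]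
      simp) (by simp), he, hMi, show (((⟨t, htM⟩ : M) : G)) = f (r 2) from rfl,
    hcount 2 (by decide), if_pos rfl] at e3
  have e4 := i1.sum_sum_isConj_mul t t 1
  have e5 := i2.sum_sum_isConj_mul t t 1
  have e6 := (isIrrCharacter_one (G := G)).sum_sum_isConj_mul t t 1
  simp only [mul_one] at e4 e5 e6
  simp only [Pi.sub_apply, sum_sub_distrib, hlt] at e3
  rw [e4, e5, e6, h.card_class, e1, e2] at e3
  obtain ⟨d, hd, e7⟩ := i2.exists_apply_one
  obtain ⟨k, e8⟩ := i2.isCharacter.exists_int_of_sq_eq_one ht2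
  have e9 : 1 + (k : ℝ) ^ 2 + (k - 3) ^ 2 ≤ 8 := by
    have h1 := sum_irr_norm_sq t
    rw [h.cen_eq, h.card_range] at h1
    have h2 := sum_le_sum_of_subset_of_nonneg (f := fun χ : IrrCharacter G => ‖χ.1 t‖ ^ 2)
      (subset_univ {⟨_, isIrrCharacter_one⟩, ⟨ψ, i2⟩, ⟨χ, i1⟩}) fun _ _ _ => sq_nonneg _
    rw [h1, sum_insert (by simp [n1.symm, n2.symm]), sum_pair (by simp [n12.symm])] at h2
    simp only [e2, e8, norm_one] at h2
    rw [show (k : ℂ) - 3 = ((k - 3 : ℤ) : ℂ) by simp, Complex.norm_intCast, Complex.norm_intCast,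
      sq_abs, sq_abs] at h2
    push_cast at h2
    linarith
  have e10 : 1 + k ^ 2 + (k - 3) ^ 2 ≤ 8 := by exact_mod_cast e9
  have hm : (f.range.index : ℂ) ≠ 0 := Nat.cast_ne_zero.mpr f.range.index_ne_zero_of_finite
  have hd' : (d : ℂ) ≠ 0 := Nat.cast_ne_zero.mpr hd.ne'
  have hd'' : (d : ℂ) + 1 ≠ 0 := by exact_mod_cast Nat.succ_ne_zero d
  rw [e7, e8] at e3
  have e11 : (f.range.index : ℂ) * (d * (d + 1) + k ^ 2 * (d + 1) - (k - 3) ^ 2 * d) =
      8 * d * (d + 1) := by
    apply mul_left_cancel₀ hm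
    field_simp at e3
    push_cast at e3
    linear_combination -e3
  have e12 : (f.range.index : ℤ) * (d * (d + 1) + k ^ 2 * (d + 1) - (k - 3) ^ 2 * d) =
      8 * d * (d + 1) := by exact_mod_cast e11
  rw [hG]
  obtain ⟨m, hm⟩ := hodd
  generalize f.range.index = N at hm e12 ⊢
  have hk : k = 1 ∨ k = 2 := by
    have : 0 < k := by nlinarith
    have : k < 3 := by nlinarith
    omega
  rcases hk with rfl | rfl
  · right
    obtain ⟨c, rfl⟩ : ∃ c, d = c + 1 := ⟨d - 1, by omega⟩
    have h1 : c ∣ 16 := by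
      zify
      exact ⟨N * c - 8 * c - 24, by push_cast at e12; linear_combination -e12⟩
    have h2 := Nat.le_of_dvd (by norm_num) h1
    interval_cases c <;> omega
  · left
    have h1 : d + 2 ∣ 16 := by
      zify
      exact ⟨N * (d + 2) - 8 * (d + 2) + 24, by linear_combination -e12⟩
    have h2 : d ≤ 14 := by have := Nat.le_of_dvd (by norm_num) h1; omega
    interval_cases d <;> omega

end D8

end Cfsg.H4
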