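import Cfsg.Agent.H4.Dih8b
import Cfsg.Agent.H4.D8Amal
import Cfsg.Agent.H8.Frobenius
import Cfsg.Agent.H3.Words
import Cfsg.Agent.H3.SmallGrp

/-!
# Groups with an involution centralizer dihedral of order eight: the classification
-/

set_option autoImplicit false

open Subgroup DihedralGroup
open scoped commutatorElement

namespace Cfsg.H4.D8

universe u

variable {G : Type u} [Group G] {f : DihedralGroup 4 →* G} (h : D8 f)
include h

theorem cube_eq_one {u : G} (h1 : u * f (r 2) * u⁻¹ = f (sr 2)) (h2 : u * f (sr 0) * u⁻¹ = f (r 2)) :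
    u ^ 3 = 1 := by
  have h3 : u * f (sr 2) * u⁻¹ = f (sr 0) := by
    rw [show (sr 2 : DihedralGroup 4) = r 2 * sr 0 by decide, map_mul, ← conj_mul, h1, h2,
      ← map_mul]
    rfl
  have h4 : ∀ x, u ^ 3 * x * (u ^ 3)⁻¹ = u * (u * (u * x * u⁻¹) * u⁻¹) * u⁻¹ := fun x => by
    simp only [pow_succ, pow_zero, one_mul, mul_inv_rev, mul_assoc]
  obtain ⟨y, hy⟩ := (h.cen (u ^ 3)).mp (mul_inv_eq_iff_eq_mul.mp (by rw [h4, h1, h3, h2]))
  have h5 : y * sr 0 * y⁻¹ = sr 0 := h.inj (by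
    rw [map_mul, map_mul, map_inv, hy, h4, h2, h1, h3])
  have h6 : u * f y * u⁻¹ = f y := by rw [hy]; group
  have key : ∀ y : DihedralGroup 4, y * sr 0 * y⁻¹ = sr 0 →
    y = 1 ∨ y = r 2 ∨ y = sr 0 ∨ y = sr 2 := by decide
  rcases key y h5 with rfl | rfl | rfl | rfl
  · rw [← hy, map_one]
  · exact absurd (h.inj (h1.symm.trans h6)) (by decide)
  · exact absurd (h.inj (h2.symm.trans h6)) (by decide)
  · exact absurd (h.inj (h3.symm.trans h6)) (by decide)

theorem exists_s (hb : IsConj (f (r 2)) (f (sr 0))) :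
    ∃ s : G, s * s = 1 ∧ s * f (sr 0) = f (sr 0) * s ∧ s * f (r 2) * s = f (sr 2) ∧
      (s * f (sr 1)) ^ 3 = 1 ∧ (s * f (r 1)) ^ 3 = 1 := by
  obtain ⟨g, hg⟩ := isConj_iff.mp hb
  have hzb : f (r 2) * f (sr 0) = f (sr 0) * f (r 2) := by rw [← map_mul, ← map_mul]; rfl
  obtain ⟨y, hy⟩ := (h.cen (g⁻¹ * f (r 2) * g)).mp (by
    calc _ = g⁻¹ * (f (r 2) * (g * f (r 2) * g⁻¹)) * g := by group
      _ = g⁻¹ * ((g * f (r 2) * g⁻¹) * f (r 2)) * g := by rw [hg, hzb]
      _ = _ := by group)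
  have hz : g * f y * g⁻¹ = f (r 2) := by rw [hy]; group
  have h2 : orderOf y = 2 := by
    rw [← orderOf_injective f h.inj, ← orderOf_conj g, hz, h.orderOf_z]
  have key : ∀ y : DihedralGroup 4, y ≠ 1 → y ^ 2 = 1 → y ≠ r 2 →
    ∃ w, w * w = 1 ∧ w * y * w = y * r 2 := by decide
  obtain ⟨w, hw1, hw2⟩ := key y (fun h3 => by simp [h3] at h2) (by rw [← h2, pow_orderOf_eq_one])
    (by rintro rfl; exact absurd (h.inj (hg.symm.trans hz)) (by decide))
  set s := g * f w * g⁻¹ with hs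
  have e1 : s * s = 1 := by rw [conj_mul, ← map_mul, hw1, map_one]; group
  have e1' : s⁻¹ = s := inv_eq_of_mul_eq_one_left e1
  have e2 : s * f (sr 0) = f (sr 0) * s := by
    rw [← hg, conj_mul, conj_mul, (h.cen _).mpr ⟨w, rfl⟩]
  have e3 : s * f (r 2) * s = f (sr 2) := by
    rw [← hz, conj_mul, conj_mul, ← map_mul, ← map_mul, hw2, map_mul, ← conj_mul, hz, hg,
      ← map_mul]
    rfl
  have e4 : s * f (sr 2) * s = f (r 2) := by
    rw [← e3]
    calc _ = (s * s) * f (r 2) * (s * s) := by group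
      _ = _ := by rw [e1]; group
  have key2 : ∀ v : DihedralGroup 4, v * r 2 * v⁻¹ = r 2 → v * sr 0 * v⁻¹ = sr 2 →
      (s * f v) ^ 3 = 1 := fun v h1 h2 => by
    have h3 : ∀ x, s * f v * f x * (s * f v)⁻¹ = s * f (v * x * v⁻¹) * s := fun x => by
      rw [map_mul, map_mul, map_inv, mul_inv_rev, e1']; group
    exact h.cube_eq_one (by rw [h3, h1, e3]) (by rw [h3, h2, e4])
  exact ⟨s, e1, e2, e3, key2 _ (by decide) (by decide), key2 _ (by decide) (by decide)⟩

open H3.Words in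
omit h in
theorem s4_key : ∀ k : Equiv.Perm (Fin 4), k ≠ 1 → ∃ u v : Equiv.Perm (Fin 4),
    u * k * u⁻¹ * (v * k * v⁻¹) = (s4x * s4y) ^ 2 := by decide +kernel

open H3.Words in
theorem exists_S4 [Finite G] {s : G} (e1 : s * s = 1) (e3 : s * f (r 2) * s = f (sr 2))
    (e5 : (s * f (r 1)) ^ 3 = 1) : ∃ θ : Equiv.Perm (Fin 4) →* G, Function.Injective θ ∧
      θ ((s4x * s4y) ^ 2) = f (r 2) ∧ s ∈ θ.range ∧ f.range ≤ θ.range := by
  have e6 : s * (s * f (r 1)) = f (r 1) := by rw [← mul_assoc, e1, one_mul]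
  obtain ⟨θ, h3, h4⟩ := exists_hom_of_card_le s4x s4y s (s * f (r 1)) closure_s4 (by
    rw [card_S4]
    refine card_tri4 _ _ (Prod.ext s4_rel.1 (by simpa [pow_two] using e1))
      (Prod.ext s4_rel.2.1 e5) (Prod.ext s4_rel.2.2.1 ?_)
    change (s * (s * f (r 1))) ^ 4 = 1
    rw [e6, ← map_pow, ← map_one f]
    rfl)
  have h5 : θ (s4x * s4y) = f (r 1) := by rw [map_mul, h3, h4, e6]
  have h6 : θ ((s4x * s4y) ^ 2) = f (r 2) := by rw [map_pow, h5, ← map_pow]; rfl
  have hs : s ∈ θ.range := ⟨_, h3⟩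
  refine ⟨θ, (injective_iff_map_eq_one θ).mpr fun k hk => ?_, h6, hs, ?_⟩
  · by_contra hk1
    obtain ⟨u, v, huv⟩ := s4_key k hk1
    rw [← huv] at h6
    simp only [map_mul, hk, mul_one, map_inv, mul_inv_cancel] at h6
    exact absurd (h.inj (h6.symm.trans (map_one f).symm)) (by decide)
  · have hr : ∀ i, f (r i) ∈ θ.range := fun i => by
      rw [← ZMod.natCast_zmod_val i, ← r_one_pow, map_pow]
      exact pow_mem (MonoidHom.mem_range.mpr ⟨_, h5⟩) _
    rintro _ ⟨i | i, rfl⟩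
    · exact hr i
    · rw [show sr i = sr 2 * r (i - 2) by simp, map_mul, ← e3]
      exact mul_mem (mul_mem (mul_mem hs (hr 2)) hs) (hr _)

open H3.Words in
theorem normalCore_eq_bot [Finite G] {θ : Equiv.Perm (Fin 4) →* G} (hθ : Function.Injective θ)
    (h6 : θ ((s4x * s4y) ^ 2) = f (r 2)) (hi : 9 < f.range.index) : θ.range.normalCore = ⊥ := by
  by_contra hne
  obtain ⟨⟨g, hg⟩, hg1⟩ := ne_bot_iff_exists_ne_one.mp hne
  obtain ⟨k, rfl⟩ := normalCore_le _ hg
  obtain ⟨u, v, huv⟩ := s4_key k (by rintro rfl; exact hg1 (Subtype.ext (map_one θ)))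
  have hn : θ.range.normalCore.Normal := inferInstance
  have hz : f (r 2) ∈ θ.range.normalCore := by
    rw [← h6, ← huv]
    simp only [map_mul, map_inv]
    exact mul_mem (hn.conj_mem _ hg _) (hn.conj_mem _ hg _)
  have h1 : ∀ x : {x : G // IsConj (f (r 2)) x}, ∃ y : {y : Equiv.Perm (Fin 4) // y ≠ 1 ∧
      y ^ 2 = 1}, θ y = x := by
    rintro ⟨x, hx⟩
    obtain ⟨w, rfl⟩ := isConj_iff.mp hx
    obtain ⟨y, hy⟩ := normalCore_le _ (hn.conj_mem _ hz w)
    have h2 : orderOf y = 2 := by rw [← orderOf_injective θ hθ, hy, orderOf_conj, h.orderOf_z]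
    exact ⟨⟨y, fun h3 => by simp [h3] at h2, by rw [← h2, pow_orderOf_eq_one]⟩, hy⟩
  choose F hF using h1
  have h2 := Nat.card_le_card_of_injective F fun x y e => Subtype.ext (by rw [← hF, ← hF, e])
  rw [h.card_class, Nat.card_eq_fintype_card,
    show Fintype.card {y : Equiv.Perm (Fin 4) // y ≠ 1 ∧ y ^ 2 = 1} = 9 by decide +kernel] at h2
  omega

theorem isSyl [Finite G] : H8.IsSyl 2 f.range ⊤ :=
  ⟨le_top, h.isPGroup, by
    rw [relIndex_top_right, ← even_iff_two_dvd, Nat.not_even_iff_odd]; exact h.odd_index⟩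

theorem card_of_one_class [Finite G] (hb : IsConj (f (r 2)) (f (sr 0)))
    (hc : IsConj (f (r 2)) (f (sr 1))) : Nat.card G = 168 ∨ Nat.card G = 360 := by
  refine card_of_dihedral_eight ?_ _ h.orderOf_z
    ((MulEquiv.subgroupCongr h.cen_eq).trans (MonoidHom.ofInjective h.inj).symm)
  have hn : (commutator G).Normal := inferInstance
  have hz : f (r 2) ∈ commutator G := by
    rw [show (r 2 : DihedralGroup 4) = ⁅(r 1 : DihedralGroup 4), (sr 0 : DihedralGroup 4)⁆ by decide, map_commutatorElement]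
    exact commutator_mem_commutator (mem_top _) (mem_top _)
  have h1 : ∀ x, IsConj (f (r 2)) x → x ∈ commutator G := fun x hx => by
    obtain ⟨w, rfl⟩ := isConj_iff.mp hx
    exact hn.conj_mem _ hz w
  have hr : ∀ i, f (r i) ∈ commutator G := fun i => by
    rw [← ZMod.natCast_zmod_val i, ← r_one_pow, map_pow,
      show (r 1 : DihedralGroup 4) = sr 0 * sr 1 by decide, map_mul]
    exact pow_mem (mul_mem (h1 _ hb) (h1 _ hc)) _
  have hD : f.range ≤ commutator G := by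
    rintro _ ⟨i | i, rfl⟩
    · exact hr i
    · rw [show sr i = sr 0 * r i by simp, map_mul]
      exact mul_mem (h1 _ hb) (hr _)
  rw [eq_top_iff]
  intro g _
  obtain ⟨k, hk, n, hn, rfl⟩ := (h.isSyl.mono hD le_top).frattini (g := g)
    (le_normalizer_of_normal (mem_top g))
  exact mul_mem hk (hD (h.normalizer_le hn))

theorem case_two_classes [Finite G] (hb : IsConj (f (r 2)) (f (sr 0)))
    (hc : ¬ IsConj (f (r 2)) (f (sr 1))) :
    Nonempty (G ≃* Equiv.Perm (Fin 4)) ∨ Nonempty (G ≃* Equiv.Perm (Fin 5)) := by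
  obtain ⟨s, e1, -, e3, -, e5⟩ := h.exists_s hb
  obtain ⟨θ, hθ, h1, -, -⟩ := h.exists_S4 e1 e3 e5
  have h2 := h.card_eq
  rcases h.card_of_two_classes hb hc with h3 | h3
  · exact Or.inl ⟨(MulEquiv.ofBijective θ ((Nat.bijective_iff_injective_and_card θ).2
      ⟨hθ, H3.Words.card_S4.trans h3.symm⟩)).symm⟩
  · right
    have h4 := θ.range.index_mul_card
    rw [← Nat.card_congr (MonoidHom.ofInjective hθ).toEquiv, H3.Words.card_S4, h3] at h4
    obtain ⟨φ, hφ⟩ := H3.exists_perm_hom_of_index θ.range (n := 5) (by omega) (by norm_num)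
    rw [h.normalCore_eq_bot hθ h1 (by omega), MonoidHom.ker_eq_bot_iff] at hφ
    exact H3.equiv_perm_of_card φ hφ h3

theorem case_one_class [Finite G] (hb : IsConj (f (r 2)) (f (sr 0)))
    (hc : IsConj (f (r 2)) (f (sr 1))) :
    Nonempty (G ≃* Matrix.SpecialLinearGroup (Fin 3) (ZMod 2)) ∨
      Nonempty (G ≃* alternatingGroup (Fin 6)) := by
  obtain ⟨s, e1, e2, e3, e4, e5⟩ := h.exists_s hb
  obtain ⟨t, d1, d2, d3, d4, -⟩ := h.swap.exists_s hc
  change t * f (sr 1) = f (sr 1) * t at d2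
  change t * f (r 2) * t = f (sr 3) at d3
  change (t * f (sr 0)) ^ 3 = 1 at d4
  obtain ⟨θ, hθ, h1, hs, hD⟩ := h.exists_S4 e1 e3 e5
  have hz : (f (sr 0) * f (sr 1)) ^ 2 = f (r 2) := by rw [← map_mul, ← map_pow]; rfl
  have ha : Low.Amal (f (sr 0)) (f (sr 1)) s t :=
    { bb := by rw [← map_mul]; exact map_one f
      cc := by rw [← map_mul]; exact map_one f
      ss := e1
      tt := d1
      bc := by rw [← map_mul, ← map_pow]; exact map_one f
      sb := e2
      tc := d2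
      sc := e4
      tb := d4
      sz := by rw [hz, e3, ← map_mul]; rfl
      tz := by rw [hz, d3, ← map_mul]; rfl }
  have hG : closure {f (sr 0), f (sr 1), s, t} = ⊤ := by
    set K := closure {f (sr 0), f (sr 1), s, t} with hK
    have k1 : f (sr 0) ∈ K := subset_closure (by simp)
    have k2 : f (sr 1) ∈ K := subset_closure (by simp)
    have k3 : s ∈ K := subset_closure (by simp)
    have k4 : t ∈ K := subset_closure (by simp)
    have hr : ∀ i, f (r i) ∈ K := fun i => by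
      rw [← ZMod.natCast_zmod_val i, ← r_one_pow, map_pow,
        show (r 1 : DihedralGroup 4) = sr 0 * sr 1 by decide, map_mul]
      exact pow_mem (mul_mem k1 k2) _
    have hfK : ∀ y, f y ∈ K := by
      rintro (i | i)
      · exact hr i
      · rw [show sr i = sr 0 * r i by simp, map_mul]
        exact mul_mem k1 (hr _)
    let f' := f.codRestrict K hfK
    have h' : D8 f' := ⟨fun x y e => h.inj (congrArg Subtype.val e), fun x => by
      rw [Subtype.ext_iff]
      exact (h.cen x).trans ⟨fun ⟨y, hy⟩ => ⟨y, Subtype.ext hy⟩,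
        fun ⟨y, hy⟩ => ⟨y, congrArg Subtype.val hy⟩⟩⟩
    have c1 : IsConj (f' (r 2)) (f' (sr 2)) := isConj_iff.mpr ⟨⟨s, k3⟩, Subtype.ext (by
      change s * f (r 2) * s⁻¹ = f (sr 2)
      rw [inv_eq_of_mul_eq_one_left e1, e3])⟩
    have c2 : IsConj (f' (r 2)) (f' (sr 3)) := isConj_iff.mpr ⟨⟨t, k4⟩, Subtype.ext (by
      change t * f (r 2) * t⁻¹ = f (sr 3)
      rw [inv_eq_of_mul_eq_one_left d1, d3])⟩
    have h2 := h'.card_of_one_class (c1.trans (f'.map_isConj (isConj_iff.mpr (by decide))))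
      (c2.trans (f'.map_isConj (isConj_iff.mpr (by decide))))
    have h3 := h.card_of_one_class hb hc
    have h4 := K.card_subgroup_dvd_card
    apply eq_top_of_le_card
    rcases h2 with h2 | h2 <;> rcases h3 with h3 | h3 <;> rw [h2, h3] at h4 ⊢ <;> omega
  have h2 := h.card_eq
  have h4 := θ.range.index_mul_card
  rw [← Nat.card_congr (MonoidHom.ofInjective hθ).toEquiv, H3.Words.card_S4] at h4
  rcases h.card_of_one_class hb hc with h3 | h3
  · exact Or.inl (Low.equiv_SL3_two ha hG (hD ⟨_, rfl⟩) (hD ⟨_, rfl⟩) hs (by omega) h3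
      (h.normalCore_eq_bot hθ h1 (by omega)))
  · exact Or.inr (Low.equiv_alt_six ha hG (hD ⟨_, rfl⟩) (hD ⟨_, rfl⟩) hs (by omega) h3
      (h.normalCore_eq_bot hθ h1 (by omega)))

theorem case_isolated [Finite G] (hb : ¬ IsConj (f (r 2)) (f (sr 0)))
    (hc : ¬ IsConj (f (r 2)) (f (sr 1))) : H8.NPC 2 (⊤ : Subgroup G) := by
  have hiso : ∀ y, IsConj (f (r 2)) (f y) → y = r 2 := fun y hy => by
    have h2 : orderOf y = 2 := by
      rw [← orderOf_injective f h.inj, ← orderOf_eq_of_isConj hy, h.orderOf_z]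
    have key : ∀ y : DihedralGroup 4, y ≠ 1 → y ^ 2 = 1 →
      y = r 2 ∨ (∃ w, w * y * w⁻¹ = sr 0) ∨ ∃ w, w * y * w⁻¹ = sr 1 := by decide
    rcases key y (fun h3 => by simp [h3] at h2) (by rw [← h2, pow_orderOf_eq_one]) with h3 | h3 | h3
    · exact h3
    · exact absurd (hy.trans (f.map_isConj (isConj_iff.mpr h3))) hb
    · exact absurd (hy.trans (f.map_isConj (isConj_iff.mpr h3))) hc
  have hz2 : f (r 2) ^ 2 ^ 1 = 1 := by rw [pow_one, ← h.orderOf_z, pow_orderOf_eq_one]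
  refine H8.npc_of_controls h.isSyl ?_
  rintro _ ⟨y, rfl⟩ g - ⟨y', hy'⟩
  have hzc : ∀ w, f (r 2) ∈ centralizer {f w} := fun w =>
    mem_centralizer_singleton_iff.mpr ((h.cen _).mpr ⟨w, rfl⟩).symm
  obtain ⟨T, hT, hzT⟩ := H8.exists_isSyl_ge (H8.isPGroup_zpowers hz2) (zpowers_le.mpr (hzc y'))
  obtain ⟨k, hk, hkT⟩ := hT.exists_conj_mem (x := g * f (r 2) * g⁻¹) (by
    rw [mem_centralizer_singleton_iff, hy', conj_mul, conj_mul,
      mem_centralizer_singleton_iff.mp (hzc y)]) ⟨1, by rw [conj_pow, hz2]; group⟩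
  obtain ⟨u, -, hu⟩ := h.isSyl.exists_cj_le hT.isPGroup le_top
  obtain ⟨a, ha⟩ := hu (L0.conj_mem_cj (hzT (mem_zpowers _)))
  obtain ⟨b, hb⟩ := hu (L0.conj_mem_cj hkT)
  obtain rfl := hiso a (isConj_iff.mpr ⟨u, ha.symm⟩)
  obtain rfl := hiso b (isConj_iff.mpr ⟨u * k * g, by rw [hb]; group⟩)
  have h1 : k * (g * f (r 2) * g⁻¹) * k⁻¹ = f (r 2) :=
    (MulAut.conj u).injective (hb.symm.trans ha)
  refine ⟨k * g, (h.cen _).mp (mul_inv_eq_iff_eq_mul.mp (Eq.trans (by group) h1)), ?_⟩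
  rw [← hy', show k * g * f y * (k * g)⁻¹ = k * (g * f y * g⁻¹) * k⁻¹ by group, ← hy',
    mem_centralizer_singleton_iff.mp hk, mul_inv_cancel_right]

end Cfsg.H4.D8
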