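import Cfsg.Agent.H4.Extraspecial

/-!
# Faithful modules of extraspecial groups in coprime characteristic
-/

set_option autoImplicit false
set_option linter.dupNamespace false

open scoped commutatorElement TensorProduct
open Subgroup Finset Polynomial Module

namespace Cfsg.H4

universe u v

variable {E : Type u} [Group E]

theorem index_center_le_finrank_sq [Finite E] {K : Type*} [Field K] {W : Type v} [AddCommGroup W]
    [Module K W] [Module.Finite K W] [Nontrivial W] (ρ : E →* Module.End K W)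
    (h1 : ∀ x y : E, ∃ c : K, ρ ⁅y, x⁆ = c • 1)
    (h2 : ∀ x x' y : E, ρ ⁅y, x⁆ = ρ ⁅y, x'⁆ → ⁅y, x⁆ = ⁅y, x'⁆) :
    (center E).index ≤ finrank K W ^ 2 := by
  classical
  choose c hc using h1
  have h0 : ∀ x, ρ x ≠ 0 := fun x h => by
    have := congrArg (· * ρ x⁻¹) h
    simp only [← map_mul, mul_inv_cancel, map_one, zero_mul] at this
    exact one_ne_zero this
  have h3 : ∀ x y, ρ y * ρ x * ρ y⁻¹ = c x y • ρ x := fun x y => by
    rw [← map_mul, ← map_mul, ← one_mul (ρ x), ← smul_mul_assoc, ← hc, ← map_mul,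
      commutatorElement_def, inv_mul_cancel_right]
  let l : E → E →* K := fun x =>
    { toFun := c x
      map_one' := smul_left_injective K (h0 x) (by simp only [← h3]; simp)
      map_mul' := fun y y' => smul_left_injective K (h0 x) (by
        have := congrArg (fun f => ρ y * f * ρ y⁻¹) (h3 x y')
        simp only [mul_smul_comm, smul_mul_assoc, h3 x y] at this
        simp only [mul_smul, ← h3 x (y * y'), mul_inv_rev, map_mul]
        rw [smul_comm, ← this]
        simp only [mul_assoc]) }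
  have h4 : Function.Injective fun q : E ⧸ center E => l q.out := fun q q' h => by
    rw [← q.out_eq, ← q'.out_eq]
    refine QuotientGroup.eq.mpr (mem_center_iff.mpr fun y => ?_)
    have h5 : c q.out y⁻¹ = c q'.out y⁻¹ := DFunLike.congr_fun h y⁻¹
    have h6 := h2 q.out q'.out y⁻¹ (by rw [hc, hc, h5])
    simp only [commutatorElement_def, inv_inv, mul_assoc, mul_right_inj] at h6
    calc y * (q.out⁻¹ * q'.out) = q.out⁻¹ * (q.out * (y * q.out⁻¹)) * q'.out := by group
      _ = _ := by rw [h6]; group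
  have := Fintype.ofFinite (E ⧸ center E)
  have h5 : LinearIndependent K fun q : E ⧸ center E => ρ q.out := by
    refine Fintype.linearIndependent_iff.mpr fun g hg q => ?_
    obtain ⟨φ, hφ⟩ := not_forall.mp ((Module.forall_dual_apply_eq_zero_iff K _).not.mpr (h0 q.out))
    refine (mul_eq_zero.mp (Fintype.linearIndependent_iff.mp
      ((linearIndependent_monoidHom E K).comp _ h4) (fun q => g q * φ (ρ q.out)) ?_ q)).resolve_right
        hφ
    funext y
    have h6 := congrArg (fun f => φ (ρ y * f * ρ y⁻¹)) hg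
    simp only [mul_sum, sum_mul, mul_smul_comm, smul_mul_assoc, h3, map_sum, map_smul, mul_zero,
      zero_mul, map_zero, smul_eq_mul] at h6
    simp only [Finset.sum_apply, Pi.smul_apply, Function.comp, smul_eq_mul, Pi.zero_apply]
    rw [← h6]
    exact sum_congr rfl fun q _ => by simp only [l, MonoidHom.coe_mk, OneHom.coe_mk]; ring
  have h6 := h5.fintype_card_le_finrank
  rwa [Module.finrank_linearMap, ← sq, Fintype.card_eq_nat_card] at h6

theorem finrank_ge_of_extraspecial [Finite E] {p r w n : ℕ} [hp : Fact p.Prime] [hr : Fact r.Prime]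
    (hpr : p ≠ r) (hE : IsExtraspecial p E) (hcard : Nat.card E = p ^ (2 * w + 1))
    {V : Type v} [AddCommGroup V] [Module (ZMod r) V] [Module.Finite (ZMod r) V]
    (ρ : E →* Module.End (ZMod r) V) (hρ : Function.Injective ρ)
    (hmin : ∀ k : ℕ, 1 ≤ k → p ∣ r ^ k - 1 → n ≤ k) : n * p ^ w ≤ finrank (ZMod r) V := by
  classical
  let K := AlgebraicClosure (ZMod r)
  let σ : E →* Module.End K (K ⊗[ZMod r] V) :=
    (Module.End.baseChangeHom (ZMod r) K V).toMonoidHom.comp ρ
  have hσ : Function.Injective σ := (LinearMap.baseChangeHom_injective (ZMod r) V K).comp hρ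
  have : Nontrivial (center E) := Finite.one_lt_card_iff_nontrivial.mp (hE.2 ▸ hp.out.one_lt)
  obtain ⟨⟨z, hz⟩, hz1⟩ := exists_ne (1 : center E)
  have hz1 : z ≠ 1 := fun h => hz1 (Subtype.ext h)
  have hzp : z ^ p = 1 := by
    have := pow_card_eq_one' (x := (⟨z, hz⟩ : center E))
    rw [hE.2] at this
    exact congrArg Subtype.val this
  have hpK : (p : K) ≠ 0 := by
    rw [Ne, CharP.cast_eq_zero_iff K r, Nat.prime_dvd_prime_iff_eq hr.out hp.out]
    exact hpr.symm
  have hss : (σ z).IsSemisimple := Module.End.isSemisimple_of_squarefree_aeval_eq_zero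
    (X_pow_sub_one_separable_iff.mpr hpK).squarefree (by
      rw [map_sub, map_pow, aeval_X, map_one, ← map_pow, hzp, map_one, sub_self])
  have hev : ∀ μ, (σ z).HasEigenvalue μ → μ ^ p = 1 := fun μ h => by
    obtain ⟨v, hv⟩ := h.exists_hasEigenvector
    have := hv.pow_apply p
    rw [← map_pow, hzp, map_one, Module.End.one_apply] at this
    exact smul_left_injective K hv.2 (by simpa using this.symm)
  obtain ⟨ζ, hζ1, hζ⟩ : ∃ ζ, ζ ≠ 1 ∧ (σ z).HasEigenvalue ζ := by
    by_contra! hc
    refine hz1 (hσ ?_)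
    have h1 : (σ z).eigenspace 1 = ⊤ := by
      rw [eq_top_iff, ← hss.iSup_eigenspace_eq_top]
      refine iSup_le fun μ => ?_
      by_cases h : μ = 1
      · rw [h]
      · rw [not_not.mp (Module.End.hasEigenvalue_iff.not.mp (hc μ h))]
        exact bot_le
    refine LinearMap.ext fun v => ?_
    have : v ∈ (σ z).eigenspace 1 := h1 ▸ trivial
    simpa using Module.End.mem_eigenspace_iff.mp this
  have hfr : ∀ μ, (σ z).HasEigenvalue μ → (σ z).HasEigenvalue (μ ^ r) := fun μ => by
    simp only [Module.End.hasEigenvalue_iff_isRoot_charpoly]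
    have : LinearMap.charpoly (σ z) = (LinearMap.charpoly (ρ z)).map (algebraMap _ K) :=
      LinearMap.charpoly_baseChange _ _
    simp only [this, IsRoot.def, eval_map_algebraMap]
    intro h
    rw [← expand_aeval, ZMod.expand_card, map_pow, h, zero_pow hr.out.ne_zero]
  have hfr' : ∀ i : ℕ, (σ z).HasEigenvalue (ζ ^ r ^ i) := fun i => by
    induction i with
    | zero => simpa using hζ
    | succ i ih => rw [pow_succ, pow_mul]; exact hfr _ ih
  have hord : orderOf ζ = p := orderOf_eq_prime (hev ζ hζ) hζ1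
  have hcop : ∀ i, p.Coprime (r ^ i) := fun i =>
    ((Nat.coprime_primes hp.out hr.out).mpr hpr).pow_right i
  have hinj : Function.Injective fun i : Fin n => ζ ^ r ^ (i : ℕ) := by
    have key : ∀ i j : Fin n, i < j → ζ ^ r ^ (i : ℕ) ≠ ζ ^ r ^ (j : ℕ) := fun i j hij h => by
      have hij : (i : ℕ) < j := hij
      have h1 := (isOfFinOrder_iff_pow_eq_one.mpr ⟨p, hp.out.pos, hev ζ hζ⟩).pow_eq_pow_iff_modEq.mp h
      rw [hord, Nat.modEq_iff_dvd' (Nat.pow_le_pow_right hr.out.pos hij.le),
        ← Nat.add_sub_cancel' hij.le, pow_add, ← Nat.mul_sub_one] at h1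
      have := hmin _ (by omega) ((hcop i).dvd_of_dvd_mul_left h1)
      have := j.2
      omega
    intro i j h
    rcases lt_trichotomy i j with h1 | h1 | h1
    · exact absurd h (key i j h1)
    · exact h1
    · exact absurd h.symm (key j i h1)
  have hdim : ∀ μ, μ ≠ 1 → (σ z).HasEigenvalue μ → p ^ w ≤ finrank K ((σ z).eigenspace μ) := by
    intro μ hμ1 hμ
    have hinv : ∀ x, ∀ v ∈ (σ z).eigenspace μ, σ x v ∈ (σ z).eigenspace μ := fun x v hv => by
      rw [Module.End.mem_eigenspace_iff] at hv ⊢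
      rw [← Module.End.mul_apply, ← map_mul, ← mem_center_iff.mp hz, map_mul, Module.End.mul_apply,
        hv, map_smul]
    let τ : E →* Module.End K ((σ z).eigenspace μ) :=
      { toFun := fun x => (σ x).restrict (hinv x)
        map_one' := by ext; simp
        map_mul' := fun x y => by ext; simp }
    have hτ : τ z = μ • 1 := by
      ext v
      simpa [τ] using Module.End.mem_eigenspace_iff.mp v.2
    have : Nontrivial ((σ z).eigenspace μ) := Submodule.nontrivial_iff_ne_bot.mpr hμ
    have hZ : ∀ x y : E, ∃ k : ℕ, ⁅y, x⁆ = z ^ k := fun x y => by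
      obtain ⟨k, hk⟩ := mem_zpowers_of_card_prime hp.out hE.2 hz hz1
        (hE.1.2.2.le (commutator_mem_commutator (mem_top y) (mem_top x)))
      exact (mem_powers_iff_mem_zpowers.mpr ⟨k, hk.symm⟩).imp fun _ h => h.symm
    have hτk : ∀ k : ℕ, τ (z ^ k) = μ ^ k • 1 := fun k => by
      rw [map_pow, hτ, _root_.smul_pow, one_pow]
    have h2 : ∀ x y : E, ∃ c : K, τ ⁅y, x⁆ = c • 1 := fun x y => by
      obtain ⟨k, hk⟩ := hZ x y
      exact ⟨μ ^ k, by rw [hk, hτk]⟩
    have h3 : ∀ x x' y : E, τ ⁅y, x⁆ = τ ⁅y, x'⁆ → ⁅y, x⁆ = ⁅y, x'⁆ := fun x x' y h => by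
      obtain ⟨k, hk⟩ := hZ x y
      obtain ⟨k', hk'⟩ := hZ x' y
      rw [hk, hk'] at h ⊢
      rw [hτk, hτk] at h
      obtain ⟨v, hv⟩ := exists_ne (0 : (σ z).eigenspace μ)
      have h4 : μ ^ k = μ ^ k' := smul_left_injective K (M := (σ z).eigenspace μ) (m := v) hv
        (LinearMap.congr_fun h v)
      have h2 := (isOfFinOrder_iff_pow_eq_one.mpr ⟨p, hp.out.pos, hev μ hμ⟩).pow_eq_pow_iff_modEq.mp
        h4
      rwa [pow_eq_pow_iff_modEq, orderOf_eq_prime hzp hz1, ← orderOf_eq_prime (hev μ hμ) hμ1]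
    have h1 := index_center_le_finrank_sq (K := K) (W := (σ z).eigenspace μ) τ h2 h3
    rw [extraspecial_index hE hcard, mul_comm, pow_mul] at h1
    exact (Nat.pow_le_pow_iff_left two_ne_zero).mp h1
  have h1 := LinearMap.finrank_le_finrank_of_injective
    ((σ z).eigenspaces_iSupIndep.comp hinj).dfinsupp_lsum_injective
  rw [Module.finrank_baseChange] at h1
  refine le_trans ?_ h1
  refine le_trans ?_ (Module.finrank_directSum K
    fun i : Fin n => (σ z).eigenspace (ζ ^ r ^ (i : ℕ))).ge
  refine le_trans (by simp) (Finset.card_nsmul_le_sum _ _ (p ^ w) fun i _ =>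
    hdim _ (fun h => ?_) (hfr' i))
  exact hp.out.coprime_iff_not_dvd.mp (hcop i) (hord ▸ orderOf_dvd_of_pow_eq_one h)

theorem card_ge_of_extraspecial_add [Finite E] {p r w n : ℕ} [hp : Fact p.Prime]
    [hr : Fact r.Prime] (hpr : p ≠ r) (hE : IsExtraspecial p E)
    (hcard : Nat.card E = p ^ (2 * w + 1)) {V : Type v} [AddCommGroup V] [Finite V]
    (hV : ∀ a : V, r • a = 0) (ρ : E → V →+ V) (h1 : ∀ v, ρ 1 v = v)
    (h2 : ∀ x y v, ρ (x * y) v = ρ x (ρ y v)) (hρ : Function.Injective ρ)
    (hmin : ∀ k : ℕ, 1 ≤ k → p ∣ r ^ k - 1 → n ≤ k) : r ^ (n * p ^ w) ≤ Nat.card V := by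
  obtain ⟨_⟩ : Nonempty (Module (ZMod r) V) := ⟨AddCommGroup.zmodModule hV⟩
  have : Module.Finite (ZMod r) V := Module.Finite.of_finite
  let σ : E →* Module.End (ZMod r) V :=
    { toFun := fun x => (ρ x).toZModLinearMap r
      map_one' := LinearMap.ext h1
      map_mul' := fun x y => LinearMap.ext (h2 x y) }
  have h3 := finrank_ge_of_extraspecial hpr hE hcard σ
    ((AddMonoidHom.toZModLinearMap_injective r).comp hρ) hmin
  have h4 : Nat.card V = _ := Module.natCard_eq_pow_finrank (K := ZMod r)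
  rw [Nat.card_zmod] at h4
  exact (Nat.pow_le_pow_right hr.out.pos h3).trans h4.ge

theorem card_ge_of_extraspecial [Finite E] {p r w n : ℕ} [hp : Fact p.Prime] [hr : Fact r.Prime]
    (hpr : p ≠ r) (hE : IsExtraspecial p E) (hcard : Nat.card E = p ^ (2 * w + 1))
    {A : Type v} [CommGroup A] [Finite A] (hA : ∀ a : A, a ^ r = 1)
    (ρ : E →* MulAut A) (hρ : Function.Injective ρ)
    (hmin : ∀ k : ℕ, 1 ≤ k → p ∣ r ^ k - 1 → n ≤ k) : r ^ (n * p ^ w) ≤ Nat.card A :=
  card_ge_of_extraspecial_add (V := Additive A) hpr hE hcard (fun x => hA x.toMul)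
    (fun x => MonoidHom.toAdditive (ρ x).toMonoidHom) (fun a => by rw [map_one]; rfl)
    (fun x y a => by rw [map_mul]; rfl)
    (fun _ _ h => hρ (MulEquiv.ext fun a => DFunLike.congr_fun h (Additive.ofMul a))) hmin

end Cfsg.H4
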