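import Cfsg.Agent.H4.ClassSum
import Cfsg.Prelude.Def_Transfer

/-!
# Characters of extraspecial groups
-/

set_option autoImplicit false
set_option linter.dupNamespace false

open scoped ComplexConjugate commutatorElement

namespace Cfsg

open Cfsg.H4

universe u v

namespace H4

variable {P : Type u} [Group P]

/-- A class function on which the centre acts by a faithful linear character vanishes off the
centre, if commutators are central. -/
theorem apply_eq_zero_of_center {f : P → ℂ} (hf : IsClassFunction P f)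
    (hcomm : commutator P ≤ Subgroup.center P)
    (hZ : ∀ z ∈ Subgroup.center P, z ≠ 1 → ∃ c : ℂ, c ≠ 1 ∧ ∀ x, f (z * x) = c * f x)
    {x : P} (hx : x ∉ Subgroup.center P) : f x = 0 := by
  rw [Subgroup.mem_center_iff] at hx
  push Not at hx
  obtain ⟨y, hy⟩ := hx
  obtain ⟨c, hc, h⟩ := hZ ⁅y, x⁆ (hcomm (Subgroup.commutator_mem_commutator (Subgroup.mem_top y)
    (Subgroup.mem_top x))) (by rwa [Ne, commutatorElement_eq_one_iff_mul_comm])
  have := h x
  rw [commutatorElement_def, inv_mul_cancel_right, hf] at this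
  have h2 : (c - 1) * f x = 0 := by linear_combination -this
  exact (mul_eq_zero.mp h2).resolve_left (sub_ne_zero.mpr hc)

/-- A subgroup of prime order is generated by each nontrivial element. -/
theorem mem_zpowers_of_card_prime {Z : Subgroup P} {p : ℕ} (hp : p.Prime) (hZ : Nat.card Z = p)
    {z w : P} (hz : z ∈ Z) (hz1 : z ≠ 1) (hw : w ∈ Z) : ∃ k : ℤ, w = z ^ k := by
  have := Fact.mk hp
  have := mem_zpowers_of_prime_card hZ (g := ⟨z, hz⟩) (fun h => hz1 (congrArg Subtype.val h))
    (g' := ⟨w, hw⟩)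
  obtain ⟨k, hk⟩ := this
  exact ⟨k, (congrArg Subtype.val hk).symm⟩

theorem extraspecial_index {p n : ℕ} [hp : Fact p.Prime] (hP : IsExtraspecial p P)
    (hcard : Nat.card P = p ^ (2 * n + 1)) : (Subgroup.center P).index = p ^ (2 * n) := by
  have := (Subgroup.center P).index_mul_card
  rw [hP.2, hcard, pow_succ] at this
  exact Nat.eq_of_mul_eq_mul_right hp.out.pos this

theorem extraspecial_irr [Finite P] {p n : ℕ} [hp : Fact p.Prime] (hP : IsExtraspecial p P)
    (hcard : Nat.card P = p ^ (2 * n + 1)) {χ : P → ℂ} (hχ : IsIrrCharacter P χ)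
    (h1 : χ 1 ≠ 1) : (∀ x, x ∉ Subgroup.center P → χ x = 0) ∧ χ 1 = (p : ℂ) ^ n := by
  have hv : ∀ x, x ∉ Subgroup.center P → χ x = 0 := by
    intro x hx
    refine apply_eq_zero_of_center hχ.isClassFunction hP.1.2.2.le (fun z hz hz1 => ?_) hx
    obtain ⟨c, -, hc⟩ := hχ.exists_mul_eq_of_mem_center hz
    refine ⟨c, ?_, hc⟩
    rintro rfl
    apply h1
    refine hχ.apply_one_eq_one_of_commutator fun g hg => ?_
    rw [hP.1.2.2] at hg
    obtain ⟨k, rfl⟩ := mem_zpowers_of_card_prime hp.out hP.2 hz hz1 hg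
    have : z ∈ charKer χ := fun x => by rw [hc, one_mul]
    exact hχ.isCharacter.mem_charKer.mp ((charKer χ).zpow_mem this k)
  refine ⟨hv, ?_⟩
  have := Fintype.ofFinite P
  have := (hχ.sq_le_index (Subgroup.center P) (fun z hz =>
    hχ.isCharacter.mem_charCenter.mp (hχ.center_le_charCenter hz))).2.mpr hv
  obtain ⟨d, hd, hd'⟩ := hχ.exists_apply_one
  rw [hd', extraspecial_index hP hcard, Complex.norm_natCast] at this
  have h2 : d ^ 2 = (p ^ n) ^ 2 := by
    rw [← pow_mul, mul_comm n 2]
    exact_mod_cast this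
  rw [hd', Nat.pow_left_injective two_ne_zero h2]
  simp

theorem extraspecial_pos [Finite P] {p n : ℕ} [hp : Fact p.Prime] (hP : IsExtraspecial p P)
    (hcard : Nat.card P = p ^ (2 * n + 1)) : n ≠ 0 := by
  rintro rfl
  have h1 := extraspecial_index hP hcard
  simp only [mul_zero, pow_zero, Subgroup.index_eq_one] at h1
  have h2 : commutator P = ⊥ := by
    rw [commutator_eq_bot_iff_center_eq_top, h1]
  have h3 := hP.2
  rw [← hP.1.2.2, h2, Subgroup.card_bot] at h3
  exact hp.out.one_lt.ne h3

end H4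

end Cfsg
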