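import Cfsg.Agent.H4.GL23Amal
import Cfsg.Agent.H4.D8Amal
import Cfsg.Agent.H4.Golay

/-!
# The actions of `SL₃(3)` on 117 antiflags and of `M₁₁` on 165 triples
-/

set_option autoImplicit false
set_option maxRecDepth 100000

open scoped Pointwise

namespace Cfsg.H4.Low2

open Cfsg.H6 Cfsg.H4.Low

/-- Entry of a packed list of masks. -/
def msk (M n i : ℕ) : ℕ := (M >>> (n * i)) % 2 ^ n

/-- The set with a listed mask. -/
def mset {Z : Type*} (ix : Z → ℕ) (M n i : ℕ) : Set Z := {z | (msk M n i).testBit (ix z)}

theorem tab_masks {Γ Z : Type*} [Group Γ] [MulAction Γ Z] {ev : ℕ → Γ} {ix : Z → ℕ}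
    {n K N M : ℕ} (τ : ℕ → ℕ → ℕ) {T : ℕ → ℕ → ℕ} (h1 : ∀ z, ix z < n)
    (h2 : ∀ l < K, ∀ z, ix (ev l • z) = τ l (ix z))
    (h3 : ∀ i < N, ∀ l < K, T i l < N ∧
      ∀ k < n, (msk M n i).testBit (τ l k) = (msk M n (T i l)).testBit k) :
    Tab ev (mset ix M n) K N T := fun i hi l hl => ⟨(h3 i hi l hl).1, Set.ext fun z => by
  simp only [Set.mem_inv_smul_set_iff, mset, Set.mem_ofPred_eq, h2 l hl,
    (h3 i hi l hl).2 _ (h1 z)]⟩

theorem inj_masks {Z : Type*} {ix : Z → ℕ} {n N M : ℕ} (h1 : ∀ k < n, ∃ z, ix z = k)
    (h2 : ∀ i < N, ∀ j < N, msk M n i = msk M n j → i = j) : Inj (mset ix M n) N := by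
  intro i hi j hj e
  refine h2 i hi j hj (Nat.eq_of_testBit_eq fun k => ?_)
  by_cases hk : k < n
  · obtain ⟨z, rfl⟩ := h1 k hk
    exact Bool.coe_iff_coe.mp (Set.ext_iff.mp e z)
  · simp [msk, Nat.testBit_mod_two_pow, hk]

theorem testBit_of_fix {Γ Z : Type*} [Group Γ] [MulAction Γ Z] {ix : Z → ℕ} {n M i : ℕ} {g : Γ}
    (h : g • mset ix M n i = mset ix M n i) (z : Z) :
    (msk M n i).testBit (ix (g • z)) = (msk M n i).testBit (ix z) :=
  Bool.coe_iff_coe.mp (MulAction.mem_stabilizer_set.mp h z)

variable {G : Type*} [Group G] [Finite G] {X : Type*} [MulAction G X] {ev : ℕ → G}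

theorem card_SL3_three : Nat.card (Matrix.SpecialLinearGroup (Fin 3) (ZMod 3)) = 5616 := by
  have h := H3.card_SL_mul (n := Fin 3) (F := ZMod 3)
  rw [Matrix.card_GL_field, Nat.card_units] at h
  simp only [Nat.card_zmod, ZMod.card, Fin.prod_univ_three, Fin.val_zero, Fin.val_one,
    Fin.val_two] at h
  omega

/-- Generators of `SL₃(3)`. -/
def gen117 : ℕ → Matrix.SpecialLinearGroup (Fin 3) (ZMod 3) :=
  ev4 ⟨!![0, 0, 1; 0, 2, 0; 1, 0, 0], by decide +kernel⟩ ⟨!![1, 0, 0; 0, 2, 0; 0, 0, 2], by decide +kernel⟩
    ⟨!![1, 0, 0; 0, 2, 0; 2, 0, 2], by decide +kernel⟩ ⟨!![1, 1, 1; 2, 0, 1; 1, 2, 1], by decide +kernel⟩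

/-- The number of a vector. -/
def ix27 (v : Fin 3 → ZMod 3) : ℕ := (v 0).val + 3 * (v 1).val + 9 * (v 2).val

/-- The antiflags. -/
def m117 : ℕ := 494550170027560891868371798496681499871575537189982502109887845825770858355478086391406147204184736720109732602838323413188722648537801871674302106782054644920352168661065515436407811469344387344380095259355364365214387920076174542740593068063902340665078408001635580429372096120209366698071752850240655319698217145530657426893094670464012777362159151333331875565876075126007046401565804073809126350859795129257970865081813441367476858299714615462905853026372473147386248101554390806182233022151564421772550543490556262718291908177609294184701710552576498572547248443880237650217949644509390457020222554560354540374604232721728952608226174838327611406251827893515528078063692944952277508065837466121249823339585381426264217607877161066366552492925443569085980596231250386863515722689382087478808235630920573403420137498211316206059995691170681275973603118904064523663227641953587668722851220806922156436977736935656939014680369261482222933792186437199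

theorem equiv_SL3_three (hG : Subgroup.closure {g | ∃ l < 5, ev l = g} = ⊤)
    (h : Goal (parG 117 tab117) ev X) (hM : Nat.card G = 5616)
    (hf : ∀ x : ℕ → X, Inj x 117 → ∀ g : G, (∀ i < 117, g • x i = x i) → g = 1) :
    Nonempty (G ≃* Matrix.SpecialLinearGroup (Fin 3) (ZMod 3)) := by
  obtain ⟨k, hk, x, hx, tx⟩ := h
  obtain rfl : k = 0 := Nat.lt_one_iff.mp hk
  obtain ⟨θ, hθ⟩ := exists_injective_hom (ev' := gen117) (y := mset ix27 m117 27) hG hx
    (inj_masks (by decide +kernel) (by decide +kernel)) tx
    (tab_masks (fun l => Golay.tb ([36485634846548906633991799739614356408352,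
      31909220454135792964160627294885974853920, 19625449674153336999180297029247544002592,
      31493159394278570144244627794610323926624, 25105241412072647074735535247305900416512].getD l 0))
      (by decide +kernel) (by decide +kernel) (by decide +kernel)) (hf x hx) (fun g hg => by
      have k1 : ∀ v ∈ [![1, 0, 0], ![0, 1, 0], ![0, 0, 1], ![1, 1, 1]], ∀ w : Fin 3 → ZMod 3,
          (∀ i < 117, (msk m117 27 i).testBit (ix27 w) = (msk m117 27 i).testBit (ix27 v)) →
          w = v ∨ w = -v := by decide +kernel
      have k2 := fun v hv => k1 v hv _ fun i hi => testBit_of_fix (hg i hi) v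
      have k3 : ∀ a d g : ZMod 3, (![a, d, g] = ![1, 0, 0] ∨ ![a, d, g] = -![1, 0, 0]) →
          ∀ b e h : ZMod 3, (![b, e, h] = ![0, 1, 0] ∨ ![b, e, h] = -![0, 1, 0]) →
          ∀ c f i : ZMod 3, (![c, f, i] = ![0, 0, 1] ∨ ![c, f, i] = -![0, 0, 1]) →
          (![a + b + c, d + e + f, g + h + i] = ![1, 1, 1] ∨
            ![a + b + c, d + e + f, g + h + i] = -![1, 1, 1]) →
          a * e * i - a * f * h - b * d * i + b * f * g + c * d * h - c * e * g = 1 →
          !![a, b, c; d, e, f; g, h, i] = 1 := by decide +kernel
      have k4 : ∀ a b c : ZMod 3, g • ![a, b, c] = ![g 0 0 * a + g 0 1 * b + g 0 2 * c,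
          g 1 0 * a + g 1 1 * b + g 1 2 * c, g 2 0 * a + g 2 1 * b + g 2 2 * c] := fun a b c => by
        ext i
        fin_cases i <;> simp [Matrix.SpecialLinearGroup.smul_def, Matrix.smul_eq_mulVec,
          Matrix.mulVec, dotProduct, Fin.sum_univ_three]
      simp only [List.forall_mem_cons, k4, mul_one, mul_zero, add_zero, zero_add] at k2
      exact Subtype.ext ((Matrix.eta_fin_three _).trans (k3 _ _ _ k2.1 _ _ _ k2.2.1 _ _ _ k2.2.2.1
        k2.2.2.2.1 ((Matrix.det_fin_three _).symm.trans g.det_coe))))
  exact ⟨MulEquiv.ofBijective θ ((Nat.bijective_iff_injective_and_card θ).2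
    ⟨hθ, hM.trans card_SL3_three.symm⟩)⟩

/-- `SL₃(3)` has trivial centre. -/
noncomputable def equivPSL : Matrix.SpecialLinearGroup (Fin 3) (ZMod 3) ≃*
    Matrix.ProjectiveSpecialLinearGroup (Fin 3) (ZMod 3) :=
  ((QuotientGroup.quotientMulEquivOfEq (by
    rw [eq_bot_iff]
    intro A hA
    obtain ⟨r, h1, h2⟩ := Matrix.SpecialLinearGroup.mem_center_iff.mp hA
    have : r = 1 := by clear h2; revert r; decide
    exact Subtype.ext (by rw [← h2, this, map_one]; rfl))).trans QuotientGroup.quotientBot).symm

open Golay in
/-- An element of `M₁₁` given by the table of an involution. -/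
def mk11 (τ : ℕ) (h : Inverse τ τ ∧ (∀ g ∈ basis, Golay.red basis (pull τ g) = 0 ∧
    ∀ i < 24, g.testBit (tb τ i) = (pull τ g).testBit i) ∧ tb τ 0 = 0 ∧
    ∀ i < 24, Nat.testBit 340831 (tb τ i) = Nat.testBit 340831 i) : Spor.M11 :=
  ⟨prm τ τ h.1, mem_M12.mpr ⟨prm_mem h.1 h.2.1, fun p => by
    rw [idx_prm, h.2.2.2 _ (idx_lt p)]⟩, congrArg pt h.2.2.1⟩

/-- Generators of `M₁₁`. -/
def gen165 : ℕ → Spor.M11 :=
  ev4 (mk11 970499966350631336865513127433832480 (by decide +kernel))
    (mk11 944576703234065857180591671912828960 (by decide +kernel))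
    (mk11 845928014986720888753639071069341984 (by decide +kernel))
    (mk11 969202056781860934635753244362607648 (by decide +kernel))

/-- The triples. -/
def m165 : ℕ := 240116899447181721352367949886518266690010107526337710298960925087239949500109652657996223244470474005881762464264731032794978876386022015477168884959200901344047158528343578827844382061100526252723040831132208193418734159837617302597711931003730790474110419810372393324197091619882428163812301034147027646036990406756470015156295357783814305257385717642328786773483552012554095692876663653858074221947242683763606872505257634627541161958451435612827917137667416510471505721701479928213755438652039605679086643225093634146046005006771310225349700960271479653051455719890032798798660431781367167797600391699676950841909714876666905613956888087261447847449942829547961644817182915885239536097207648900107196549246595495358338177255394473233211993715739347005749041509322762772378479793958769293036697554246386634376641171754319278420005417834228497912419651677619716177866734150725335640125395403954305041893305149059613214024028744656984706977415051772006820686503501011808043489281376795328222420821878234523826488057554803578997352845479843635361159770839602947393804908059110568000465139615429621930559050660805937124455032891403567805783904414464656304539893330536414397182502378668610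

open Golay in
theorem equiv_M11 (hG : Subgroup.closure {g | ∃ l < 5, ev l = g} = ⊤)
    (h : Goal (parG 165 tab165) ev X) (hM : Nat.card G = 7920)
    (hf : ∀ x : ℕ → X, Inj x 165 → ∀ g : G, (∀ i < 165, g • x i = x i) → g = 1) :
    Spor.IsoM11 G := by
  obtain ⟨k, hk, x, hx, tx⟩ := h
  obtain rfl : k = 0 := Nat.lt_one_iff.mp hk
  obtain ⟨θ, hθ⟩ := exists_injective_hom (ev' := gen165) (y := mset idx m165 24) hG hx
    (inj_masks (fun k hk => ⟨_, idx_pt k hk⟩) (by decide +kernel)) tx
    (tab_masks (fun l => tb ([984818244535754528103549039458486304,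
      970499966350631336865513127433832480, 944576703234065857180591671912828960,
      845928014986720888753639071069341984, 969202056781860934635753244362607648].getD l 0))
      idx_lt (by decide +kernel) (by decide +kernel)) (hf x hx) (fun g hg => by
      have k1 : ∀ i < 4, ∀ p, (∀ j ∈ [0, 1, 2, 14, 15, 16],
          (msk m165 24 j).testBit (idx p) = (msk m165 24 j).testBit (idx (pt (i + 1)))) →
          p = pt (i + 1) := by decide +kernel
      refine Subtype.ext (eq_one_of_mem_M12 g.2.1 ?_)
      rintro (_ | i) hi
      · exact g.2.2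
      · exact k1 i (by omega) _ fun j hj => testBit_of_fix (hg j (by revert j; decide)) _)
  exact ⟨MulEquiv.ofBijective θ ((Nat.bijective_iff_injective_and_card θ).2 ⟨hθ,
    le_antisymm (Nat.card_le_card_of_injective θ hθ) (hM ▸ card_M11_le)⟩)⟩

end Cfsg.H4.Low2
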