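import Cfsg.Agent.H4.GL23Ord
import Cfsg.Agent.H4.GL23Tgt
import Cfsg.Agent.H8.Frobenius
import Cfsg.Agent.L0.Invert

/-!
# Groups with an involution centralizer `GL₂(3)`: the identification
-/

set_option autoImplicit false
set_option maxRecDepth 100000

open Subgroup

namespace Cfsg.H4.GLC

open Cfsg.H6 Cfsg.H4.Low Cfsg.H4.Low2 K48

universe u

variable {G : Type u} [Group G] {f : K48 →* G} (h : GLC f)

/-- The relations of the fourth generator. -/
structure Gen (f : K48 →* G) (s : G) : Prop where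
  ss : s * s = 1
  sb : s * f b = f b * s
  st : s * f 20 * s = f 14
  sc : (s * f 2) ^ 3 = 1

include h

theorem exists_s (hb : IsConj (f 20) (f b)) : ∃ s, Gen f s := by
  obtain ⟨g, hg⟩ := isConj_iff.mp hb
  have hzb : f 20 * f b = f b * f 20 := ((h.cen _).mpr ⟨_, rfl⟩).symm
  obtain ⟨y, hy⟩ := (h.cen (g⁻¹ * f 20 * g)).mp (by
    calc _ = g⁻¹ * (f 20 * (g * f 20 * g⁻¹)) * g := by group
      _ = g⁻¹ * ((g * f 20 * g⁻¹) * f 20) * g := by rw [hg, hzb]
      _ = _ := by group)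
  have hz : g * f y * g⁻¹ = f 20 := by rw [hy]; group
  obtain ⟨a1, a2⟩ := h.sq_of_isConj (isConj_iff.mpr ⟨g⁻¹, by rw [inv_inv, hy]⟩ : IsConj (f 20) (f y))
  have key : ∀ y : K48, y ≠ 1 → y * y = 1 → y ≠ 20 → ∃ w, w * w = 1 ∧ w * y * w = y * 20 := by
    decide +kernel
  obtain ⟨w, hw1, hw2⟩ := key y (fun e => a1 (by rw [e, map_one])) (h.inj (by simpa using a2))
    (by rintro rfl; exact absurd (h.inj (hg.symm.trans hz)) (by decide +kernel))
  set s := g * f w * g⁻¹ with hs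
  have e1 : s * s = 1 := by rw [conj_mul, ← map_mul, hw1, map_one]; group
  have e1' : s⁻¹ = s := inv_eq_of_mul_eq_one_left e1
  have e2 : s * f b = f b * s := by rw [← hg, conj_mul, conj_mul, (h.cen _).mpr ⟨w, rfl⟩]
  have e3 : s * f 20 * s = f 14 := by
    rw [← hz, conj_mul, conj_mul, ← map_mul, ← map_mul, hw2, map_mul, ← conj_mul, hz, hg,
      ← map_mul]
    rfl
  have e4 : s * f 14 * s = f 20 := by
    rw [← e3]
    calc _ = (s * s) * f 20 * (s * s) := by group
      _ = _ := by rw [e1]; group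
  have e5 : s * f b * s = f b := by rw [e2, mul_assoc, e1, mul_one]
  refine ⟨s, e1, e2, e3, ?_⟩
  have h3 : ∀ x, s * f 2 * f x * (s * f 2)⁻¹ = s * f (2 * x * 2⁻¹) * s := fun x => by
    rw [map_mul, map_mul, map_inv, mul_inv_rev, e1']; group
  have c1 := (h3 20).trans e3
  have c2 := (h3 14).trans e5
  have c3 := (h3 b).trans e4
  generalize s * f 2 = u at c1 c2 c3
  have h4 : ∀ x, u ^ 3 * x * (u ^ 3)⁻¹ = u * (u * (u * x * u⁻¹) * u⁻¹) * u⁻¹ := fun x => by
    simp only [pow_succ, pow_zero, one_mul, mul_inv_rev, mul_assoc]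
  obtain ⟨y, hy⟩ := (h.cen (u ^ 3)).mp (mul_inv_eq_iff_eq_mul.mp (by rw [h4, c1, c2, c3]))
  have h5 : y * b * y⁻¹ = b := h.inj (by rw [map_mul, map_mul, map_inv, hy, h4, c3, c1, c2])
  have h6 : u * f y * u⁻¹ = f y := by rw [hy]; group
  have key : ∀ y : K48, y * b * y⁻¹ = b → y = 1 ∨ y = 20 ∨ y = 14 ∨ y = b := by decide +kernel
  rcases key y h5 with rfl | rfl | rfl | rfl
  · rw [← hy, map_one]
  · exact absurd (h.inj (c1.symm.trans h6)) (by decide +kernel)
  · exact absurd (h.inj (c2.symm.trans h6)) (by decide +kernel)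
  · exact absurd (h.inj (c3.symm.trans h6)) (by decide +kernel)

omit h in
theorem range_le {K : Subgroup G} (h1 : f b ∈ K) (h2 : f 2 ∈ K) (h3 : f 3 ∈ K) : f.range ≤ K := by
  rintro _ ⟨y, rfl⟩
  obtain ⟨w, -, e⟩ := exists_word y
  rw [eq_inv_of_mul_eq_one_left e, map_inv, inv_mem_iff, map_evL]
  refine list_prod_mem fun x hx => ?_
  obtain ⟨l, -, rfl⟩ := List.mem_map.mp hx
  rcases l with _ | _ | _ | _ | l
  exacts [map_one f ▸ one_mem K, h1, h2, h3, map_one f ▸ one_mem K]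

omit h in
theorem index_ne_two {s : G} (hs : Gen f s) (hG : ∀ K, f.range ≤ K → s ∈ K → K = ⊤)
    (N : Subgroup G) : N.index ≠ 2 := fun hN => by
  have hn := normal_of_index_eq_two hN
  have h1 : ∀ x : G, x ^ 3 = 1 → x ∈ N := fun x hx => by
    simpa [← sq, ← pow_mul, show x ^ (2 * 2) = x ^ 3 * x from pow_succ x 3, hx] using
      N.mul_self_mem_of_index_two hN (x * x)
  have h2 : ∀ x : K48, x ^ 3 = 1 → f x ∈ N := fun x hx => h1 _ (by rw [← map_pow, hx, map_one])
  have ht : f 20 ∈ N := by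
    rw [show (20 : K48) = 4 * 4 by decide +kernel, map_mul]; exact N.mul_self_mem_of_index_two hN _
  have h14 : f 14 ∈ N := by
    rw [← hs.st]; nth_rewrite 2 [← inv_eq_of_mul_eq_one_left hs.ss]; exact hn.conj_mem _ ht s
  have hb : f b ∈ N := by
    rw [show b = 14 * 20 by decide +kernel, map_mul]; exact mul_mem h14 ht
  have he : f 3 ∈ N := by
    rw [show (3 : K48) = b * 5 by decide +kernel, map_mul]
    exact mul_mem hb (h2 5 (by decide +kernel))
  have hc : f 2 ∈ N := by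
    rw [show (2 : K48) = 7 * 3 by decide +kernel, map_mul]
    exact mul_mem (h2 7 (by decide +kernel)) he
  rw [hG N (range_le hb hc he) ((N.mul_mem_cancel_right hc).mp (h1 _ hs.sc)), index_top] at hN
  omega

theorem generated [Finite G] (hG : ∀ N : Subgroup G, N.index ≠ 2) {s : G} (hs : Gen f s)
    (K : Subgroup G) (h1 : f.range ≤ K) (h2 : s ∈ K) : K = ⊤ := by
  set L := f.range ⊔ zpowers s with hL
  have hfL : ∀ y, f y ∈ L := fun y => mem_sup_left ⟨y, rfl⟩
  let f' := f.codRestrict L hfL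
  have h' : GLC f' := ⟨fun x y e => h.inj (congrArg Subtype.val e), fun x => by
    rw [Subtype.ext_iff]
    exact (h.cen x).trans ⟨fun ⟨y, hy⟩ => ⟨y, Subtype.ext hy⟩,
      fun ⟨y, hy⟩ => ⟨y, congrArg Subtype.val hy⟩⟩⟩
  have h3 := h'.index_eq (index_ne_two (f := f') (s := ⟨s, mem_sup_right (mem_zpowers s)⟩)
    ⟨Subtype.ext hs.ss, Subtype.ext hs.sb, Subtype.ext hs.st, Subtype.ext hs.sc⟩ fun M a b => by
      rw [eq_top_iff]
      intro x _
      obtain ⟨y, hy, e⟩ : (x : G) ∈ M.map L.subtype := (sup_le (by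
        rintro _ ⟨y, rfl⟩; exact ⟨_, a ⟨y, rfl⟩, rfl⟩) (zpowers_le.mpr (mem_map.mpr ⟨_, b, rfl⟩)) :
          L ≤ M.map L.subtype) x.2
      exact Subtype.ext e ▸ hy)
  have h4 := h.index_eq hG
  have h5 := L.card_subgroup_dvd_card
  rw [eq_top_iff, ← show L = ⊤ from eq_top_of_le_card _ ?_]
  · exact sup_le h1 (zpowers_le.mpr h2)
  rw [h'.card_eq, h.card_eq] at h5 ⊢
  rcases h3 with h3 | h3 <;> rcases h4 with h4 | h4 <;> rw [h3, h4] at h5 ⊢ <;> omega

theorem normalCore_eq_bot [Finite G] (hi : 48 < f.range.index) : f.range.normalCore = ⊥ := by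
  by_contra hne
  obtain ⟨⟨g, hg⟩, hg1⟩ := ne_bot_iff_exists_ne_one.mp hne
  obtain ⟨y, rfl⟩ := normalCore_le _ hg
  have key : ∀ y : K48, y ≠ 1 → y = 20 ∨ ∃ u, (u * y * u⁻¹ * y⁻¹) ^ 2 = 20 := by decide +kernel
  have hn : f.range.normalCore.Normal := inferInstance
  have hz : f 20 ∈ f.range.normalCore := by
    rcases key y (by rintro rfl; exact hg1 (Subtype.ext (map_one f))) with rfl | ⟨u, e⟩
    · exact hg
    · rw [← e]
      simp only [map_mul, map_inv, map_pow]
      exact pow_mem (mul_mem (hn.conj_mem _ hg _) (inv_mem hg)) 2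
  have h2 := Nat.card_le_card_of_injective (fun x : {x : G // IsConj (f 20) x} =>
    (⟨x.1, by
      obtain ⟨w, e⟩ := isConj_iff.mp x.2
      exact e ▸ normalCore_le _ (hn.conj_mem _ hz w)⟩ : f.range))
    fun x y e => Subtype.ext (congrArg (fun z : f.range => (z : G)) e)
  rw [h.card_class, h.card_range] at h2
  omega

theorem exists_three [Finite G] (h9 : 9 ∣ Nat.card G) :
    ∃ y, y * f 5 = f 5 * y ∧ (orderOf y).Coprime 2 ∧ y ∉ f.range := by
  have : Fact (Nat.Prime 3) := ⟨Nat.prime_three⟩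
  obtain ⟨P, hP⟩ := (H8.isPGroup_zpowers (p := 3) (k := 1) (x := f 5)
    (by rw [← map_pow, ← map_one f]; rfl)).exists_le_sylow
  have h5 : f 5 ∈ (P : Subgroup G) := hP (mem_zpowers _)
  by_contra! hc
  have h1 : ∀ y ∈ (P : Subgroup G), y * f 5 = f 5 * y → y ∈ f.range := fun y hy e => hc y e (by
    obtain ⟨k, hk⟩ := IsPGroup.iff_orderOf.mp P.isPGroup' ⟨y, hy⟩
    rw [← Subgroup.orderOf_mk y hy, hk]
    exact Nat.Coprime.pow_left _ (by norm_num))
  have : Nontrivial P := ⟨⟨⟨_, h5⟩, 1, fun e => absurd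
    (h.inj ((congrArg Subtype.val e).trans (map_one f).symm)) (by decide +kernel)⟩⟩
  have := P.isPGroup'.center_nontrivial
  obtain ⟨⟨⟨z, hz⟩, hz1⟩, hz2⟩ := exists_ne (1 : center P)
  have h4 : ∀ x ∈ (P : Subgroup G), x * z = z * x := fun x hx =>
    congrArg Subtype.val (mem_center_iff.mp hz1 ⟨x, hx⟩)
  obtain ⟨y, rfl⟩ := h1 z hz (h4 _ h5).symm
  have key : ∀ y : K48, 5 * y = y * 5 → y ^ 4 = 1 ∨ y ^ 4 = 5 ∨ (y ^ 4)⁻¹ = 5 := by decide +kernel
  have h6 : (P : Subgroup G) ≤ f.range := fun x hx => h1 x hx (by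
    have h7 : Commute x (f (y ^ 4)) := map_pow f y 4 ▸ Commute.pow_right (h4 x hx) 4
    rcases key y (h.inj (by simpa using h4 _ h5)) with e | e | e
    · obtain ⟨k, hk⟩ := P.isPGroup' ⟨_, hz⟩
      exact absurd (Subtype.ext (Subtype.ext (H8.eq_one_of_pow_coprime
        (Nat.Coprime.pow_right k (by norm_num : Nat.Coprime 4 3))
        (by rw [← map_pow, e, map_one]) (congrArg Subtype.val hk)))) hz2
    · exact e ▸ h7
    · rw [← e, map_inv]; exact h7.inv_right)
  have h7 := card_dvd_of_le h6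
  rw [h.card_range] at h7
  have h8 : 3 ^ 2 ∣ Nat.card P := P.pow_dvd_card_of_pow_dvd_card h9
  exact absurd (h8.trans h7) (by norm_num)

theorem npc [Finite G] : H8.NPC 2 (centralizer {f 5}) := by
  have ht : f 20 ∈ centralizer {f 5} :=
    mem_centralizer_singleton_iff.mpr ((h.cen _).mpr ⟨_, rfl⟩).symm
  have h1 : ∀ g ∈ normalizer (zpowers (f 20) : Set G), g * f 20 = f 20 * g := fun g hg => by
    obtain ⟨k, hk⟩ := (mem_normalizer_iff.mp hg _).mp (mem_zpowers _)
    simp only [← map_zpow] at hk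
    have key : ∀ y : K48, (∀ x, x * y = y * x) → y = 1 ∨ y = 20 := by decide +kernel
    rcases key (20 ^ k) fun x => (Commute.zpow_right (show x * 20 = 20 * x by revert x; decide +kernel) k) with e | e
    · rw [e, map_one, eq_comm, conj_eq_one_iff] at hk
      exact absurd hk h.t_ne
    · rw [e] at hk
      exact mul_inv_eq_iff_eq_mul.mp hk.symm
  refine H8.burnside_npc (P := zpowers (f 20)) (H8.IsSyl.of_normalizer (H8.isSyl_of_maximal
    (le_inf (zpowers_le.mpr ht) le_normalizer)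
    (H8.isPGroup_zpowers (k := 1) ((pow_two _).trans t_sq)) fun Q a b c => ?_)) fun g hg => ?_
  · intro q hq
    obtain ⟨y, rfl⟩ := (h.cen q).mp (h1 q (c hq).2)
    have key : ∀ y : K48, y * 5 = 5 * y → y ^ 3 = 1 ∨ y ^ 3 = 20 := by decide +kernel
    obtain ⟨k, hk⟩ := a ⟨_, hq⟩
    refine H8.mem_of_pow_mem (Nat.Coprime.pow_right k (by norm_num : Nat.Coprime 3 2)) ?_
      ((show f y ^ 2 ^ k = 1 from congrArg Subtype.val hk) ▸ one_mem _)
    rcases key y (h.inj (by simpa using mem_centralizer_singleton_iff.mp (c hq).1)) with e | e <;>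
      rw [← map_pow, e]
    exacts [map_one f ▸ one_mem _, mem_zpowers _]
  · rintro _ ⟨k, rfl⟩
    exact (Commute.zpow_left (h1 g hg.2).symm k)

theorem exists_commute [Finite G] (h9 : 9 ∣ Nat.card G) {s : G} (hs : Gen f s) :
    ∃ i j : K48, (i = 5 ∨ i = 28) ∧ (j = 5 ∨ j = 28) ∧ Commute (f i) (s * f j * s) := by
  set D := centralizer {f 5} with hD
  set K := pResidualOf 2 D with hK
  have hKD : ∀ y ∈ K, y * f 5 = f 5 * y := fun y hy =>
    mem_centralizer_singleton_iff.mp (H7.pResidualOf_le 2 D hy)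
  have hn : ∀ v : K48, v * 5 * v⁻¹ = 5 ∨ v * 5 * v⁻¹ = 5⁻¹ → f v ∈ normalizer (K : Set G) :=
    fun v hv => H7.normalizer_le_normalizer_pResidualOf 2 D (mem_normalizer_fintype fun x hx => by
      have h1 : Commute (f v * x * (f v)⁻¹) (f (v * 5 * v⁻¹)) := by
        rw [map_mul, map_mul, map_inv, Commute, SemiconjBy, conj_mul, conj_mul,
          mem_centralizer_singleton_iff.mp hx]
      rw [SetLike.mem_coe, mem_centralizer_singleton_iff]
      rcases hv with e | e <;> rw [e] at h1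
      · exact h1
      · exact Commute.inv_right_iff.mp (map_inv f 5 ▸ h1))
  have hs' : s⁻¹ = s := inv_eq_of_mul_eq_one_left hs.ss
  -- fixed points of an involution conjugate to the central one
  have main : ∀ g y : G, g * f 14 * g⁻¹ = f 20 → y ∈ K → y ≠ 1 →
      y * (g * f 20 * g⁻¹) = g * f 20 * g⁻¹ * y →
      ∃ j : K48, (j = 5 ∨ j = 28) ∧ Commute (f 5) (g * f j * g⁻¹) := by
    intro g y hg hy hy1 hc
    obtain ⟨z, hz⟩ := (h.cen (g⁻¹ * y * g)).mp (by
      calc _ = g⁻¹ * (y * (g * f 20 * g⁻¹)) * g := by group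
        _ = _ := by rw [hc]; group)
    obtain rfl : y = g * f z * g⁻¹ := by rw [hz]; group
    have h3 : ∀ z : K48, g * f z * g⁻¹ ∈ K → z ^ 3 = 1 := fun z hz => by
      have h4 := (h.npc.coprime_dvd_left (orderOf_dvd_natCard _ hz)).pow_right 4
      rw [orderOf_conj, orderOf_injective f h.inj] at h4
      have h5 : orderOf z ∣ 3 * 2 ^ 4 := by
        have := orderOf_dvd_natCard z; rwa [K48.card_eq] at this
      exact orderOf_dvd_iff_pow_eq_one.mp (h4.dvd_of_dvd_mul_right h5)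
    have key : ∀ z : K48, z ≠ 1 → z ^ 3 = 1 → (z * (14 * z * 14⁻¹)) ^ 3 = 1 →
      ∃ j : K48, (j = 5 ∨ j = 28) ∧ (j = z ∨ j = z⁻¹) := by decide +kernel
    obtain ⟨j, h4, h5⟩ := key z (by rintro rfl; simp at hy1) (h3 z hy) (h3 _ (by
      have := mul_mem hy ((mem_normalizer_iff.mp (hn 20 (by decide +kernel)) _).mp hy)
      rw [← hg] at this
      convert this using 1
      simp only [map_mul, map_inv]
      group))
    have h6 : Commute (f 5) (g * f z * g⁻¹) := (hKD _ hy).symm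
    refine ⟨j, h4, ?_⟩
    rcases h5 with rfl | rfl
    · exact h6
    · rw [map_inv, ← conj_inv]; exact h6.inv_right
  have e4 : s * f 14 * s⁻¹ = f 20 := by rw [← hs.st, hs', ← mul_assoc, ← mul_assoc, hs.ss,
    one_mul, mul_assoc, hs.ss, mul_one]
  by_cases h1 : ∀ y ∈ K, f 14 * y = y * f 14 → y = 1
  swap
  · push Not at h1
    obtain ⟨y, a, c, d⟩ := h1
    obtain ⟨j, h2, h3⟩ := main s y e4 a d (by rw [hs', hs.st, c])
    exact ⟨5, j, Or.inl rfl, h2, by rwa [hs'] at h3⟩
  by_cases h2 : ∀ y ∈ K, f b * y = y * f b → y = 1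
  swap
  · push Not at h2
    obtain ⟨y, a, c, d⟩ := h2
    have h3 : ∀ x, f 2 * s * x * (f 2 * s)⁻¹ = f 2 * (s * x * s⁻¹) * f 2⁻¹ := fun x => by
      rw [map_inv]; group
    obtain ⟨j, h4, h5⟩ := main (f 2 * s) y (by rw [h3, e4, ← map_mul, ← map_mul]; rfl) a d (by
      rw [h3, hs', hs.st, ← map_mul, ← map_mul]; exact c.symm)
    refine ⟨28, j, Or.inr rfl, h4, ?_⟩
    have h6 := h5.map (MulAut.conj (f 2⁻¹))
    simp only [MulAut.conj_apply, h3, hs'] at h6
    convert h6 using 1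
    · rw [← map_inv, ← map_mul, ← map_mul]; rfl
    · rw [map_inv]; group
  obtain ⟨y, a, c, d⟩ := h.exists_three h9
  have hy : y ∈ K := H7.mem_pResidualOf (mem_centralizer_singleton_iff.mpr a) c
  have i1 := L0.inverts_of_fpf (hn 14 (by decide +kernel))
    (fun u _ => by rw [← map_mul, show (14 * 14 : K48) = 1 by decide +kernel]; simp) h1
  have i2 := L0.inverts_of_fpf (hn b (by decide +kernel))
    (fun u _ => by rw [← map_mul, show (b * b : K48) = 1 by decide +kernel]; simp) h2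
  refine absurd ((h.cen y).mp (mul_inv_eq_iff_eq_mul.mp ?_).symm) d
  rw [show (20 : K48) = b * 14 by decide +kernel, map_mul,
    show ∀ p q : G, p * q * y * (p * q)⁻¹ = p * (q * y * q⁻¹) * p⁻¹ by intros; group, i1 y hy,
    i2 _ (inv_mem hy), inv_inv]

theorem hyp [Finite G] {s : G} (hs : Gen f s) (hG : ∀ K, f.range ≤ K → s ∈ K → K = ⊤) {N T : ℕ}
    (hN : f.range.index = N) (h1 : N < 256) :
    closure {g | ∃ l < 5, ev4 (f b) (f 2) (f 3) s l = g} = ⊤ ∧
      Hyp (parG N T) (ev4 (f b) (f 2) (f 3) s) ((1 : G) : G ⧸ f.range) := by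
  have h2 : closure {g | ∃ l < 5, ev4 (f b) (f 2) (f 3) s l = g} = ⊤ :=
    hG _ (range_le (subset_closure ⟨1, by decide, rfl⟩) (subset_closure ⟨2, by decide, rfl⟩)
      (subset_closure ⟨3, by decide, rfl⟩)) (subset_closure ⟨4, by decide, rfl⟩)
  have h3 : ∀ g : G, g • ((1 : G) : G ⧸ f.range) = (1 : G) → g ∈ f.range := fun g hg => by
    rw [MulAction.Quotient.smul_mk, QuotientGroup.eq] at hg; simpa using hg
  have h4 : ∀ x : K48, x * x = 1 → f x * f x = 1 := fun x hx => by rw [← map_mul, hx, map_one]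
  refine ⟨h2, good_ev4 (h4 _ (by decide +kernel)) (h4 _ (by decide +kernel))
    (h4 _ (by decide +kernel)) hs.ss, h1, hN, fun g hg => ?_, fun g hg => ?_, eq_univ_of_closure h2⟩
  · have : evL (ev4 (f b) (f 2) (f 3) s) [1, 2, 1, 2] = f 20 := by
      rw [show (20 : K48) = b * (2 * (b * 2)) by decide +kernel]; simp [evL, ev4]
    exact this ▸ (h.cen g).mpr (h3 g hg)
  · obtain ⟨y, rfl⟩ := h3 g hg
    obtain ⟨w, hw, e⟩ := exists_word y
    refine ⟨w, hw, ?_⟩
    have key : ∀ w ∈ words, ∀ l ∈ w, l < 4 := by decide +kernel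
    rw [← map_one f, ← e, map_mul, map_evL]
    congr 1
    refine evL_congr fun l hl => ?_
    have := key w hw l hl
    interval_cases l
    exacts [(map_one f).symm, rfl, rfl, rfl]

theorem identify [Finite G] {s : G} (hs : Gen f s) (hG : ∀ K, f.range ≤ K → s ∈ K → K = ⊤)
    {j : K48} (hj : j = 5 ∨ j = 28) (hc : Commute (f 5) (s * f j * s)) :
    Nonempty (G ≃* Matrix.SpecialLinearGroup (Fin 3) (ZMod 3)) ∨ Spor.IsoM11 G := by
  have h1 : ∀ w : List ℕ, (∀ l ∈ w, l < 4) → evL (fun l => [1, b, 2, 3].getD l 1) w = (1 : K48) →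
      evL (ev4 (f b) (f 2) (f 3) s) w = 1 := fun w hw e => by
    rw [← map_one f, ← e, map_evL]
    refine evL_congr fun l hl => ?_
    have := hw l hl
    interval_cases l
    exacts [(map_one f).symm, rfl, rfl, rfl]
  have h2 : ∃ k, evL (ev4 (f b) (f 2) (f 3) s) (extraG k) = 1 := by
    have e5 : f 5 = f b * f 3 := by rw [← map_mul]; rfl
    have e8 : (f 5)⁻¹ = f 3 * f b := by rw [← map_mul, ← map_inv]; rfl
    have e28 : f 28 = f 2 * (f b * (f 3 * f 2)) := by simp only [← map_mul]; rfl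
    have e29 : (f 28)⁻¹ = f 2 * (f 3 * (f b * f 2)) := by simp only [← map_mul, ← map_inv]; rfl
    have h3 : f 5 * (s * f j * s) * (f 5)⁻¹ * (s * (f j)⁻¹ * s) = 1 := by
      rw [hc.eq]
      calc _ = s * (f j * (s * s) * (f j)⁻¹) * s := by group
        _ = 1 := by rw [hs.ss, mul_one, mul_inv_cancel, mul_one, hs.ss]
    rcases hj with rfl | rfl
    · exact ⟨false, by rw [e8, e5] at h3; simpa [extraG, evL, ev4, mul_assoc] using h3⟩
    · exact ⟨true, by rw [e8, e5, e29, e28] at h3; simpa [extraG, evL, ev4, mul_assoc] using h3⟩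
  obtain ⟨k, hk⟩ := h2
  have h3 : ∀ r ∈ relsG (extraG k), evL (ev4 (f b) (f 2) (f 3) s) r = 1 := by
    have e1 : s * f b * s * f b = 1 := by
      rw [hs.sb, mul_assoc (f b), hs.ss, mul_one, ← map_mul, ← map_one f]; rfl
    have e2 := hs.sc
    have e20 : f 20 = f b * (f 2 * (f b * f 2)) := by simp only [← map_mul]; rfl
    have e3 : s * f 20 * s * f 20 * f b = 1 := by
      rw [hs.st, ← map_mul, ← map_mul, ← map_one f]; rfl
    rw [e20] at e3
    simp only [relsG, List.forall_mem_cons]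
    refine ⟨h1 _ (by decide) (by decide +kernel), h1 _ (by decide) (by decide +kernel),
      h1 _ (by decide) (by decide +kernel), h1 _ (by decide) (by decide +kernel), ?_, ?_, ?_, hk,
      by simp⟩
    · simpa [evL, ev4, mul_assoc] using e1
    · simpa [evL, ev4, mul_assoc, pow_succ] using e2
    · simpa [evL, ev4, mul_assoc] using e3
  have h4 : ∀ l ∈ [0, 1, 2, 3], ev4 (f b) (f 2) (f 3) s l • ((1 : G) : G ⧸ f.range) = (1 : G) := by
    have h5 : ∀ y, f y • ((1 : G) : G ⧸ f.range) = (1 : G) := fun y => by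
      rw [MulAction.Quotient.smul_mk, QuotientGroup.eq]; simp
    simp only [List.forall_mem_cons]
    exact ⟨one_smul _ _, h5 _, h5 _, h5 _, by simp⟩
  have h5 := h.card_eq
  rcases h.index_eq (index_ne_two hs hG) with e | e
  · obtain ⟨a, c⟩ := h.hyp (T := tab117) hs hG e (by norm_num)
    refine Or.inl (equiv_SL3_three a ?_ (by omega) fun x hx =>
      faithful_of_core (h.normalCore_eq_bot (by omega)) e hx)
    cases k
    exacts [sound c (by simp) (s := (_, 1, _)) chk117_false _ (real_start c h3 h4),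
      sound c (by simp) (s := (_, 1, _)) chk117_true _ (real_start c h3 h4)]
  · obtain ⟨a, c⟩ := h.hyp (T := tab165) hs hG e (by norm_num)
    refine Or.inr (equiv_M11 a ?_ (by omega) fun x hx =>
      faithful_of_core (h.normalCore_eq_bot (by omega)) e hx)
    cases k
    exacts [sound c (by simp) (s := (_, 1, _)) chk165_false _ (real_start c h3 h4),
      sound c (by simp) (s := (_, 1, _)) chk165_true _ (real_start c h3 h4)]

theorem classify [Finite G] (hG : ∀ N : Subgroup G, N.index ≠ 2) :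
    Nonempty (G ≃* Matrix.SpecialLinearGroup (Fin 3) (ZMod 3)) ∨ Spor.IsoM11 G := by
  obtain ⟨s, hs⟩ := h.exists_s (h.isConj_of_sq hG
    (fun e => absurd (h.inj (e.trans (map_one f).symm)) (by decide +kernel))
    (by rw [← map_mul, ← map_one f]; rfl))
  have h1 := h.generated hG hs
  obtain ⟨i, j, rfl | rfl, hj, hc⟩ := h.exists_commute (by
    rw [h.card_eq]; rcases h.index_eq hG with e | e <;> rw [e] <;> norm_num) hs
  · exact h.identify hs h1 hj hc
  have h2 : ∀ x y, phi x = y → (f.comp phi.toMonoidHom) x = f y := fun x y e => congrArg f e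
  have h3 : ∀ j : K48, j = 5 ∨ j = 28 → ∃ k : K48, (k = 5 ∨ k = 28) ∧ phi k = j⁻¹ := by
    decide +kernel
  obtain ⟨k, hk, e⟩ := h3 j hj
  refine h.swap.identify (s := s) ⟨hs.ss, ?_, ?_, ?_⟩ (fun K a => h1 K ?_) hk ?_
  · rw [h2 b b (by decide +kernel), hs.sb]
  · rw [h2 20 20 (by decide +kernel), h2 14 14 (by decide +kernel), hs.st]
  · rw [h2 2 2 (by decide +kernel), hs.sc]
  · rintro _ ⟨y, rfl⟩
    exact a ⟨phi.symm y, by simp⟩
  · rw [h2 5 28⁻¹ (by decide +kernel), h2 k _ e, map_inv, map_inv]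
    convert hc.inv_inv using 1
    rw [mul_inv_rev, mul_inv_rev, inv_eq_of_mul_eq_one_left hs.ss, mul_assoc]

end Cfsg.H4.GLC
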