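import Cfsg.Agent.H4.Gram
import Cfsg.Agent.H4.Dih8

/-!
# Character values on elements of order eight and six
-/

set_option autoImplicit false

open Finset

namespace Cfsg

open Cfsg.H4

variable {G : Type*} [Group G]

theorem IsCharacter.exists_fourier [Finite G] {χ : G → ℂ} (h : IsCharacter G χ) {g : G} {n : ℕ}
    (hn : g ^ n = 1) {ζ : ℂ} (hζ : ζ ^ n = 1) :
    ∃ m : ℤ, ∑ k ∈ range n, χ (g ^ k) * ζ ^ k = n * m := by
  obtain ⟨s, hs, -, hk⟩ := h.exists_eigenvalues (isOfFinOrder_of_finite g)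
  have h1 : ∀ x ∈ s, x ^ n = 1 := fun x hx => by
    obtain ⟨c, rfl⟩ := orderOf_dvd_of_pow_eq_one hn
    rw [pow_mul, hs x hx, one_pow]
  have h2 : ∀ k : ℕ, χ (g ^ k) = (s.map fun x => x ^ k).sum := fun k => by simpa using hk k
  simp only [h2]
  clear hs hk h2
  induction s using Multiset.induction_on with
  | empty => exact ⟨0, by simp⟩
  | cons x s ih =>
    obtain ⟨m, hm⟩ := ih fun y hy => h1 y (Multiset.mem_cons_of_mem hy)
    simp only [Multiset.map_cons, Multiset.sum_cons, add_mul, sum_add_distrib, hm, ← mul_pow]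
    by_cases e : x * ζ = 1
    · exact ⟨m + 1, by simp [e]; ring⟩
    · refine ⟨m, ?_⟩
      rw [geom_sum_eq e, mul_pow, h1 x (Multiset.mem_cons_self _ _), hζ]
      simp

/-- Values on an element of order eight conjugate to its cube. -/
theorem IsCharacter.exists_val_eight [Finite G] {χ : G → ℂ} (h : IsCharacter G χ) {a : G}
    (h8 : a ^ 8 = 1) (h3 : IsConj a (a ^ 3)) {ζ : ℂ} (hζ : ζ ^ 4 = -1) :
    ∃ x0 x1 u v p q : ℤ, χ (a ^ 4) = x0 ∧ χ (a ^ 2) = x1 ∧ χ a = u + v * (ζ + ζ ^ 3) ∧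
      χ (a ^ 7) = u - v * (ζ + ζ ^ 3) ∧ x1 = u + 2 * p ∧ x0 = x1 + 2 * v + 4 * q := by
  obtain ⟨g, hg⟩ := isConj_iff.mp h3
  have hc : ∀ k, χ (a ^ (3 * k)) = χ (a ^ k) := fun k => by
    rw [pow_mul, ← hg, conj_pow]; exact h.isClassFunction _ _
  have e3 : χ (a ^ 3) = χ a := by simpa using hc 1
  have e6 : χ (a ^ 6) = χ (a ^ 2) := hc 2
  have e7 : χ (a ^ 5) = χ (a ^ 7) := by
    rw [← hc 5, show 3 * 5 = 8 + 7 from rfl, pow_add, h8, one_mul]
  have hζ8 : ∀ j, (ζ ^ j) ^ 8 = 1 := fun j => by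
    rw [← pow_mul, mul_comm, pow_mul, show 8 = 4 * 2 from rfl, pow_mul, hζ]; simp
  obtain ⟨m0, f0⟩ := h.exists_fourier h8 (hζ8 0)
  obtain ⟨m1, f1⟩ := h.exists_fourier h8 (hζ8 1)
  obtain ⟨m2, f2⟩ := h.exists_fourier h8 (hζ8 2)
  obtain ⟨m4, f4⟩ := h.exists_fourier h8 (hζ8 4)
  obtain ⟨m5, f5⟩ := h.exists_fourier h8 (hζ8 5)
  simp only [sum_range_succ, sum_range_zero, pow_zero, pow_one, e3, e6, e7, one_pow, hζ,
    Nat.cast_ofNat] at f0 f1 f2 f4 f5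
  generalize χ 1 = d at *
  generalize χ a = α at *
  generalize χ (a ^ 7) = β at *
  generalize χ (a ^ 2) = y at *
  generalize χ (a ^ 4) = z at *
  have g1 : d - z + (ζ + ζ ^ 3) * (α - β) = 8 * m1 := by
    linear_combination f1 - (y * ζ ^ 2 + β * (ζ + ζ ^ 3)) * hζ
  have g2 : d + z - 2 * y = 8 * m2 := by
    linear_combination f2 - (α * ζ ^ 2 + z * (ζ ^ 4 - 1) + β * ζ ^ 10 +
      y * (ζ ^ 8 - ζ ^ 4 + 2)) * hζ
  have g5 : d - z - (ζ + ζ ^ 3) * (α - β) = 8 * m5 := by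
    have h5 : ζ ^ 5 = -ζ := by linear_combination ζ * hζ
    rw [h5] at f5
    linear_combination f5 - (y * ζ ^ 2 + z - β * (ζ + ζ ^ 3)) * hζ
  refine ⟨m0 + m4 + 2 * m2 - 2 * (m1 + m5), m0 + m4 - 2 * m2, m0 - m4, m5 - m1, m4 - m2,
    m2 - m5, ?_, ?_, ?_, ?_, by ring, by ring⟩ <;> push_cast
  · linear_combination (f0 + f4) / 8 + g2 / 4 - (g1 + g5) / 4
  · linear_combination (f0 + f4) / 8 - g2 / 4
  · linear_combination (f0 - f4) / 8 - (ζ + ζ ^ 3) * (g1 - g5) / 8 +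
      (α - β) * (ζ ^ 2 + 2) / 4 * hζ
  · linear_combination (f0 - f4) / 8 + (ζ + ζ ^ 3) * (g1 - g5) / 8 -
      (α - β) * (ζ ^ 2 + 2) / 4 * hζ

/-- Values on a real element of order six. -/
theorem IsCharacter.exists_val_six [Finite G] {χ : G → ℂ} (h : IsCharacter G χ) {w : G}
    (h6 : w ^ 6 = 1) (h5 : IsConj w (w ^ 5)) : ∃ n : ℤ, χ w = χ (w ^ 3) + 3 * n := by
  obtain ⟨s, hs⟩ := IsAlgClosed.exists_pow_nat_eq (-3 : ℂ) two_pos
  set ω := (-1 + s) / 2 with hω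
  have h1 : ω ^ 2 + ω + 1 = 0 := by rw [hω]; linear_combination hs / 4
  obtain ⟨m, f⟩ := h.exists_fourier h6 (ζ := ω) (by
    linear_combination (ω ^ 4 - ω ^ 3 + ω - 1) * h1)
  obtain ⟨n, g⟩ := h.exists_fourier h6 (ζ := -ω) (by
    linear_combination (ω ^ 4 - ω ^ 3 + ω - 1) * h1)
  simp only [sum_range_succ, sum_range_zero, pow_zero, pow_one,
    ← h.isClassFunction.eq_of_isConj h5, Nat.cast_ofNat] at f g
  refine ⟨n - m, ?_⟩
  push_cast
  linear_combination (g - f) / 2 + (χ w * (ω ^ 3 - ω ^ 2 + 1) + χ (w ^ 3) * (ω - 1)) * h1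

namespace H4

theorem gram_expand {ι : Type*} [Fintype ι] {x0 x1 u v x4 : ι → ℤ} (h00 : ∑ i, x0 i * x0 i = 48)
    (h11 : ∑ i, x1 i * x1 i = 8) (h22 : ∑ i, u i * u i = 4) (h33 : ∑ i, v i * v i = 2)
    (h44 : ∑ i, x4 i * x4 i = 6) (h01 : ∑ i, x0 i * x1 i = 0) (h02 : ∑ i, x0 i * u i = 0)
    (h03 : ∑ i, x0 i * v i = 0) (h04 : ∑ i, x0 i * x4 i = 0) (h12 : ∑ i, x1 i * u i = 0)
    (h13 : ∑ i, x1 i * v i = 0) (h14 : ∑ i, x1 i * x4 i = 0) (h23 : ∑ i, u i * v i = 0)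
    (h24 : ∑ i, x4 i * u i = 0) (h34 : ∑ i, x4 i * v i = 0) {c c' : ι → ℤ}
    {a0 a1 a2 a3 a4 b0 b1 b2 b3 b4 : ℤ}
    (hc : ∀ i, 12 * c i = a0 * x0 i + a1 * x1 i + a2 * u i + a3 * v i + a4 * x4 i)
    (hc' : ∀ i, 12 * c' i = b0 * x0 i + b1 * x1 i + b2 * u i + b3 * v i + b4 * x4 i) :
    144 * ∑ i, c i * c' i =
      48 * (a0 * b0) + 8 * (a1 * b1) + 4 * (a2 * b2) + 2 * (a3 * b3) + 6 * (a4 * b4) := by
  rw [mul_sum, sum_congr rfl (g := fun i => a0 * b0 * (x0 i * x0 i) + a1 * b1 * (x1 i * x1 i) +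
    a2 * b2 * (u i * u i) + a3 * b3 * (v i * v i) + a4 * b4 * (x4 i * x4 i) +
    (a0 * b1 + a1 * b0) * (x0 i * x1 i) + (a0 * b2 + a2 * b0) * (x0 i * u i) +
    (a0 * b3 + a3 * b0) * (x0 i * v i) + (a0 * b4 + a4 * b0) * (x0 i * x4 i) +
    (a1 * b2 + a2 * b1) * (x1 i * u i) + (a1 * b3 + a3 * b1) * (x1 i * v i) +
    (a1 * b4 + a4 * b1) * (x1 i * x4 i) + (a2 * b3 + a3 * b2) * (u i * v i) +
    (a2 * b4 + a4 * b2) * (x4 i * u i) + (a3 * b4 + a4 * b3) * (x4 i * v i)) fun i _ => by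
      linear_combination (12 * c' i) * hc i +
        (a0 * x0 i + a1 * x1 i + a2 * u i + a3 * v i + a4 * x4 i) * hc' i]
  simp only [sum_add_distrib, ← mul_sum, h00, h11, h22, h33, h44, h01, h02, h03, h04, h12, h13,
    h14, h23, h24, h34]
  ring

/-- The arithmetic of the order formula. -/
theorem gl23_arith {m p s q r : ℤ} (hm : Odd m) (hp : p ≠ 0) (hs : s ≠ 0) (hq : q ≠ 0)
    (hr : r ≠ 0) (e1 : 1 + p + s = 0) (e2 : s + q + r = 0)
    (e3 : (m : ℚ) * (1 + 9 / p + 16 / s) = 192) (e4 : (m : ℚ) * (16 / s + 1 / q + 9 / r) = 192) :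
    m = 117 ∨ m = 165 ∨ q = 1 := by
  have hp' : (p : ℚ) ≠ 0 := Int.cast_ne_zero.mpr hp
  have hs' : (s : ℚ) ≠ 0 := Int.cast_ne_zero.mpr hs
  have hq' : (q : ℚ) ≠ 0 := Int.cast_ne_zero.mpr hq
  have hr' : (r : ℚ) ≠ 0 := Int.cast_ne_zero.mpr hr
  field_simp at e3 e4
  have e5 : m * (p * s + 9 * s + 16 * p) = 192 * p * s := by
    have : (m : ℚ) * (p * s + 9 * s + 16 * p) = 192 * p * s := by linear_combination e3
    exact_mod_cast this
  have e6 : m * (16 * q * r + s * r + 9 * s * q) = 192 * s * q * r := by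
    have : (m : ℚ) * (16 * q * r + s * r + 9 * s * q) = 192 * s * q * r := by
      linear_combination e4
    exact_mod_cast this
  obtain ⟨k, rfl⟩ : ∃ k, p = k + 3 := ⟨p - 3, by ring⟩
  obtain rfl : s = -(k + 4) := by omega
  obtain rfl : r = k + 4 - q := by omega
  have e7 : m * k ^ 2 = 192 * (k + 3) * (k + 4) := by linear_combination -e5
  have hodd : ∀ j : ℤ, 2 ∣ m * j ^ 2 → ∃ i, j = 2 * i := fun j hj => by
    rcases Int.prime_two.dvd_or_dvd hj with h | h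
    · exact absurd (even_iff_two_dvd.mpr h) (Int.not_even_iff_odd.mpr hm)
    · exact Int.prime_two.dvd_of_dvd_pow h
  obtain ⟨k, rfl⟩ := hodd k ⟨96 * (k + 3) * (k + 4), by linear_combination e7⟩
  obtain ⟨k, rfl⟩ := hodd k ⟨48 * (2 * k + 3) * (k + 2), by linarith⟩
  obtain ⟨k, rfl⟩ := hodd k ⟨24 * (4 * k + 3) * (k + 1), by linarith⟩
  obtain ⟨k, rfl⟩ := hodd k ⟨6 * (8 * k + 3) * (2 * k + 1), by linarith⟩
  have e8 : m * k ^ 2 = 3 * (16 * k + 3) * (4 * k + 1) := by linarith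
  have h9 : k ∣ 9 := ⟨m * k - 192 * k - 84, by linear_combination -e8⟩
  have h10 := Int.le_of_dvd (by norm_num) h9
  have h11 := Int.le_of_dvd (by norm_num) (neg_dvd.mpr h9)
  have h12 : -9 ≤ k := by omega
  interval_cases k <;> try omega
  · obtain rfl : m = 285 := by omega
    have : (q - 1) * (7 * q - 95) = 0 := by linarith
    rcases mul_eq_zero.mp this with h | h <;> omega
  · obtain rfl : m = 221 := by omega
    have : (q - 1) * (5 * q - 221) = 0 := by linarith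
    rcases mul_eq_zero.mp this with h | h <;> omega

end H4

end Cfsg
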