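import Cfsg.Agent.H4.GL23
import Cfsg.Agent.H4.GL23Val

/-!
# Groups with an involution centralizer `GL₂(3)`: the order
-/

set_option autoImplicit false
set_option maxRecDepth 100000

open scoped ComplexConjugate
open Subgroup Finset

namespace Cfsg.H4

universe u

variable {G : Type u} [Group G]

/-- The centralizer of the involution `f 20` is the image of the embedding `f`. -/
structure GLC (f : K48 →* G) : Prop where
  inj : Function.Injective f
  cen : ∀ x, x * f 20 = f 20 * x ↔ x ∈ f.range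

theorem exists_glc {t : G} (ht : orderOf t = 2)
    (e' : centralizer ({t} : Set G) ≃* GL (Fin 2) (ZMod 3)) :
    ∃ f : K48 →* G, GLC f ∧ f 20 = t := by
  let e := e'.trans K48.equivGL.symm
  set D := centralizer ({t} : Set G) with hD
  let f : K48 →* G := D.subtype.comp e.symm.toMonoidHom
  have hf : Function.Injective f := D.subtype_injective.comp e.symm.injective
  have hDf : ∀ x ∈ D, ∃ y, f y = x := fun x hx => ⟨e ⟨x, hx⟩, by simp [f]⟩
  obtain ⟨x, hx⟩ := hDf t (mem_centralizer_singleton_iff.mpr rfl)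
  have key : ∀ x : K48, x ≠ 1 → (∀ y, y * x = x * y) → x = 20 := by decide +kernel
  have h1 := key x (by rintro rfl; rw [map_one] at hx; simp [← hx] at ht) fun y => hf (by
    rw [map_mul, map_mul, hx]; exact mem_centralizer_singleton_iff.mp (e.symm y).2)
  subst h1
  refine ⟨f, ⟨hf, fun y => ?_⟩, hx⟩
  rw [hx, ← mem_centralizer_singleton_iff]
  exact ⟨hDf y, by rintro ⟨w, rfl⟩; exact (e.symm w).2⟩

namespace GLC

variable {f : K48 →* G} (h : GLC f)
include h

theorem swap : GLC (f.comp K48.phi.toMonoidHom) where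
  inj := h.inj.comp K48.phi.injective
  cen x := by
    rw [show (f.comp K48.phi.toMonoidHom) 20 = f 20 from congrArg f (by decide +kernel), h.cen]
    exact ⟨fun ⟨y, hy⟩ => ⟨K48.phi.symm y, by simpa using hy⟩, fun ⟨y, hy⟩ => ⟨_, hy⟩⟩

theorem cen_eq : centralizer {f 20} = f.range := by
  ext x
  rw [mem_centralizer_singleton_iff, h.cen]

theorem card_range : Nat.card f.range = 48 := by
  rw [← Nat.card_congr (MonoidHom.ofInjective h.inj).toEquiv, K48.card_eq]

theorem t_ne : f 20 ≠ 1 := fun e => absurd (h.inj (e.trans (map_one f).symm)) (by decide +kernel)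

omit h in
theorem t_sq : f 20 * f 20 = 1 := by rw [← map_mul, ← map_one f]; congr 1

theorem card_eq : Nat.card G = f.range.index * 48 := by rw [← h.card_range, index_mul_card]

theorem card_class [Finite G] : Nat.card {x : G // IsConj (f 20) x} = f.range.index := by
  have := card_isConj_mul_card_centralizer (f 20)
  rw [h.cen_eq, h.card_range, h.card_eq] at this
  omega

/-- An element conjugating a root of the central involution to a root of the same kind. -/
theorem mem_of_conj {y y' : K48} {k : ℕ} (hy : y ^ k = 20) (hy' : y' ^ k = 20) {g : G}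
    (e : g * f y * g⁻¹ = f y') : g ∈ f.range :=
  (h.cen g).mp (mul_inv_eq_iff_eq_mul.mp (by
    nth_rewrite 1 [← hy]; rw [map_pow, ← conj_pow, e, ← map_pow, hy']))

omit h in
/-- A Sylow 2-subgroup of the model. -/
def _root_.Cfsg.H4.K48.sd : Subgroup K48 where
  carrier := {x | x * 11 = 11 * x ∨ x * 11 = 18 * x}
  one_mem' := by decide +kernel
  mul_mem' {x y} := by simp only [Set.mem_ofPred_eq]; revert x y; decide +kernel
  inv_mem' {x} := by simp only [Set.mem_ofPred_eq]; revert x; decide +kernel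

theorem odd_index [Finite G] : Odd f.range.index := by
  have h1 : IsPGroup 2 K48.sd := fun ⟨x, hx⟩ => ⟨3, Subtype.ext (by
    change x ^ 2 ^ 3 = 1
    change x * 11 = 11 * x ∨ x * 11 = 18 * x at hx
    revert x; decide +kernel)⟩
  obtain ⟨S, hS⟩ := (h1.map f).exists_le_sylow
  have h3 : ∀ y : K48, (y * 11 = 11 * y ∨ y * 11 = 18 * y) → f y ∈ (S : Subgroup G) :=
    fun y hy => hS ⟨y, hy, rfl⟩
  have : Nontrivial S := ⟨⟨⟨_, h3 20 (by decide +kernel)⟩, 1, fun e => h.t_ne (congrArg Subtype.val e)⟩⟩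
  have := S.isPGroup'.center_nontrivial
  obtain ⟨⟨⟨z, hz⟩, hz1⟩, hz2⟩ := exists_ne (1 : center S)
  have h4 : ∀ x ∈ (S : Subgroup G), x * z = z * x := fun x hx =>
    congrArg Subtype.val (mem_center_iff.mp hz1 ⟨x, hx⟩)
  obtain ⟨y, rfl⟩ := (h.cen z).mp (h4 _ (h3 20 (by decide +kernel))).symm
  have key : ∀ y : K48, 11 * y = y * 11 → 3 * y = y * 3 → y = 1 ∨ y = 20 := by decide +kernel
  rcases key y (h.inj (by simpa using h4 _ (h3 11 (by decide +kernel))))
    (h.inj (by simpa using h4 _ (h3 3 (by decide +kernel)))) with rfl | rfl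
  · exact absurd (Subtype.ext (Subtype.ext (map_one f))) hz2
  have h5 := index_dvd_of_le (H := S) (K := f.range) fun x hx => (h.cen x).mp (h4 x hx)
  rw [Nat.odd_iff, ← Nat.two_dvd_ne_zero]
  exact fun e => S.not_dvd_index (e.trans h5)

theorem isConj_of_sq [Finite G] (hG : ∀ N : Subgroup G, N.index ≠ 2) {x : G} (h1 : x ≠ 1)
    (h2 : x * x = 1) : IsConj (f 20) x := by
  have ha : orderOf (f 11) = 8 := by
    rw [orderOf_injective f h.inj]
    exact orderOf_eq_prime_pow (p := 2) (n := 2) (by decide +kernel) (by decide +kernel)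
  have h3 := (zpowers (f 11)).index_mul_card
  rw [Nat.card_zpowers, ha, h.card_eq] at h3
  obtain ⟨g, hg⟩ := exists_conj_mem_of_index hG (M := zpowers (f 11))
    (Odd.mul (by decide : Odd 3) h.odd_index) (by omega) ((pow_two x).trans h2)
  obtain ⟨k, hk⟩ := hg
  simp only [← map_zpow] at hk
  have key : ∀ y : K48, y * 11 = 11 * y → y ≠ 1 → y * y = 1 → y = 20 := by decide +kernel
  rw [key _ (Commute.zpow_self 11 k) (fun e => h1 (by
    rw [e, map_one] at hk; simpa using (conj_eq_one_iff (a := g⁻¹)).mp (by simpa using hk.symm)))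
    (h.inj (by rw [map_mul, hk, map_one]; calc
      _ = g⁻¹ * (x * x) * g := by group
      _ = 1 := by rw [h2]; group))] at hk
  exact isConj_iff.mpr ⟨g, by rw [hk]; group⟩

theorem sq_of_isConj {x : G} (hx : IsConj (f 20) x) : x ≠ 1 ∧ x * x = 1 := by
  obtain ⟨g, rfl⟩ := isConj_iff.mp hx
  exact ⟨fun e => h.t_ne (conj_eq_one_iff.mp e), by rw [conj_mul, t_sq]; group⟩

theorem card_cen {y : K48} {k : ℕ} (hy : y ^ k = 20) :
    Nat.card (centralizer {f y}) = (univ.filter fun x : K48 => x * y = y * x).card := by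
  rw [← Fintype.card_subtype, ← Nat.card_eq_fintype_card]
  refine (Nat.card_eq_of_bijective (fun x : {x : K48 // x * y = y * x} =>
    (⟨f x.1, mem_centralizer_singleton_iff.mpr (by rw [← map_mul, x.2, map_mul])⟩ :
      centralizer {f y})) ⟨fun x y e => Subtype.ext (h.inj (Subtype.ext_iff.mp e)),
      fun ⟨g, hg⟩ => ?_⟩).symm
  rw [mem_centralizer_singleton_iff] at hg
  obtain ⟨x, rfl⟩ := h.mem_of_conj hy hy (mul_inv_eq_iff_eq_mul.mpr hg)
  exact ⟨⟨x, h.inj (by simpa using hg)⟩, rfl⟩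

theorem card_pairs [Finite G] (hG : ∀ N : Subgroup G, N.index ≠ 2) {y : K48} {k : ℕ}
    (hy : y ^ k = 20) :
    Nat.card {p : G × G // IsConj (f 20) p.1 ∧ IsConj (f 20) p.2 ∧ p.1 * p.2 = f y} =
      (univ.filter fun x : K48 => x ≠ 1 ∧ x * x = 1 ∧ x * y ≠ 1 ∧ x * y * (x * y) = 1).card := by
  rw [← Fintype.card_subtype, ← Nat.card_eq_fintype_card]
  have h1 : ∀ x : K48, x ≠ 1 → x * x = 1 → IsConj (f 20) (f x) := fun x a b =>
    h.isConj_of_sq hG (fun e => a (h.inj (e.trans (map_one f).symm))) (by rw [← map_mul, b, map_one])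
  refine (Nat.card_eq_of_bijective (fun x => ⟨(f x.1, f (x.1 * y)), h1 _ x.2.1 x.2.2.1,
    h1 _ x.2.2.2.1 x.2.2.2.2, by rw [← map_mul, ← mul_assoc, x.2.2.1, one_mul]⟩)
    ⟨fun x y e => Subtype.ext (h.inj (congrArg (fun p => p.1.1) e)), ?_⟩).symm
  rintro ⟨⟨a, b⟩, ha, hb, e⟩
  obtain ⟨a1, a2⟩ := h.sq_of_isConj ha
  obtain ⟨b1, b2⟩ := h.sq_of_isConj hb
  dsimp only at a1 a2 b1 b2 e
  have e1 : b = a * f y := by rw [← e, ← mul_assoc, a2, one_mul]
  obtain ⟨x, rfl⟩ := h.mem_of_conj (g := a) (y' := y⁻¹) hy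
    (by rw [inv_pow, hy]; decide +kernel) (by
      rw [map_inv, ← e1, ← e, mul_inv_rev, inv_eq_of_mul_eq_one_left b2])
  rw [← map_mul] at e1
  subst e1
  exact ⟨⟨x, fun e => a1 (by rw [e, map_one]), h.inj (by simpa using a2),
    fun e => b1 (by rw [e, map_one]), h.inj (by simpa using b2)⟩, rfl⟩

theorem orth [Finite G] {y y' : K48} {k : ℕ} (hy : y ^ k = 20)
    (hy' : y' ^ k = 20 ∨ ∃ j < 7, ¬ (y ^ j = 1 ↔ y' ^ j = 1)) :
    ∑ χ : IrrCharacter G, χ.1 (f y) * χ.1 (f y') =
      ((univ.filter fun x : K48 => x * y = y'⁻¹ * x).card : ℂ) := by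
  classical
  have h1 := sum_irr_mul_conj (f y) (f y'⁻¹)
  simp only [fun χ : IrrCharacter G => χ.2.isCharacter.conj_apply, ← map_inv, inv_inv] at h1
  rw [h1]
  split_ifs with h2
  · obtain ⟨g, hg⟩ := isConj_iff.mp h2
    rcases hy' with hy' | ⟨j, -, hj⟩
    · obtain ⟨x, rfl⟩ := h.mem_of_conj hy (by rw [inv_pow, hy']; decide +kernel) hg
      have h3 : x * y * x⁻¹ = y'⁻¹ := h.inj (by simpa using hg)
      rw [h.card_cen hy, Nat.cast_inj]
      refine card_equiv (Equiv.mulLeft x) fun z => ?_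
      simp only [mem_filter, mem_univ, true_and, Equiv.coe_mulLeft, ← h3, mul_assoc,
        inv_mul_cancel_left, mul_right_inj]
    · refine absurd ?_ hj
      rw [← map_eq_one_iff f h.inj, ← conj_eq_one_iff (a := g), map_pow, ← conj_pow, hg,
        ← map_pow, map_eq_one_iff f h.inj, inv_pow, inv_eq_one]
  · rw [eq_comm, Nat.cast_eq_zero, card_eq_zero, filter_eq_empty_iff]
    exact fun x _ e => h2 (f.map_isConj (isConj_iff.mpr ⟨x, mul_inv_eq_iff_eq_mul.mpr e⟩))

theorem pair_sum [Finite G] (hG : ∀ N : Subgroup G, N.index ≠ 2) {y : K48} {k : ℕ}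
    (hy : y ^ k = 20) : (f.range.index : ℂ) *
      ∑ χ : IrrCharacter G, χ.1 (f 20) ^ 2 / χ.1 1 * χ.1 (f y⁻¹) = 48 *
      (univ.filter fun x : K48 => x ≠ 1 ∧ x * x = 1 ∧ x * y ≠ 1 ∧ x * y * (x * y) = 1).card := by
  have h1 := class_mul_coeff (f 20) (f 20) (f y)
  rw [h.card_pairs hG hy, h.card_class, h.card_eq] at h1
  simp only [fun χ : IrrCharacter G => χ.2.isCharacter.conj_apply, ← map_inv] at h1
  have hm : (f.range.index : ℂ) ≠ 0 := Nat.cast_ne_zero.mpr f.range.index_ne_zero_of_finite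
  rw [h1, sum_congr rfl (g := fun χ : IrrCharacter G => χ.1 (f 20) * χ.1 (f 20) * χ.1 (f y⁻¹) / χ.1 1)
    fun _ _ => by ring]
  push_cast
  field_simp

theorem index_eq [Finite G] (hG : ∀ N : Subgroup G, N.index ≠ 2) :
    f.range.index = 117 ∨ f.range.index = 165 := by
  obtain ⟨ζ, hζ⟩ := IsAlgClosed.exists_pow_nat_eq (-1 : ℂ) (n := 4) (by norm_num)
  have hp : ∀ (y z : K48) (k : ℕ), y ^ k = z → f y ^ k = f z := fun y z k e => by rw [← e, map_pow]
  have hc : ∀ x y z : K48, x * y = z * x → IsConj (f y) (f z) := fun x y z e =>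
    f.map_isConj (isConj_iff.mpr ⟨x, mul_inv_eq_iff_eq_mul.mpr e⟩)
  have v8 := fun χ : IrrCharacter G => χ.2.isCharacter.exists_val_eight (a := f 11)
    (by rw [hp 11 1 8 (by decide +kernel), map_one])
    (by rw [hp 11 18 3 (by decide +kernel)]; exact hc 3 _ _ (by decide +kernel)) hζ
  have v6 := fun χ : IrrCharacter G => χ.2.isCharacter.exists_val_six (w := f 23)
    (by rw [hp 23 1 6 (by decide +kernel), map_one])
    (by rw [hp 23 23⁻¹ 5 (by decide +kernel)]; exact hc K48.b _ _ (by decide +kernel))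
  rw [hp 11 20 4 (by decide +kernel), hp 11 46 2 (by decide +kernel),
    hp 11 19 7 (by decide +kernel)] at v8
  rw [hp 23 20 3 (by decide +kernel)] at v6
  choose x0 x1 u v p q e0 e1 e2 e3 ep eq using v8
  choose n en using v6
  choose d hd ed using fun χ : IrrCharacter G => χ.2.exists_apply_one
  set r := ζ + ζ ^ 3 with hr
  have hr2 : r ^ 2 = -2 := by rw [hr]; linear_combination (ζ ^ 2 + 2) * hζ
  have hr0 : r ≠ 0 := fun e => by simp [e] at hr2
  obtain ⟨x4, hx4⟩ : ∃ x4 : IrrCharacter G → ℤ, ∀ χ, x4 χ = x0 χ + 3 * n χ := ⟨_, fun _ => rfl⟩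
  have e4 : ∀ χ : IrrCharacter G, χ.1 (f 23) = x4 χ := fun χ => by rw [en, e0, hx4]; push_cast; rfl
  -- splitting sums along the two classes of elements of order eight
  have split : ∀ {F : IrrCharacter G → ℂ} {c : ℂ}, c * ∑ χ, F χ * (u χ + v χ * r) = 0 →
      c * ∑ χ, F χ * (u χ - v χ * r) = 0 → c * ∑ χ, F χ * u χ = 0 ∧ c * ∑ χ, F χ * v χ = 0 := by
    intro F c a b
    simp only [mul_add, mul_sub, sum_add_distrib, sum_sub_distrib, ← mul_assoc, ← sum_mul] at a b
    exact ⟨by linear_combination (a + b) / 2, mul_right_cancel₀ hr0 (by linear_combination (a - b) / 2)⟩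
  have o00 := h.orth (y := 20) (y' := 20) (k := 1) rfl (by decide +kernel)
  have o11 := h.orth (y := 46) (y' := 46) (k := 2) (by decide +kernel) (by decide +kernel)
  have o44 := h.orth (y := 23) (y' := 23) (k := 3) (by decide +kernel) (by decide +kernel)
  have o01 := h.orth (y := 20) (y' := 46) (k := 1) rfl (by decide +kernel)
  have o04 := h.orth (y := 20) (y' := 23) (k := 1) rfl (by decide +kernel)
  have o14 := h.orth (y := 46) (y' := 23) (k := 2) (by decide +kernel) (by decide +kernel)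
  have o02 := h.orth (y := 20) (y' := 11) (k := 1) rfl (by decide +kernel)
  have o03 := h.orth (y := 20) (y' := 19) (k := 1) rfl (by decide +kernel)
  have o12 := h.orth (y := 46) (y' := 11) (k := 2) (by decide +kernel) (by decide +kernel)
  have o13 := h.orth (y := 46) (y' := 19) (k := 2) (by decide +kernel) (by decide +kernel)
  have o42 := h.orth (y := 23) (y' := 11) (k := 3) (by decide +kernel) (by decide +kernel)
  have o43 := h.orth (y := 23) (y' := 19) (k := 3) (by decide +kernel) (by decide +kernel)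
  have o22 := h.orth (y := 11) (y' := 11) (k := 4) (by decide +kernel) (by decide +kernel)
  have o33 := h.orth (y := 19) (y' := 19) (k := 4) (by decide +kernel) (by decide +kernel)
  have o23 := h.orth (y := 11) (y' := 19) (k := 4) (by decide +kernel) (by decide +kernel)
  have od0 := h.orth (y := 20) (y' := 1) (k := 1) rfl (by decide +kernel)
  have od2 := h.orth (y := 11) (y' := 1) (k := 4) (by decide +kernel) (by decide +kernel)
  have od3 := h.orth (y := 19) (y' := 1) (k := 4) (by decide +kernel) (by decide +kernel)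
  have od4 := h.orth (y := 23) (y' := 1) (k := 3) (by decide +kernel) (by decide +kernel)
  have s0 := h.pair_sum hG (y := 20⁻¹) (k := 1) (by decide +kernel)
  have s2 := h.pair_sum hG (y := 11⁻¹) (k := 4) (by decide +kernel)
  have s3 := h.pair_sum hG (y := 19⁻¹) (k := 4) (by decide +kernel)
  have s4 := h.pair_sum hG (y := 23⁻¹) (k := 3) (by decide +kernel)
  rw [show card _ = 48 by decide +kernel] at o00
  rw [show card _ = 8 by decide +kernel] at o11 o23
  rw [show card _ = 6 by decide +kernel] at o44 s4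
  rw [show card _ = 12 by decide +kernel] at s0
  rw [show card _ = 0 by decide +kernel] at o01 o04 o14 o02 o03 o12 o13 o42 o43 o22 o33
  rw [show card _ = 0 by decide +kernel] at od0 od2 od3 od4 s2 s3
  simp only [e0, e1, e2, e3, e4, Nat.cast_zero] at o00 o11 o44 o01 o04 o14 o02 o03 o12 o13 o42 o43
  simp only [e2, e3, Nat.cast_zero] at o22 o33 o23
  simp only [inv_inv, map_one, e0, e2, e3, e4, ed, Nat.cast_zero, mul_zero, Nat.cast_ofNat,
    mul_comm _ ((d _ : ℕ) : ℂ)] at od0 od2 od3 od4 s0 s2 s3 s4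
  rw [← one_mul (∑ _, _)] at o02 o03 o12 o13 o42 o43 od2 od3
  obtain ⟨a1, a2⟩ := split o02 o03
  obtain ⟨a3, a4⟩ := split o12 o13
  obtain ⟨a5, a6⟩ := split o42 o43
  obtain ⟨a7, -⟩ := split od2 od3
  obtain ⟨a8, -⟩ := split s2 s3
  rw [one_mul] at a1 a2 a3 a4 a5 a6 a7
  have ex : ∀ a b : ℂ, ∑ χ, (u χ + v χ * a : ℂ) * (u χ + v χ * b) = ∑ χ, (u χ * u χ : ℂ) +
      (a + b) * ∑ χ, (u χ * v χ : ℂ) + a * b * ∑ χ, (v χ * v χ : ℂ) := fun a b => by
    simp only [mul_sum, ← sum_add_distrib]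
    exact sum_congr rfl fun _ _ => by ring
  simp only [sub_eq_add_neg, ← mul_neg, ex] at o22 o33 o23
  have buu : ∑ χ, (u χ * u χ : ℂ) = 4 := by
    linear_combination (o22 + o33) / 4 + o23 / 2
  have bvv : ∑ χ, (v χ * v χ : ℂ) = 2 := by
    linear_combination (o23 - buu) / 2 + (∑ χ, (v χ * v χ : ℂ)) / 2 * hr2
  have buv : ∑ χ, (u χ * v χ : ℂ) = 0 := mul_left_cancel₀ hr0 (by linear_combination (o22 - o33) / 4)
  have gr := @gram_expand _ _ x0 x1 u v x4 (by exact_mod_cast o00) (by exact_mod_cast o11)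
    (by exact_mod_cast buu) (by exact_mod_cast bvv) (by exact_mod_cast o44) (by exact_mod_cast o01)
    (by exact_mod_cast a1) (by exact_mod_cast a2) (by exact_mod_cast o04) (by exact_mod_cast a3)
    (by exact_mod_cast a4) (by exact_mod_cast o14) (by exact_mod_cast buv) (by exact_mod_cast a5)
    (by exact_mod_cast a6)
  have hex : ∀ χ, ∃ c2 c3 c4 c5 : ℤ, 12 * c2 = 1 * x0 χ + 3 * x1 χ + 0 * u χ + -6 * v χ + -4 * x4 χ ∧
      12 * c3 = 2 * x0 χ + 0 * x1 χ + 6 * u χ + 0 * v χ + 4 * x4 χ ∧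
      12 * c4 = 2 * x0 χ + 0 * x1 χ + -6 * u χ + 0 * v χ + 4 * x4 χ ∧
      12 * c5 = 1 * x0 χ + 3 * x1 χ + 0 * u χ + 6 * v χ + 8 * x4 χ := fun χ =>
    ⟨-(v χ + q χ + n χ), u χ + p χ + v χ + 2 * q χ + n χ, p χ + v χ + 2 * q χ + n χ,
      x0 χ - q χ + 2 * n χ, by rw [hx4, eq, ep]; omega⟩
  choose c2 c3 c4 c5 k2 k3 k4 k5 using hex
  have k1 : ∀ χ, 12 * v χ = 0 * x0 χ + 0 * x1 χ + 0 * u χ + 12 * v χ + 0 * x4 χ := fun χ => by ring
  let o : IrrCharacter G := ⟨_, isIrrCharacter_one⟩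
  have t0 : x0 o = 1 := by exact_mod_cast (show (1 : ℂ) = _ from e0 o).symm
  have t1 : x1 o = 1 := by exact_mod_cast (show (1 : ℂ) = _ from e1 o).symm
  have t4 : x4 o = 1 := by exact_mod_cast (show (1 : ℂ) = _ from e4 o).symm
  have td : d o = 1 := by exact_mod_cast (show (1 : ℂ) = _ from ed o).symm
  have t2 : u o = 1 := by
    have : (u o : ℂ) = 1 := by linear_combination (exp := 1) -((e2 o : (1 : ℂ) = _) + (e3 o : (1 : ℂ) = _)) / 2
    exact_mod_cast this
  have t3 : v o = 0 := by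
    have : (v o : ℂ) = 0 := mul_right_cancel₀ hr0 (by
      linear_combination (exp := 1) -((e2 o : (1 : ℂ) = _) - (e3 o : (1 : ℂ) = _)) / 2)
    exact_mod_cast this
  obtain ⟨P, S, Q, R, hP, hS, hQ, hR, F3, F4⟩ := gram_GL23 v c2 c3 c4 c5 o t3
    (by have := k2 o; omega) (by have := k3 o; omega) (by have := k4 o; omega)
    (by have := k5 o; omega) (by simp only [sq]; have := gr k1 k1; omega)
    (by simp only [sq]; have := gr k2 k2; omega) (by have := gr k1 k2; omega)
    (by simp only [sq]; have := gr k3 k3; omega) (by simp only [sq]; have := gr k4 k4; omega)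
    (by have := gr k3 k4; omega) (by have := gr k1 k3; omega) (by have := gr k1 k4; omega)
    (by have := gr k2 k3; omega) (by have := gr k2 k4; omega)
    (by simp only [sq]; have := gr k5 k5; omega) (by have := gr k1 k5; omega)
    (by have := gr k3 k5; omega) (by have := gr k4 k5; omega)
  have hx0 : ∀ χ, x0 χ = 3 * c3 χ + 3 * c4 χ - 2 * c5 χ + 2 * c2 χ + 2 * v χ := fun χ => by
    have := k2 χ; have := k3 χ; have := k4 χ; have := k5 χ; omega
  have comb : ∀ {c : IrrCharacter G → ℤ} {a : ℤ},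
      (∀ χ, 12 * c χ = 2 * x0 χ + 0 * x1 χ + a * u χ + 0 * v χ + 4 * x4 χ) →
      ∀ F : IrrCharacter G → ℚ, 12 * ∑ χ, c χ * F χ =
        2 * ∑ χ, F χ * x0 χ + a * ∑ χ, F χ * u χ + 4 * ∑ χ, F χ * x4 χ := fun k F => by
    simp only [mul_sum, ← sum_add_distrib]
    refine sum_congr rfl fun χ _ => ?_
    have := congrArg (Int.cast : ℤ → ℚ) (k χ)
    push_cast at this
    linear_combination F χ * this
  have q0 : ∑ χ, (d χ : ℚ) * x0 χ = 0 := by exact_mod_cast od0
  have q2 : ∑ χ, (d χ : ℚ) * u χ = 0 := by exact_mod_cast a7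
  have q4 : ∑ χ, (d χ : ℚ) * x4 χ = 0 := by exact_mod_cast od4
  have r0 : (f.range.index : ℚ) * ∑ χ, (x0 χ : ℚ) ^ 2 / d χ * x0 χ = 48 * 12 := by exact_mod_cast s0
  have r2 : (f.range.index : ℚ) * ∑ χ, (x0 χ : ℚ) ^ 2 / d χ * u χ = 0 := by exact_mod_cast a8
  have r4 : (f.range.index : ℚ) * ∑ χ, (x0 χ : ℚ) ^ 2 / d χ * x4 χ = 48 * 6 := by exact_mod_cast s4
  have b1 := comb k3 fun χ => d χ
  have b2 := comb k4 fun χ => d χ
  have b3 := comb k3 fun χ => (x0 χ : ℚ) ^ 2 / d χ
  have b4 := comb k4 fun χ => (x0 χ : ℚ) ^ 2 / d χ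
  rw [F3, q0, q2, q4, td] at b1
  rw [F4, q0, q2, q4] at b2
  rw [F3, td, t0] at b3
  rw [F4] at b4
  have term : ∀ (χ : IrrCharacter G) (ε a : ℤ), ε ^ 2 = 1 → x0 χ = a * ε →
      ε * d χ ≠ 0 ∧ (ε : ℚ) * ((x0 χ : ℚ) ^ 2 / d χ) = a ^ 2 / ((ε * d χ : ℤ) : ℚ) := by
    intro χ ε a h1 h2
    have := (hd χ).ne'
    rw [h2]
    rcases sq_eq_one_iff.mp h1 with rfl | rfl <;> simp [this, div_neg]
  obtain ⟨nP, tP⟩ := term P (c3 P) 3 hP.2.2.1 (by have := hx0 P; omega)
  obtain ⟨nS, tS⟩ := term S (c3 S) 4 hS.2.2.1 (by have := hx0 S; omega)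
  obtain ⟨nQ, tQ⟩ := term Q (c4 Q) 1 hQ.2.2.2.1 (by have := hx0 Q; omega)
  obtain ⟨nR, tR⟩ := term R (c4 R) 3 hR.2.2.2.1 (by have := hx0 R; omega)
  rw [hS.2.2.2.1] at b2 b4
  rw [tP, tS] at b3
  rw [tS, tQ, tR] at b4
  rcases gl23_arith (m := f.range.index) (by exact_mod_cast h.odd_index) nP nS nQ nR
    (by have : ((1 + c3 P * d P + c3 S * d S : ℤ) : ℚ) = 0 := by push_cast; linear_combination b1 / 12
        exact_mod_cast this)
    (by have : ((c3 S * d S + c4 Q * d Q + c4 R * d R : ℤ) : ℚ) = 0 := by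
          push_cast; linear_combination b2 / 12
        exact_mod_cast this)
    (by linear_combination (f.range.index : ℚ) * b3 / 12 + r0 / 6 + r2 / 2 + r4 / 3)
    (by linear_combination (f.range.index : ℚ) * b4 / 12 + r0 / 6 - r2 / 2 + r4 / 3) with
    h1 | h1 | h1
  · exact Or.inl (by exact_mod_cast h1)
  · exact Or.inr (by exact_mod_cast h1)
  exfalso
  have h2 : c4 Q = 1 ∧ d Q = 1 := by
    rcases sq_eq_one_iff.mp hQ.2.2.2.1 with h2 | h2 <;> rw [h2] at h1 <;> omega
  have h3 : Q.1 (f 11) = -1 := by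
    rw [e2, hQ.1, show u Q = -1 by have := k3 Q; have := k4 Q; omega]; simp
  have h4 : ∀ y : K48, y ≠ 1 → y * y = 1 → Q.1 (f y) = 1 := fun y a b => by
    rw [← Q.2.isClassFunction.eq_of_isConj (h.isConj_of_sq hG
      (fun e => a (h.inj (e.trans (map_one f).symm))) (by rw [← map_mul, b, map_one])), e0,
      show x0 Q = 1 by have := hx0 Q; omega, Int.cast_one]
  have h5 := Q.2.isCharacter.map_mul_of_apply_one (by rw [ed, h2.2, Nat.cast_one])
  rw [show (11 : K48) = K48.b * 2 * 3 by decide +kernel, map_mul, map_mul, h5, h5,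
    h4 _ (by decide +kernel) (by decide +kernel), h4 _ (by decide +kernel) (by decide +kernel),
    h4 _ (by decide +kernel) (by decide +kernel)] at h3
  norm_num at h3

end GLC

end Cfsg.H4
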