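import Cfsg.Agent.H4.TI

/-!
# Integer vectors with a prescribed Gram matrix
-/

set_option autoImplicit false

open Finset

namespace Cfsg.H4

variable {ι : Type*} [Fintype ι]

theorem sum_mul_two {R : Type*} [CommRing R] {c : ι → ℤ} {i j : ι} (hij : i ≠ j)
    (h : ∀ k, k ≠ i → k ≠ j → c k = 0) (F : ι → R) :
    ∑ k, (c k : R) * F k = c i * F i + c j * F j :=
  Fintype.sum_eq_add i j hij fun k hk => by rw [h k hk.1 hk.2]; simp

theorem sum_mul_one {R : Type*} [CommRing R] {c : ι → ℤ} {i : ι}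
    (h : ∀ k, k ≠ i → c k = 0) (F : ι → R) : ∑ k, (c k : R) * F k = c i * F i :=
  Fintype.sum_eq_single i fun k hk => by rw [h k hk]; simp

/-- Two vectors of norm two with odd inner product. -/
theorem exists_three_points (c c' : ι → ℤ) (h : ∑ i, c i ^ 2 = 2) (h' : ∑ i, c' i ^ 2 = 2)
    (hc : (∑ i, c i * c' i) ^ 2 = 1) : ∃ a b q, a ≠ b ∧ a ≠ q ∧ b ≠ q ∧ c a ^ 2 = 1 ∧
      c b ^ 2 = 1 ∧ c' a ^ 2 = 1 ∧ c' q ^ 2 = 1 ∧ (∀ k, k ≠ a → k ≠ b → c k = 0) ∧
      ∀ k, k ≠ a → k ≠ q → c' k = 0 := by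
  obtain ⟨a, b, hab, ha, hb, h0⟩ := exists_of_sum_sq_eq_two c h
  obtain ⟨p, q, hpq, hp, hq, h0'⟩ := exists_of_sum_sq_eq_two c' h'
  have h1 := sum_mul_two (R := ℤ) hab h0 c'
  simp only [Int.cast_id] at h1
  rw [h1] at hc
  rw [← sq_eq_one_iff] at ha hb hp hq
  by_cases e1 : a = p
  · subst e1
    refine ⟨a, b, q, hab, hpq, ?_, ha, hb, hp, hq, h0, h0'⟩
    rintro rfl
    rcases sq_eq_one_iff.mp ha with h2 | h2 <;> rcases sq_eq_one_iff.mp hb with h3 | h3 <;>
      rcases sq_eq_one_iff.mp hp with h4 | h4 <;> rcases sq_eq_one_iff.mp hq with h5 | h5 <;>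
      simp [h2, h3, h4, h5] at hc
  by_cases e2 : a = q
  · subst e2
    refine ⟨a, b, p, hab, e1, ?_, ha, hb, hq, hp, h0, fun k h1 h2 => h0' k h2 h1⟩
    rintro rfl
    rcases sq_eq_one_iff.mp ha with h2 | h2 <;> rcases sq_eq_one_iff.mp hb with h3 | h3 <;>
      rcases sq_eq_one_iff.mp hp with h4 | h4 <;> rcases sq_eq_one_iff.mp hq with h5 | h5 <;>
      simp [h2, h3, h4, h5] at hc
  by_cases e3 : b = p
  · subst e3
    exact ⟨b, a, q, hab.symm, hpq, e2, hb, ha, hp, hq, fun k h1 h2 => h0 k h2 h1, h0'⟩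
  by_cases e4 : b = q
  · subst e4
    exact ⟨b, a, p, hab.symm, e3, e1, hb, ha, hq, hp, fun k h1 h2 => h0 k h2 h1,
      fun k h1 h2 => h0' k h2 h1⟩
  simp [h0' a e1 e2, h0' b e3 e4] at hc

theorem sum_sq_split [DecidableEq ι] (c : ι → ℤ) (A : Finset ι) :
    ∑ i, c i ^ 2 = ∑ i ∈ A, c i ^ 2 + ∑ i, (if i ∈ A then 0 else c i) ^ 2 := by
  rw [← sum_add_sum_compl A, ← sum_add_sum_compl A (fun i => (if i ∈ A then 0 else c i) ^ 2),
    sum_eq_zero (s := A) (f := fun i => (if i ∈ A then 0 else c i) ^ 2)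
      (fun i hi => by simp [hi]), zero_add]
  congr 1
  exact sum_congr rfl fun i hi => by rw [if_neg (mem_compl.mp hi)]

set_option maxHeartbeats 1000000 in
/-- The Gram matrix of the virtual characters of `GL₂(3)` vanishing off the roots of the central
involution. -/
theorem gram_GL23 (c1 c2 c3 c4 c5 : ι → ℤ) (o : ι) (o1 : c1 o = 0) (o2 : c2 o = 0) (o3 : c3 o = 1)
    (o4 : c4 o = 0) (o5 : c5 o = 1) (h11 : ∑ i, c1 i ^ 2 = 2) (h22 : ∑ i, c2 i ^ 2 = 2)
    (h12 : ∑ i, c1 i * c2 i = -1) (h33 : ∑ i, c3 i ^ 2 = 3) (h44 : ∑ i, c4 i ^ 2 = 3)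
    (h34 : ∑ i, c3 i * c4 i = 1) (h13 : ∑ i, c1 i * c3 i = 0) (h14 : ∑ i, c1 i * c4 i = 0)
    (h23 : ∑ i, c2 i * c3 i = 0) (h24 : ∑ i, c2 i * c4 i = 0) (h55 : ∑ i, c5 i ^ 2 = 4)
    (h15 : ∑ i, c1 i * c5 i = 1) (h35 : ∑ i, c3 i * c5 i = 2) (h45 : ∑ i, c4 i * c5 i = 2) :
    ∃ P S Q R : ι, (c1 P = 0 ∧ c2 P = 0 ∧ c3 P ^ 2 = 1 ∧ c4 P = 0 ∧ c5 P = 0) ∧
      (c1 S = 0 ∧ c2 S = 0 ∧ c3 S ^ 2 = 1 ∧ c4 S = c3 S ∧ c5 S = c3 S) ∧
      (c1 Q = 0 ∧ c2 Q = 0 ∧ c3 Q = 0 ∧ c4 Q ^ 2 = 1 ∧ c5 Q = c4 Q) ∧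
      (c1 R = 0 ∧ c2 R = 0 ∧ c3 R = 0 ∧ c4 R ^ 2 = 1 ∧ c5 R = 0) ∧
      (∀ F : ι → ℚ, ∑ i, (c3 i : ℚ) * F i = F o + c3 P * F P + c3 S * F S) ∧
      ∀ F : ι → ℚ, ∑ i, (c4 i : ℚ) * F i = c4 S * F S + c4 Q * F Q + c4 R * F R := by
  classical
  obtain ⟨a, b, q, hab, haq, hbq, a1, b1, a2, q2, s1, s2⟩ :=
    exists_three_points c1 c2 h11 h22 (by rw [h12]; norm_num)
  have hoa : o ≠ a := by rintro rfl; simp [o1] at a1
  have hob : o ≠ b := by rintro rfl; simp [o1] at b1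
  have hoq : o ≠ q := by rintro rfl; simp [o2] at q2
  have key : ∀ g : ι → ℤ, ∑ i, c1 i * g i = 0 → ∑ i, c2 i * g i = 0 →
      g b ^ 2 = g a ^ 2 ∧ g q ^ 2 = g a ^ 2 := fun g e1 e2 => by
    have e3 := sum_mul_two (R := ℤ) hab s1 g
    have e4 := sum_mul_two (R := ℤ) haq s2 g
    simp only [Int.cast_id] at e3 e4
    rw [e1] at e3
    rw [e2] at e4
    constructor
    · linear_combination (c1 a * g a - c1 b * g b) * e3 + g a ^ 2 * a1 - g b ^ 2 * b1
    · linear_combination (c2 a * g a - c2 q * g q) * e4 + g a ^ 2 * a2 - g q ^ 2 * q2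
  set A : Finset ι := {o, a, b, q} with hA
  have hsum : ∀ g : ι → ℤ, ∑ i ∈ A, g i ^ 2 = g o ^ 2 + (g a ^ 2 + (g b ^ 2 + g q ^ 2)) :=
    fun g => by
      rw [hA, sum_insert (by simp [hoa, hob, hoq]), sum_insert (by simp [hab, haq]), sum_pair hbq]
  have hnn : ∀ g : ι → ℤ, 0 ≤ ∑ i, g i ^ 2 := fun g => sum_nonneg fun _ _ => sq_nonneg _
  have z3 : c3 a = 0 ∧ c3 b = 0 ∧ c3 q = 0 := by
    have e1 := sum_sq_split c3 A
    obtain ⟨e2, e3⟩ := key c3 h13 h23
    have e4 := hnn fun i => if i ∈ A then 0 else c3 i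
    rw [hsum, h33, o3, e2, e3] at e1
    have e5 : c3 a ^ 2 = 0 := by have := sq_nonneg (c3 a); omega
    rw [e5] at e2 e3
    exact ⟨pow_eq_zero_iff two_ne_zero |>.mp e5, pow_eq_zero_iff two_ne_zero |>.mp e2,
      pow_eq_zero_iff two_ne_zero |>.mp e3⟩
  have z4 : ∀ i ∈ A, c4 i = 0 := by
    have e1 := sum_sq_split c4 A
    obtain ⟨e2, e3⟩ := key c4 h14 h24
    have e4 := hnn fun i => if i ∈ A then 0 else c4 i
    rw [hsum, h44, o4, e2, e3] at e1
    have e5 : c4 a ^ 2 = 0 := by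
      by_contra hne
      have e6 : ∑ i, (if i ∈ A then 0 else c4 i) ^ 2 = 0 := by have := sq_nonneg (c4 a); omega
      rw [sum_eq_zero_iff_of_nonneg fun _ _ => sq_nonneg _] at e6
      rw [sum_eq_zero fun i _ => ?_] at h34
      · exact absurd h34 (by norm_num)
      by_cases hi : i ∈ A
      · simp only [hA, mem_insert, mem_singleton] at hi
        rcases hi with rfl | rfl | rfl | rfl <;> simp [o4, z3]
      · have := e6 i (mem_univ i)
        rw [if_neg hi] at this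
        rw [pow_eq_zero_iff two_ne_zero |>.mp this, mul_zero]
    rw [e5] at e2 e3
    intro i hi
    simp only [hA, mem_insert, mem_singleton] at hi
    rcases hi with rfl | rfl | rfl | rfl
    exacts [o4, pow_eq_zero_iff two_ne_zero |>.mp e5, pow_eq_zero_iff two_ne_zero |>.mp e2,
      pow_eq_zero_iff two_ne_zero |>.mp e3]
  set g : ι → ℤ := fun i => if i ∈ A then 0 else c3 i with hg
  set k : ι → ℤ := fun i => if i ∈ A then 0 else c5 i with hk
  have hg3 : ∀ i, c3 i = g i + if i = o then 1 else 0 := fun i => by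
    by_cases hi : i ∈ A
    · simp only [hg, if_pos hi]
      simp only [hA, mem_insert, mem_singleton] at hi
      rcases hi with rfl | rfl | rfl | rfl <;> simp [o3, z3, hoa.symm, hob.symm, hoq.symm]
    · have : i ≠ o := by rintro rfl; simp [hA] at hi
      simp [hg, hi, this]
  have hgF : ∀ {R : Type} [CommRing R] (F : ι → R), ∑ i, (c3 i : R) * F i =
      F o + ∑ i, (g i : R) * F i := fun F => by
    simp only [hg3, Int.cast_add, add_mul, sum_add_distrib]
    rw [add_comm]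
    simp
  have gg : ∑ i, g i ^ 2 = 2 := by
    have e1 := sum_sq_split c3 A
    rw [hsum, h33, o3, z3.1, z3.2.1, z3.2.2] at e1
    simp only [hg]
    omega
  have g4 : ∑ i, g i * c4 i = 1 := by
    have := hgF c4
    simp only [Int.cast_id] at this
    omega
  have gk : ∑ i, g i * k i = 1 := by
    have := hgF c5
    simp only [Int.cast_id] at this
    rw [h35, o5] at this
    rw [sum_congr rfl (g := fun i => g i * c5 i) fun i _ => by
      by_cases hi : i ∈ A <;> simp [hg, hk, hi]]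
    omega
  have k4 : ∑ i, c4 i * k i = 2 := by
    rw [← h45]
    exact sum_congr rfl fun i _ => by
      by_cases hi : i ∈ A
      · simp [z4 i hi]
      · simp [hk, hi]
  have kk : ∑ i, k i ^ 2 = 2 := by
    have e1 := sum_sq_split c5 A
    rw [hsum, h55, o5] at e1
    have e2 := sum_mul_two (R := ℤ) hab s1 c5
    simp only [Int.cast_id] at e2
    rw [h15] at e2
    have e3 : 0 < c5 a ^ 2 + c5 b ^ 2 := by
      by_contra h
      have e6 := sq_nonneg (c5 a)
      have e7 := sq_nonneg (c5 b)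
      have e4 : c5 a = 0 := pow_eq_zero_iff two_ne_zero |>.mp (by omega)
      have e5 : c5 b = 0 := pow_eq_zero_iff two_ne_zero |>.mp (by omega)
      simp [e4, e5] at e2
    have e4 := hnn fun i => 2 * c4 i - 3 * k i
    rw [sum_congr rfl (g := fun i => 4 * c4 i ^ 2 - 12 * (c4 i * k i) + 9 * k i ^ 2)
      fun i _ => by ring, sum_add_distrib, sum_sub_distrib, ← mul_sum, ← mul_sum, ← mul_sum, h44,
      k4] at e4
    have e5 := sq_nonneg (c5 q)
    change _ = _ + ∑ i, k i ^ 2 at e1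
    omega
  obtain ⟨S, P, Q, hSP, hSQ, hPQ, gS, gP, kS, kQ, t1, t2⟩ :=
    exists_three_points g k gg kk (by rw [gk]; norm_num)
  obtain ⟨R, hR, t3⟩ := exists_unique_of_sum_sq_eq_one (fun i => c4 i - k i) (by
    rw [sum_congr rfl (g := fun i => c4 i ^ 2 - 2 * (c4 i * k i) + k i ^ 2) fun i _ => by ring,
      sum_add_distrib, sum_sub_distrib, ← mul_sum, h44, k4, kk]
    norm_num)
  rw [← sq_eq_one_iff] at hR
  have gR : g R = 0 := by
    have := sum_mul_one (R := ℤ) t3 g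
    simp only [Int.cast_id] at this
    rw [sum_congr rfl (g := fun i => g i * c4 i - g i * k i) fun i _ => by ring, sum_sub_distrib,
      g4, gk] at this
    linear_combination -(c4 R - k R) * this - g R * hR
  have kR : k R = 0 := by
    have := sum_mul_one (R := ℤ) t3 k
    simp only [Int.cast_id] at this
    rw [sum_congr rfl (g := fun i => c4 i * k i - k i ^ 2) fun i _ => by ring, sum_sub_distrib,
      k4, kk] at this
    linear_combination -(c4 R - k R) * this - k R * hR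
  have hSR : S ≠ R := by rintro rfl; simp [gR] at gS
  have hPR : P ≠ R := by rintro rfl; simp [gR] at gP
  have hQR : Q ≠ R := by rintro rfl; simp [kR] at kQ
  have kP := t2 P hSP.symm hPQ
  have gQ := t1 Q hSQ.symm hPQ.symm
  have kS' : k S = g S := by
    have := sum_mul_two (R := ℤ) hSP t1 k
    simp only [Int.cast_id] at this
    rw [gk, kP] at this
    linear_combination -g S * this - k S * gS
  have out : ∀ i, i ∉ A → c1 i = 0 ∧ c2 i = 0 ∧ g i = c3 i ∧ k i = c5 i := fun i hi => by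
    refine ⟨s1 i ?_ ?_, s2 i ?_ ?_, by simp [hg, hi], by simp [hk, hi]⟩ <;>
      rintro rfl <;> simp [hA] at hi
  have oP := out P fun h => by simp [hg, h] at gP
  have oS := out S fun h => by simp [hg, h] at gS
  have oQ := out Q fun h => by simp [hk, h] at kQ
  have oR := out R fun h => by simp [hk, h, z4 R h] at hR
  have c4P := t3 P hPR
  have c4S := t3 S hSR
  have c4Q := t3 Q hQR
  refine ⟨P, S, Q, R, ⟨oP.1, oP.2.1, oP.2.2.1 ▸ gP, by omega, by omega⟩,
    ⟨oS.1, oS.2.1, oS.2.2.1 ▸ gS, by omega, by omega⟩,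
    ⟨oQ.1, oQ.2.1, by omega, by rw [show c4 Q = k Q by omega, kQ], by omega⟩,
    ⟨oR.1, oR.2.1, by omega, by rw [← hR, kR, sub_zero], by omega⟩, fun F => ?_, fun F => ?_⟩
  · rw [hgF, sum_mul_two hSP t1, oP.2.2.1, oS.2.2.1]; ring
  · rw [sum_congr rfl (g := fun i => (k i : ℚ) * F i + ((c4 i - k i : ℤ) : ℚ) * F i)
      fun i _ => by push_cast; ring, sum_add_distrib, sum_mul_two hSQ t2, sum_mul_one t3, kR,
      show k S = c4 S by omega, show k Q = c4 Q by omega]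
    simp

end Cfsg.H4
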