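import Cfsg.Agent.H4.J1Loc
import Cfsg.Agent.L0.Invert
import Cfsg.Agent.L0.KS12a

/-!
# Groups with an involution centralizer `2 × A₅`: elements of order three and five
-/

set_option autoImplicit false
set_option maxRecDepth 100000

open Subgroup

namespace Cfsg.H4.JC

open K120

universe u

variable {G : Type u} [Group G] [Finite G] {f : K120 →* G} (h : JC f)
include h

theorem syl {p : K120} (hp : p = 15 ∨ p = 33) :
    H8.IsSyl 2 (zpowers (f 6)) (centralizer {f p}) ∧ H8.NPC 2 (centralizer {f p}) := by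
  have ht : f 6 ∈ centralizer {f p} :=
    mem_centralizer_singleton_iff.mpr ((h.cen _).mpr ⟨_, rfl⟩).symm
  have h1 : ∀ g ∈ normalizer (zpowers (f 6) : Set G), g * f 6 = f 6 * g := fun g hg => by
    obtain ⟨k, hk⟩ := (mem_normalizer_iff.mp hg _).mp (mem_zpowers _)
    simp only [← map_zpow] at hk
    have key : ∀ y : K120, 2 * y = y * 2 → 5 * y = y * 5 → y = 1 ∨ y = 6 := by decide +kernel
    rcases key (6 ^ k) (Commute.zpow_right (show (2 : K120) * 6 = 6 * 2 by decide +kernel) k)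
      (Commute.zpow_right (show (5 : K120) * 6 = 6 * 5 by decide +kernel) k) with e | e
    · rw [e, map_one, eq_comm, conj_eq_one_iff] at hk
      exact absurd hk (h.ne_one (by decide +kernel))
    · rw [e] at hk
      exact mul_inv_eq_iff_eq_mul.mp hk.symm
  have h2 : H8.IsSyl 2 (zpowers (f 6)) (centralizer {f p}) := by
    refine H8.IsSyl.of_normalizer (H8.isSyl_of_maximal (le_inf (zpowers_le.mpr ht) le_normalizer)
      (H8.isPGroup_zpowers (k := 1) ((pow_two _).trans t_sq)) fun Q a b c q hq => ?_)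
    obtain ⟨y, rfl⟩ := (h.cen q).mp (h1 q (c hq).2)
    have key : ∀ y : K120, y * p = p * y → y ^ 15 = 1 ∨ y ^ 15 = 6 := by
      rcases hp with rfl | rfl <;> decide +kernel
    obtain ⟨k, hk⟩ := a ⟨_, hq⟩
    refine H8.mem_of_pow_mem (Nat.Coprime.pow_right k (by norm_num : Nat.Coprime 15 2)) ?_
      ((show f y ^ 2 ^ k = 1 from congrArg Subtype.val hk) ▸ one_mem _)
    rcases key y (h.inj (by simpa using mem_centralizer_singleton_iff.mp (c hq).1)) with e | e <;>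
      rw [← map_pow, e]
    exacts [map_one f ▸ one_mem _, mem_zpowers _]
  refine ⟨h2, H8.burnside_npc h2 fun g hg => ?_⟩
  rintro _ ⟨k, rfl⟩
  exact (Commute.zpow_left (h1 g hg.2).symm k)

omit h in
theorem mem_norm {p v : K120} (hv : v * p * v⁻¹ = p ∨ v * p * v⁻¹ = p⁻¹) :
    f v ∈ normalizer (pResidualOf 2 (centralizer {f p}) : Set G) :=
  H7.normalizer_le_normalizer_pResidualOf 2 _ (mem_normalizer_fintype fun x hx => by
    have h1 : Commute (f v * x * (f v)⁻¹) (f (v * p * v⁻¹)) := by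
      rw [map_mul, map_mul, map_inv, Commute, SemiconjBy, conj_mul, conj_mul,
        mem_centralizer_singleton_iff.mp hx]
    rw [SetLike.mem_coe, mem_centralizer_singleton_iff]
    rcases hv with e | e <;> rw [e] at h1
    · exact h1
    · exact Commute.inv_right_iff.mp (map_inv f p ▸ h1))

omit h [Finite G] in
/-- A four-group containing the central involution. -/
def _root_.Cfsg.H4.K120.four' : Subgroup K120 where
  carrier := {x | x = 1 ∨ x = 6 ∨ x = 4 ∨ x = 16}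
  one_mem' := Or.inl rfl
  mul_mem' {x y} := by
    rintro (rfl | rfl | rfl | rfl) (rfl | rfl | rfl | rfl) <;>
      simp only [Set.mem_ofPred_eq] <;> decide +kernel
  inv_mem' {x} := by
    rintro (rfl | rfl | rfl | rfl) <;> simp only [Set.mem_ofPred_eq] <;> decide +kernel

theorem cen_le {p : K120} (hp : p = 15 ∨ p = 33) {H : Subgroup G} (hf : f.range ≤ H)
    (hO : ∀ v, v = 4 ∨ v = 16 → ∀ z ∈ pResidualOf 2 (centralizer {f p}),
      z * f v = f v * z → z ∈ H) : centralizer {f p} ≤ H := by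
  obtain ⟨h1, h2⟩ := h.syl hp
  rw [← (H7.isSylowIn_iff_exists_map.mpr (H8.isSyl_iff_exists_sylow.mp h1)).sup_pResidualOf]
  refine sup_le (zpowers_le.mpr (hf ⟨_, rfl⟩)) (H9.generation_elementaryAbelian (p := 2)
    (A := four'.map f) ⟨⟨⟨?_⟩⟩, ?_⟩ ?_ ?_ (Nat.prime_two.coprime_iff_not_dvd.mp h2.symm) ?_)
  · rintro ⟨_, x, hx, rfl⟩ ⟨_, y, hy, rfl⟩
    refine Subtype.ext ((map_mul f _ _).symm.trans (Eq.trans (congrArg f ?_) (map_mul f _ _)))
    rcases hx with rfl | rfl | rfl | rfl <;> rcases hy with rfl | rfl | rfl | rfl <;> decide +kernel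
  · rintro _ ⟨x, hx, rfl⟩
    rw [← map_pow, ← map_one f]
    rcases hx with rfl | rfl | rfl | rfl <;> exact congrArg f (by decide +kernel)
  · rw [card_map_of_injective h.inj]
    change 4 ≤ Nat.card {x : K120 // x = 1 ∨ x = 6 ∨ x = 4 ∨ x = 16}
    rw [Nat.card_eq_fintype_card, Fintype.card_subtype]
    decide +kernel
  · rintro _ ⟨x, hx, rfl⟩
    refine mem_norm ?_
    rcases hp with rfl | rfl <;> rcases hx with rfl | rfl | rfl | rfl <;> decide +kernel
  · rintro _ ⟨x, hx, rfl⟩ h3 z ⟨hz, h4⟩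
    have h5 := mem_centralizer_singleton_iff.mp h4
    rcases hx with rfl | rfl | hx
    · exact absurd (map_one f) h3
    · exact hf ((h.cen z).mp h5)
    · exact hO x hx z hz h5

theorem exists_com {r : G} (hr : Gen f r) {p : K120} (hp : p = 15 ∨ p = 33)
    (hn : ¬ centralizer {f p} ≤ f.range) :
    (∃ z, (z = 27 ∨ z = 44 ∨ z = 46 ∨ z = 51) ∧ Commute (f p) ((r ^ 1)⁻¹ * f z * r ^ 1)) ∨
    (∃ z, (z = 21 ∨ z = 40 ∨ z = 42 ∨ z = 53) ∧ Commute (f p) ((r ^ 3)⁻¹ * f z * r ^ 3)) := by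
  set O := pResidualOf 2 (centralizer {f p}) with hO
  have main : ∀ (g : G) (t0 : K120), g⁻¹ * f t0 * g = f 6 → ∀ z ∈ O,
      z * (g⁻¹ * f 6 * g) = g⁻¹ * f 6 * g * z → z ∉ f.range → ∃ y : K120, y ≠ 1 ∧ y ^ 15 = 1 ∧
        t0 * y * t0 = y⁻¹ ∧ ∀ k, Commute (f p) (g⁻¹ * f (y ^ k) * g) := by
    intro g t0 ht z hz hc hn
    have h6 : (f 6)⁻¹ = f 6 := inv_eq_of_mul_eq_one_left t_sq
    have h1 : z * (f 6 * z⁻¹ * (f 6)⁻¹) ∈ O := mul_mem hz (H8.conj_mem_of_mem_normalizer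
      (mem_norm (Or.inl (by rcases hp with rfl | rfl <;> decide +kernel))) (inv_mem hz))
    have c1 : Commute z (g⁻¹ * f 6 * g) := hc
    have c2 : Commute (f 6) (g⁻¹ * f 6 * g) := by
      have : Commute (f t0) (f 6) := (h.cen _).mpr ⟨_, rfl⟩
      simpa only [MulAut.conj_inv_apply, ht] using this.map (MulAut.conj g)⁻¹
    have c3 := c1.mul_left ((c2.mul_left c1.inv_left).mul_left c2.inv_left)
    have h2 : f 6 * (z * (f 6 * z⁻¹ * (f 6)⁻¹)) * f 6 = (z * (f 6 * z⁻¹ * (f 6)⁻¹))⁻¹ := by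
      nth_rewrite 2 [← h6]; group
    have h3 : z * (f 6 * z⁻¹ * (f 6)⁻¹) ≠ 1 := fun e => hn ((h.cen z).mp (by
      rw [← one_mul (f 6 * z), ← e]; group))
    generalize z * (f 6 * z⁻¹ * (f 6)⁻¹) = w at h1 c3 h2 h3
    obtain ⟨y, hy⟩ := (h.cen (g * w * g⁻¹)).mp (by
      calc _ = g * (w * (g⁻¹ * f 6 * g)) * g⁻¹ := by group
        _ = _ := by rw [c3]; group)
    obtain rfl : w = g⁻¹ * f y * g := by rw [hy]; group
    refine ⟨y, by rintro rfl; simp at h3, ?_, h.inj ?_, fun k => ?_⟩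
    · have h4 := ((h.syl hp).2.coprime_dvd_left (orderOf_dvd_natCard _ h1)).pow_right 3
      rw [← MulAut.conj_inv_apply, MulEquiv.orderOf_eq, orderOf_injective f h.inj] at h4
      have h5 : orderOf y ∣ 15 * 2 ^ 3 := by
        have := orderOf_dvd_natCard y; rwa [K120.card_eq] at this
      exact orderOf_dvd_iff_pow_eq_one.mp (h4.dvd_of_dvd_mul_right h5)
    · rw [← ht] at h2
      rw [map_mul, map_mul, map_inv]
      calc _ = g * (g⁻¹ * f t0 * g * (g⁻¹ * f y * g) * (g⁻¹ * f t0 * g)) * g⁻¹ := by group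
        _ = _ := by rw [h2]; group
    · have h4 : Commute (f p) (g⁻¹ * f y * g) :=
        (mem_centralizer_singleton_iff.mp (H7.pResidualOf_le 2 _ h1)).symm
      rw [map_pow, ← MulAut.conj_inv_apply, map_pow]
      exact h4.pow_right k
  by_contra hc
  refine hn (h.cen_le hp le_rfl fun v hv z hz e => by_contra fun h1 => hc ?_)
  rcases hv with rfl | rfl
  · obtain ⟨y, a1, a2, a3, a4⟩ := main (r ^ 1) 50 (hr.act.pow 1 5) z hz
      (by rwa [show (r ^ 1)⁻¹ * f 6 * r ^ 1 = f 4 from hr.act.pow 1 1]) h1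
    have key : ∀ y : K120, y ≠ 1 → y ^ 15 = 1 → 50 * y * 50 = y⁻¹ →
      ∃ k : Fin 5, y ^ k.val = 27 ∨ y ^ k.val = 44 ∨ y ^ k.val = 46 ∨ y ^ k.val = 51 := by
      decide +kernel
    obtain ⟨k, hk⟩ := key y a1 a2 a3
    exact Or.inl ⟨_, hk, a4 k⟩
  · obtain ⟨y, a1, a2, a3, a4⟩ := main (r ^ 3) 20 (hr.act.pow 3 6) z hz
      (by rwa [show (r ^ 3)⁻¹ * f 6 * r ^ 3 = f 16 from hr.act.pow 3 1]) h1
    have key : ∀ y : K120, y ≠ 1 → y ^ 15 = 1 → 20 * y * 20 = y⁻¹ →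
      ∃ k : Fin 5, y ^ k.val = 21 ∨ y ^ k.val = 40 ∨ y ^ k.val = 42 ∨ y ^ k.val = 53 := by
      decide +kernel
    obtain ⟨k, hk⟩ := key y a1 a2 a3
    exact Or.inr ⟨_, hk, a4 k⟩

/-- A subgroup of order `175560` containing the centralizer is the whole group. -/
theorem eq_top {H : Subgroup G} (hf : f.range ≤ H) (hc : Nat.card H = 175560)
    (h2 : ∀ N : Subgroup H, N.index ≠ 2)
    (hfin : ∀ d ∈ H, d⁻¹ * f 6 * d = f 4 → ∃ g ∈ H,
      ¬ Commute (g⁻¹ * f 6 * g) (d⁻¹ * (g⁻¹ * f 6 * g) * d)) : H = ⊤ := by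
  have hfH : ∀ y, f y ∈ H := fun y => hf ⟨y, rfl⟩
  have hi : f.range.relIndex H = 1463 := by
    have := H8.card_mul_relIndex hf
    rw [h.card_range, hc] at this
    omega
  -- involutions
  have hJ : ∀ x ∈ H, x ≠ 1 → x * x = 1 → ∃ g ∈ H, g * f 6 * g⁻¹ = x := fun x hx a b => by
    have e : (f.codRestrict H hfH).range = f.range.subgroupOf H := by
      ext x
      exact ⟨fun ⟨y, hy⟩ => ⟨y, congrArg Subtype.val hy⟩, fun ⟨y, hy⟩ => ⟨y, Subtype.ext hy⟩⟩
    have h' : JC (f.codRestrict H hfH) := ⟨fun x y e => h.inj (congrArg Subtype.val e),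
      fun x => by rw [Subtype.ext_iff, e]; exact h.cen x,
      by rw [e, show (f.range.subgroupOf H).index = 1463 from hi]; decide, h2⟩
    obtain ⟨g, hg⟩ := isConj_iff.mp (h'.isConj_of_sq (x := ⟨x, hx⟩)
      (fun e => a (congrArg Subtype.val e)) (Subtype.ext b))
    exact ⟨g, g.2, congrArg Subtype.val hg⟩
  have st : ∀ x ∈ H, x ≠ 1 → x * x = 1 → ∀ g, g * x * g⁻¹ ∈ H → g ∈ H := fun x hx a b g hg => by
    obtain ⟨u, hu, rfl⟩ := hJ x hx a b
    obtain ⟨v, hv, e⟩ := hJ _ hg (by simpa using a) (by rw [conj_mul, b]; group)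
    have := hf ((h.cen (v⁻¹ * g * u)).mp (by
      calc _ = v⁻¹ * (g * (u * f 6 * u⁻¹) * g⁻¹) * (g * u) := by group
        _ = _ := by rw [← e]; group))
    rwa [H.mul_mem_cancel_right hu, H.mul_mem_cancel_left (inv_mem hv)] at this
  have cenJ : ∀ x ∈ H, x ≠ 1 → x * x = 1 → ∀ g, g * x = x * g → g ∈ H := fun x hx a b g hg =>
    st x hx a b g (by rwa [hg, mul_inv_cancel_right])
  -- elements of order three and five
  have cenP : ∀ x ∈ H, x ≠ 1 → x ^ 3 = 1 ∨ x ^ 5 = 1 →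
      ∀ g, g * x = x * g → g ∈ H := fun x hx a b c e => by
    have k1 : ∀ p : ℕ, p.Prime → ¬ p ∣ 1463 → x ^ p = 1 → ∃ g ∈ H, g * x * g⁻¹ ∈ f.range := by
      intro p hp hd e
      have := Fact.mk hp
      obtain ⟨P, hP, -⟩ := H8.exists_isSyl_ge (p := p) (Q := ⊥) (H := f.range) IsPGroup.of_bot bot_le
      obtain ⟨g, hg, e⟩ := (hP.trans hf (hi ▸ hd)).exists_conj_mem hx ⟨1, by rwa [pow_one]⟩
      exact ⟨g, hg, hP.le e⟩
    obtain ⟨g, hg, y, hy⟩ := b.elim (k1 3 (by norm_num) (by norm_num))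
      (k1 5 (by norm_num) (by norm_num))
    have key : ∀ y : K120, y ≠ 1 → y ^ 3 = 1 ∨ y ^ 5 = 1 → ∃ k, k * y * k⁻¹ = 15 ∨
        k * y * k⁻¹ = 33 ∨ (k * y * k⁻¹) ^ 3 = 33 := by decide +kernel
    obtain ⟨k, hk⟩ := key y (by rintro rfl; exact a (by simpa using hy.symm))
      (b.imp (fun e => h.inj (by rw [map_pow, hy, conj_pow, e]; simp))
        fun e => h.inj (by rw [map_pow, hy, conj_pow, e]; simp))
    have k2 : ∀ p, p = 15 ∨ p = 33 → centralizer {f p} ≤ H := fun p hp =>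
      h.cen_le hp hf fun v hv z _ e => cenJ _ (hfH v)
        (h.ne_one (by rcases hv with rfl | rfl <;> decide +kernel))
        (by rw [← map_mul, ← map_one f]; rcases hv with rfl | rfl <;> rfl) z e
    have k3 : Commute (f k * g * c * (f k * g)⁻¹) (f (k * y * k⁻¹)) := by
      have : Commute c x := e
      rw [map_mul, map_mul, map_inv, hy,
        show f k * (g * x * g⁻¹) * (f k)⁻¹ = f k * g * x * (f k * g)⁻¹ by group]
      exact this.map (MulAut.conj (f k * g))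
    have k4 : f k * g * c * (f k * g)⁻¹ ∈ H := by
      rcases hk with e | e | e
      · exact k2 15 (Or.inl rfl) (mem_centralizer_singleton_iff.mpr (e ▸ k3))
      · exact k2 33 (Or.inr rfl) (mem_centralizer_singleton_iff.mpr (e ▸ k3))
      · exact k2 33 (Or.inr rfl) (mem_centralizer_singleton_iff.mpr
          (by rw [← e, map_pow]; exact k3.pow_right 3))
    have k5 := mul_mem (hfH k) hg
    rwa [H.mul_mem_cancel_right (inv_mem k5), H.mul_mem_cancel_left k5] at k4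
  by_contra hne
  obtain ⟨g0, hg0⟩ : ∃ g, g ∉ H := by simpa [eq_top_iff'] using hne
  have t1 := h.ne_one (y := 6) (by decide +kernel)
  obtain ⟨s, hs, s2⟩ : ∃ s, s ∉ H ∧ s * s = 1 :=
    ⟨g0 * f 6 * g0⁻¹, fun e => hg0 (st _ (hfH 6) t1 t_sq g0 e), by rw [conj_mul, t_sq]; group⟩
  have s3 : s⁻¹ = s := inv_eq_of_mul_eq_one_left s2
  let D : Subgroup G := H ⊓ H.comap (MulAut.conj s).toMonoidHom
  have hsD : s ∈ normalizer (D : Set G) := H8.mem_normalizer_of_forall fun x hx =>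
    ⟨hx.2, by
      have : s * (s * x * s⁻¹) * s⁻¹ = x := by
        calc _ = (s * s) * x * (s * s)⁻¹ := by group
          _ = x := by rw [s2]; group
      change s * (s * x * s⁻¹) * s⁻¹ ∈ H
      rw [this]; exact hx.1⟩
  have hfpf : ∀ x ∈ D, s * x = x * s → x = 1 := fun x hx e => by
    by_contra a
    obtain ⟨g, hg⟩ := isConj_iff.mp (h.isConj_of_sq (fun e : s = 1 => hs (e ▸ one_mem H)) s2)
    obtain ⟨y, hy⟩ := (h.cen (g⁻¹ * x * g)).mp (by
      calc _ = g⁻¹ * (x * (g * f 6 * g⁻¹)) * g := by group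
        _ = _ := by rw [hg, ← e, ← hg]; group)
    have key : ∀ y : K120, y ≠ 1 → ∃ k : Fin 6, y ^ k.val ≠ 1 ∧
        ((y ^ k.val) ^ 2 = 1 ∨ (y ^ k.val) ^ 3 = 1 ∨ (y ^ k.val) ^ 5 = 1) := by decide +kernel
    obtain ⟨k, k1, k2⟩ := key y (by
      rintro rfl
      exact a ((conj_eq_one_iff (a := g⁻¹)).mp (by simpa using hy.symm)))
    have e1 : ∀ n, (y ^ k.val) ^ n = 1 ↔ (x ^ k.val) ^ n = 1 := fun n => by
      rw [← map_eq_one_iff f h.inj, map_pow, map_pow, hy, ← MulAut.conj_inv_apply, ← map_pow,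
        ← map_pow, map_eq_one_iff _ (MulEquiv.injective _)]
    have e2 : x ^ k.val ≠ 1 := fun e => k1 (by simpa using (e1 1).mpr (by simpa using e))
    have e3 : s * x ^ k.val = x ^ k.val * s := Commute.pow_right e k
    simp only [e1] at k2
    rcases k2 with k2 | k2
    · exact hs (cenJ _ (pow_mem hx.1 k) e2 (by rwa [sq] at k2) s e3)
    · exact hs (cenP _ (pow_mem hx.1 k) e2 k2 s e3)
  have hab := L0.comm_of_inverts (L0.inverts_of_fpf hsD (fun u _ => by rw [s2]; simp) hfpf)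
  have htr : ∀ j ∈ H, j ≠ 1 → j * j = 1 → ∃ d ∈ D, d⁻¹ * f 6 * d = j := fun j hj a b => by
    have b2 : s * j * s⁻¹ * (s * j * s⁻¹) = 1 := by rw [conj_mul, b]; group
    have ho : Odd (orderOf (f 6 * (s * j * s⁻¹))) := by
      by_contra ho
      obtain ⟨z, z1, z2, z3, z4⟩ := KS12.exists_involution_commute t_sq b2 ho
      exact hs (st j hj a b s (cenJ z (hf ((h.cen z).mp z3.symm)) z1 z2 _ z4))
    obtain ⟨g, hg, e⟩ := L0.exists_conj_of_odd_orderOf_mul t_sq b2 ho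
    have w2 := L0.mul_self_of_inverts t_sq
      (L0.inverts_of_mem_zpowers (L0.inverts_mul_left t_sq b2) hg)
    have e1 : s⁻¹ * (g * f 6) * f 6 * (s⁻¹ * (g * f 6))⁻¹ = j := by
      calc _ = s⁻¹ * (g * f 6 * g⁻¹) * s := by group
        _ = j := by rw [e]; group
    have e2 := st _ (hfH 6) t1 t_sq _ (e1 ▸ hj)
    refine ⟨_, inv_mem (⟨e2, ?_⟩ : s⁻¹ * (g * f 6) ∈ D), by rw [inv_inv, e1]⟩
    change s * (s⁻¹ * (g * f 6)) * s⁻¹ ∈ H
    rw [← inv_mem_iff] at e2
    rwa [mul_inv_cancel_left, ← inv_eq_of_mul_eq_one_left w2, ← mul_inv_rev, ← s3]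
  obtain ⟨d, hd, e⟩ := htr _ (hfH 4) (h.ne_one (by decide +kernel))
    (by rw [← map_mul, ← map_one f]; rfl)
  obtain ⟨g, hg, e1⟩ := hfin d hd.1 e
  obtain ⟨c, hc, e2⟩ := htr (g⁻¹ * f 6 * g) (mul_mem (mul_mem (inv_mem hg) (hfH 6)) hg)
    (fun e => t1 ((conj_eq_one_iff (a := g⁻¹)).mp (by simpa using e))) (by
      calc _ = g⁻¹ * (f 6 * f 6) * g := by group
        _ = 1 := by rw [t_sq]; group)
  refine e1 ?_
  have e3 : d⁻¹ * (c⁻¹ * f 6 * c) * d = c⁻¹ * f 4 * c := by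
    calc _ = (c * d)⁻¹ * f 6 * (c * d) := by group
      _ = _ := by rw [hab c hc d hd, ← e]; group
  rw [← e2, e3]
  exact (show Commute (f 6) (f 4) from ((h.cen _).mpr ⟨_, rfl⟩).symm).map (MulAut.conj c)⁻¹

end Cfsg.H4.JC
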