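import Cfsg.Agent.H4.GL23Val

/-!
# Character values on elements of order six and ten, and two columns of norm three
-/

set_option autoImplicit false

open Finset

namespace Cfsg

open Cfsg.H4

variable {G : Type*} [Group G]

theorem IsCharacter.exists_col_six [Finite G] {χ : G → ℂ} (h : IsCharacter G χ) {w : G}
    (h6 : w ^ 6 = 1) (h5 : IsConj w (w ^ 5)) : ∃ n : ℤ, χ w + χ (w ^ 2) = 2 * n := by
  obtain ⟨s, hs⟩ := IsAlgClosed.exists_pow_nat_eq (-3 : ℂ) two_pos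
  set ω := (-1 + s) / 2 with hω
  have h1 : ω ^ 2 + ω + 1 = 0 := by rw [hω]; linear_combination hs / 4
  obtain ⟨g, hg⟩ := isConj_iff.mp h5
  have e4 : χ (w ^ 4) = χ (w ^ 2) := by
    rw [← h.isClassFunction (w ^ 2) g, ← conj_pow, hg, ← pow_mul, show 5 * 2 = 6 + 4 from rfl,
      pow_add, h6, one_mul]
  obtain ⟨m, f⟩ := h.exists_fourier h6 (ζ := ω) (by
    linear_combination (ω ^ 4 - ω ^ 3 + ω - 1) * h1)
  obtain ⟨n, f'⟩ := h.exists_fourier h6 (ζ := 1) (one_pow _)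
  simp only [sum_range_succ, sum_range_zero, pow_zero, pow_one, one_pow, e4,
    ← h.isClassFunction.eq_of_isConj h5, Nat.cast_ofNat] at f f'
  refine ⟨n - m, ?_⟩
  push_cast
  linear_combination (f' - f) / 3 + (χ w * (ω ^ 3 - ω ^ 2 + 1) + χ (w ^ 3) * (ω - 1) +
    χ (w ^ 2) * (ω ^ 2 - ω + 1)) / 3 * h1

theorem IsCharacter.exists_col_ten [Finite G] {χ : G → ℂ} (h : IsCharacter G χ) {c : G}
    (h10 : c ^ 10 = 1) (h9 : IsConj c (c ^ 9)) {ζ : ℂ} (hζ : ζ ^ 4 + ζ ^ 3 + ζ ^ 2 + ζ + 1 = 0) :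
    ∃ n : ℤ, (2 - (ζ + ζ ^ 4)) * (χ c + χ (c ^ 4)) + (3 + (ζ + ζ ^ 4)) * (χ (c ^ 2) + χ (c ^ 3)) =
      10 * n := by
  obtain ⟨g, hg⟩ := isConj_iff.mp h9
  have hc : ∀ k j l, 9 * k = 10 * l + j → χ (c ^ j) = χ (c ^ k) := fun k j l e => by
    rw [← h.isClassFunction (c ^ k) g, ← conj_pow, hg, ← pow_mul, e, pow_add, pow_mul, h10,
      one_pow, one_mul]
  have h5 : ζ ^ 5 = 1 := by linear_combination (ζ - 1) * hζ
  obtain ⟨m, f⟩ := h.exists_fourier h10 (ζ := ζ) (by rw [show 10 = 5 * 2 from rfl, pow_mul, h5]; simp)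
  obtain ⟨n, f'⟩ := h.exists_fourier h10 (ζ := 1) (one_pow _)
  have p : ∀ k, ζ ^ (k + 5) = ζ ^ k := fun k => by rw [pow_add, h5, mul_one]
  simp only [sum_range_succ, sum_range_zero, pow_zero, pow_one, one_pow, hc 1 9 0 rfl,
    hc 2 8 1 rfl, hc 3 7 2 rfl, hc 4 6 3 rfl, Nat.cast_ofNat, h5, p 1, p 2, p 3, p 4] at f f'
  refine ⟨n - m, ?_⟩
  push_cast
  linear_combination f' - f + (χ (c ^ 2) + χ (c ^ 3)) * hζ

namespace H4

/-- The arithmetic of two orthogonal columns of norm three. -/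
theorem j1_arith {ι : Type*} [Fintype ι] {d τ a b : ι → ℤ} {o : ι} {m : ℤ} (hm : Odd m)
    (hd : ∀ i, 0 < d i) (hτ : ∀ i, τ i ^ 2 ≤ d i ^ 2) (o1 : d o = 1) (o2 : τ o = 1) (o3 : a o = 1)
    (o4 : b o = 1) (haa : ∑ i, a i ^ 2 = 3) (hbb : ∑ i, b i ^ 2 = 3) (hab : ∑ i, a i * b i = 0)
    (had : ∑ i, a i * d i = 0) (haτ : ∑ i, a i * τ i = 0) (hbd : ∑ i, b i * d i = 0)
    (hbτ : ∑ i, b i * τ i = 0) (ha : (m : ℚ) * ∑ i, a i * ((τ i : ℚ) ^ 2 / d i) = 1200)
    (hb : (m : ℚ) * ∑ i, b i * ((τ i : ℚ) ^ 2 / d i) = 720) : False := by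
  classical
  have split : ∀ {R : Type} [CommRing R] (c : ι → ℤ) (F : ι → R), c o = 1 →
      ∑ i, (c i : R) * F i = F o + ∑ i, ((if i = o then 0 else c i : ℤ) : R) * F i := by
    intro R _ c F hc
    rw [← sub_eq_iff_eq_add, ← sum_sub_distrib, sum_eq_single o (fun i _ hi => by simp [hi])
      (by simp)]
    simp [hc]
  have split2 : ∀ c c' : ι → ℤ, c o = 1 → c' o = 1 → ∑ i, c i * c' i =
      1 + ∑ i, (if i = o then 0 else c i) * (if i = o then 0 else c' i) := fun c c' h h' => by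
    have := split (R := ℤ) c c' h
    simp only [Int.cast_id, h'] at this
    rw [this]
    congr 1
    exact sum_congr rfl fun i _ => by split_ifs <;> simp
  simp only [sq] at haa hbb
  rw [split2 _ _ o3 o3] at haa
  rw [split2 _ _ o4 o4] at hbb
  rw [split2 _ _ o3 o4] at hab
  obtain ⟨C, A, E, hCA, hCE, hAE, h1, h2, h3, h4, h5, h6⟩ := exists_three_points
    (fun i => if i = o then 0 else a i) (fun i => if i = o then 0 else b i)
    (by simp only [sq]; omega) (by simp only [sq]; omega)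
    (by rw [show ∑ i, _ = (-1 : ℤ) by omega]; norm_num)
  have e1 := split (R := ℤ) a d o3
  have e2 := split (R := ℤ) a τ o3
  have e3 := split (R := ℤ) b d o4
  have e4 := split (R := ℤ) b τ o4
  rw [split _ _ o3, sum_mul_two hCA h5] at ha
  rw [split _ _ o4, sum_mul_two hCE h6] at hb
  rw [sum_mul_two hCA h5] at e1 e2
  rw [sum_mul_two hCE h6] at e3 e4
  have e5 := sum_mul_two (R := ℤ) hCA h5 fun i => if i = o then 0 else b i
  simp only [Int.cast_id] at e1 e2 e3 e4 e5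
  rw [had] at e1
  rw [haτ] at e2
  rw [hbd] at e3
  rw [hbτ] at e4
  rw [e5] at hab
  rw [h6 A hCA.symm hAE] at hab
  have tA := hτ A
  rw [o1] at e1 e3 ha hb
  rw [o2] at e2 e4 ha hb
  have term : ∀ (i : ι) (ε : ℤ), ε ^ 2 = 1 → ((ε * d i : ℤ) : ℚ) ≠ 0 ∧
      (ε : ℚ) * ((τ i : ℚ) ^ 2 / d i) = ((ε * τ i : ℤ) : ℚ) ^ 2 / ((ε * d i : ℤ) : ℚ) := by
    intro i ε h
    have := (hd i).ne'
    rcases sq_eq_one_iff.mp h with rfl | rfl <;> simp [this, div_neg]
  generalize (if C = o then 0 else a C) = ac at *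
  generalize (if A = o then 0 else a A) = aa at *
  generalize (if C = o then 0 else b C) = bc at *
  generalize (if E = o then 0 else b E) = be at *
  obtain rfl : bc = -ac := by linear_combination ac * hab - bc * h1
  obtain ⟨n1, t1⟩ := term C ac h1
  obtain ⟨n2, t2⟩ := term A aa h2
  obtain ⟨n3, t3⟩ := term E be h4
  rw [Int.cast_neg, neg_mul] at hb
  rw [t1, t2] at ha
  rw [t1, t3] at hb
  have tA' : (aa * τ A) ^ 2 ≤ (aa * d A) ^ 2 := by rwa [mul_pow, mul_pow, h2, one_mul, one_mul]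
  rw [neg_mul] at e3 e4
  generalize ac * d C = p at *
  generalize ac * τ C = s at *
  rw [show aa * d A = -(p + 1) by omega] at n2 ha tA'
  rw [show aa * τ A = -(s + 1) by omega] at ha tA'
  rw [show be * d E = p - 1 by omega] at n3 hb
  rw [show be * τ E = s - 1 by omega] at hb
  push_cast at n2 n3 ha hb
  have n4 : (p : ℚ) + 1 ≠ 0 := fun e => n2 (by rw [e, neg_zero])
  have f1 : (m : ℚ) * (p - s) ^ 2 = 1200 * (p * (p + 1)) := by
    rw [← ha]; field_simp; ring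
  have f2 : (m : ℚ) * (p - s) ^ 2 = 720 * (p * (p - 1)) := by
    rw [← hb]; field_simp; ring
  have f3 : (p : ℚ) = -4 := mul_left_cancel₀ n1 (by linear_combination (f2 - f1) / 480)
  obtain rfl : p = -4 := by exact_mod_cast f3
  have f4 : m * (-4 - s) ^ 2 = 14400 := by
    have : (m : ℚ) * (-4 - s) ^ 2 = 14400 := by push_cast at f1; linear_combination f1
    exact_mod_cast this
  obtain ⟨k, rfl⟩ := hm
  have b1 : -4 ≤ s := by nlinarith
  have b2 : s ≤ 2 := by nlinarith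
  interval_cases s <;> omega

end H4

end Cfsg
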