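import Cfsg.Agent.H4.J1K
import Cfsg.Agent.H4.J1Val

/-!
# Groups with an involution centralizer `2 × A₅`: the character argument
-/

set_option autoImplicit false
set_option maxRecDepth 100000

open scoped ComplexConjugate
open Subgroup Finset

namespace Cfsg.H4

universe u

variable {G : Type u} [Group G]

/-- The centralizer of the involution `f 6` is the image of the embedding `f`, of odd index. -/
structure JC (f : K120 →* G) : Prop where
  inj : Function.Injective f
  cen : ∀ x, x * f 6 = f 6 * x ↔ x ∈ f.range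
  odd : Odd f.range.index
  two : ∀ N : Subgroup G, N.index ≠ 2

theorem exists_jc [Finite G] (hG : ∀ N : Subgroup G, N.index ≠ 2) (h8 : ¬ 16 ∣ Nat.card G) {t : G}
    (ht : orderOf t = 2)
    (e' : centralizer ({t} : Set G) ≃* Multiplicative (ZMod 2) × alternatingGroup (Fin 5)) :
    ∃ f : K120 →* G, JC f := by
  let e := e'.trans K120.equivA.symm
  set D := centralizer ({t} : Set G) with hD
  let f : K120 →* G := D.subtype.comp e.symm.toMonoidHom
  have hf : Function.Injective f := D.subtype_injective.comp e.symm.injective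
  have hDf : ∀ x ∈ D, ∃ y, f y = x := fun x hx => ⟨e ⟨x, hx⟩, by simp [f]⟩
  obtain ⟨x, hx⟩ := hDf t (mem_centralizer_singleton_iff.mpr rfl)
  have key : ∀ x : K120, x ≠ 1 → 2 * x = x * 2 → 5 * x = x * 5 → x = 6 := by decide +kernel
  have h0 : ∀ y, y * x = x * y := fun y => hf (by
    rw [map_mul, map_mul, hx]; exact mem_centralizer_singleton_iff.mp (e.symm y).2)
  have h1 := key x (by rintro rfl; rw [map_one] at hx; simp [← hx] at ht) (h0 2) (h0 5)
  subst h1
  refine ⟨f, hf, fun y => ?_, ?_, hG⟩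
  · rw [hx, ← mem_centralizer_singleton_iff]
    exact ⟨hDf y, by rintro ⟨w, rfl⟩; exact (e.symm w).2⟩
  · have h2 := f.range.index_mul_card
    rw [← Nat.card_congr (MonoidHom.ofInjective hf).toEquiv, K120.card_eq] at h2
    rw [Nat.odd_iff]
    omega

namespace JC

variable {f : K120 →* G} (h : JC f)
include h

theorem swap : JC (f.comp K120.phi.toMonoidHom) := by
  have h1 : (f.comp K120.phi.toMonoidHom).range = f.range := by
    rw [MonoidHom.range_comp, MonoidHom.range_eq_top.mpr K120.phi.surjective,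
      ← MonoidHom.range_eq_map]
  refine ⟨h.inj.comp K120.phi.injective, fun x => ?_, h1 ▸ h.odd, h.two⟩
  rw [show (f.comp K120.phi.toMonoidHom) 6 = f 6 from congrArg f (by decide +kernel), h.cen, h1]

theorem cen_eq : centralizer {f 6} = f.range := by
  ext x
  rw [mem_centralizer_singleton_iff, h.cen]

theorem card_range : Nat.card f.range = 120 := by
  rw [← Nat.card_congr (MonoidHom.ofInjective h.inj).toEquiv, K120.card_eq]

theorem ne_one {y : K120} (hy : y ≠ 1) : f y ≠ 1 := fun e => hy (h.inj (e.trans (map_one f).symm))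

omit h in
theorem t_sq : f 6 * f 6 = 1 := by rw [← map_mul, ← map_one f]; congr 1

theorem card_eq : Nat.card G = f.range.index * 120 := by rw [← h.card_range, index_mul_card]

theorem card_class [Finite G] : Nat.card {x : G // IsConj (f 6) x} = f.range.index := by
  have := card_isConj_mul_card_centralizer (f 6)
  rw [h.cen_eq, h.card_range, h.card_eq] at this
  omega

omit h in
/-- The four-group in `A₅`. -/
def _root_.Cfsg.H4.K120.four : Subgroup K120 where
  carrier := {x | x = 1 ∨ x = 4 ∨ x = 25 ∨ x = 20}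
  one_mem' := Or.inl rfl
  mul_mem' {x y} := by
    rintro (rfl | rfl | rfl | rfl) (rfl | rfl | rfl | rfl) <;>
      simp only [Set.mem_ofPred_eq] <;> decide +kernel
  inv_mem' {x} := by
    rintro (rfl | rfl | rfl | rfl) <;> simp only [Set.mem_ofPred_eq] <;> decide +kernel

theorem isConj_four [Finite G] {x : G} (h1 : x ≠ 1) (h2 : x * x = 1) : IsConj (f 4) x := by
  have ha : Nat.card (K120.four.map f) = 4 := by
    rw [card_map_of_injective h.inj]
    change Nat.card {x : K120 // x = 1 ∨ x = 4 ∨ x = 25 ∨ x = 20} = 4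
    rw [Nat.card_eq_fintype_card, Fintype.card_subtype]
    decide +kernel
  have h3 := (K120.four.map f).index_mul_card
  rw [ha, h.card_eq] at h3
  obtain ⟨g, y, hy, hg⟩ := exists_conj_mem_of_index h.two (M := K120.four.map f)
    (Odd.mul (by decide : Odd 15) h.odd) (by omega) ((pow_two x).trans h2)
  have key : ∀ y : K120, (y = 1 ∨ y = 4 ∨ y = 25 ∨ y = 20) → y = 1 ∨ ∃ z, z * 4 * z⁻¹ = y := by
    decide +kernel
  rcases key y hy with rfl | ⟨z, rfl⟩
  · rw [map_one] at hg
    exact absurd ((conj_eq_one_iff (a := g⁻¹)).mp (by simpa using hg.symm)) h1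
  · exact isConj_iff.mpr ⟨g * f z, by
      rw [map_mul, map_mul, map_inv] at hg
      calc _ = g * (f z * f 4 * (f z)⁻¹) * g⁻¹ := by group
        _ = x := by rw [hg]; group⟩

theorem isConj_of_sq [Finite G] {x : G} (h1 : x ≠ 1) (h2 : x * x = 1) : IsConj (f 6) x :=
  (h.isConj_four (h.ne_one (by decide +kernel)) t_sq).symm.trans (h.isConj_four h1 h2)

theorem sq_of_isConj {x : G} (hx : IsConj (f 6) x) : x ≠ 1 ∧ x * x = 1 := by
  obtain ⟨g, rfl⟩ := isConj_iff.mp hx
  exact ⟨fun e => h.ne_one (by decide +kernel) (conj_eq_one_iff.mp e),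
    by rw [conj_mul, t_sq]; group⟩

omit h in
/-- Only elements of the image conjugate `f y` into the image. -/
def TI (f : K120 →* G) (y : K120) : Prop := ∀ g z, g * f y * g⁻¹ = f z → g ∈ f.range

theorem ti {p : K120} (hp : ∀ g, g * f p = f p * g → g ∈ f.range)
    (h1 : ∀ w, w * p = p * w → w * w = 1 → w = 1 ∨ w = 6) {y : K120} {k : ℕ} (hy : y ^ k = p) :
    TI f y := by
  intro g z e
  have h2 : g * f p * g⁻¹ = f (z ^ k) := by rw [← hy, map_pow, ← conj_pow, e, map_pow]
  have h3 : g⁻¹ * f 6 * g * f p = f p * (g⁻¹ * f 6 * g) := by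
    have := (h.cen _).mpr ⟨z ^ k, rfl⟩
    rw [← h2] at this
    calc _ = g⁻¹ * (f 6 * (g * f p * g⁻¹)) * g := by group
      _ = _ := by rw [← this]; group
  obtain ⟨w, hw⟩ := hp _ h3
  obtain ⟨a1, a2⟩ := h.sq_of_isConj (x := f w) (isConj_iff.mpr ⟨g⁻¹, by rw [inv_inv, hw]⟩)
  rcases h1 w (h.inj (by rw [map_mul, map_mul, hw, h3])) (h.inj (by simpa using a2)) with rfl | rfl
  · exact absurd (map_one f) a1
  · refine (h.cen g).mp ?_
    calc _ = g * (g⁻¹ * f 6 * g) := by rw [← hw]
      _ = _ := by group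

theorem card_cen {y : K120} (hy : TI f y) :
    Nat.card (centralizer {f y}) = (univ.filter fun x : K120 => x * y = y * x).card := by
  rw [← Fintype.card_subtype, ← Nat.card_eq_fintype_card]
  refine (Nat.card_eq_of_bijective (fun x : {x : K120 // x * y = y * x} =>
    (⟨f x.1, mem_centralizer_singleton_iff.mpr (by rw [← map_mul, x.2, map_mul])⟩ :
      centralizer {f y})) ⟨fun x y e => Subtype.ext (h.inj (Subtype.ext_iff.mp e)),
      fun ⟨g, hg⟩ => ?_⟩).symm
  rw [mem_centralizer_singleton_iff] at hg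
  obtain ⟨x, rfl⟩ := hy g y (mul_inv_eq_iff_eq_mul.mpr hg)
  exact ⟨⟨x, h.inj (by simpa using hg)⟩, rfl⟩

theorem card_pairs [Finite G] {y : K120} (hy : TI f y) :
    Nat.card {p : G × G // IsConj (f 6) p.1 ∧ IsConj (f 6) p.2 ∧ p.1 * p.2 = f y} =
      (univ.filter fun x : K120 => x ≠ 1 ∧ x * x = 1 ∧ x * y ≠ 1 ∧ x * y * (x * y) = 1).card := by
  rw [← Fintype.card_subtype, ← Nat.card_eq_fintype_card]
  have h1 : ∀ x : K120, x ≠ 1 → x * x = 1 → IsConj (f 6) (f x) := fun x a b =>
    h.isConj_of_sq (h.ne_one a) (by rw [← map_mul, b, map_one])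
  refine (Nat.card_eq_of_bijective (fun x => ⟨(f x.1, f (x.1 * y)), h1 _ x.2.1 x.2.2.1,
    h1 _ x.2.2.2.1 x.2.2.2.2, by rw [← map_mul, ← mul_assoc, x.2.2.1, one_mul]⟩)
    ⟨fun x y e => Subtype.ext (h.inj (congrArg (fun p => p.1.1) e)), ?_⟩).symm
  rintro ⟨⟨a, b⟩, ha, hb, e⟩
  obtain ⟨a1, a2⟩ := h.sq_of_isConj ha
  obtain ⟨b1, b2⟩ := h.sq_of_isConj hb
  dsimp only at a1 a2 b1 b2 e
  have e1 : b = a * f y := by rw [← e, ← mul_assoc, a2, one_mul]
  obtain ⟨x, rfl⟩ := hy a y⁻¹ (by
      rw [map_inv, ← e1, ← e, mul_inv_rev, inv_eq_of_mul_eq_one_left b2])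
  rw [← map_mul] at e1
  subst e1
  exact ⟨⟨x, fun e => a1 (by rw [e, map_one]), h.inj (by simpa using a2),
    fun e => b1 (by rw [e, map_one]), h.inj (by simpa using b2)⟩, rfl⟩

theorem orth [Finite G] {y : K120} (hy : TI f y) (y' : K120) {n : ℕ}
    (hn : (univ.filter fun x : K120 => x * y = y'⁻¹ * x).card = n) :
    ∑ χ : IrrCharacter G, χ.1 (f y) * χ.1 (f y') = n := by
  classical
  have h1 := sum_irr_mul_conj (f y) (f y'⁻¹)
  simp only [fun χ : IrrCharacter G => χ.2.isCharacter.conj_apply, ← map_inv, inv_inv] at h1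
  rw [h1, ← hn]
  split_ifs with h2
  · obtain ⟨g, hg⟩ := isConj_iff.mp h2
    obtain ⟨x, rfl⟩ := hy g _ hg
    have h3 : x * y * x⁻¹ = y'⁻¹ := h.inj (by simpa using hg)
    rw [h.card_cen hy, Nat.cast_inj]
    refine card_equiv (Equiv.mulLeft x) fun z => ?_
    simp only [mem_filter, mem_univ, true_and, Equiv.coe_mulLeft, ← h3, mul_assoc,
      inv_mul_cancel_left, mul_right_inj]
  · rw [eq_comm, Nat.cast_eq_zero, card_eq_zero, filter_eq_empty_iff]
    exact fun x _ e => h2 (f.map_isConj (isConj_iff.mpr ⟨x, mul_inv_eq_iff_eq_mul.mpr e⟩))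

theorem pair_sum [Finite G] {y : K120} (hy : TI f y⁻¹) {n : ℕ} (hn : (univ.filter fun x : K120 =>
      x ≠ 1 ∧ x * x = 1 ∧ x * y⁻¹ ≠ 1 ∧ x * y⁻¹ * (x * y⁻¹) = 1).card = n) : (f.range.index : ℂ) *
      ∑ χ : IrrCharacter G, χ.1 (f y) * (χ.1 (f 6) ^ 2 / χ.1 1) = 120 * n := by
  have h1 := class_mul_coeff (f 6) (f 6) (f y⁻¹)
  rw [h.card_pairs hy, h.card_class, h.card_eq, hn] at h1
  simp only [fun χ : IrrCharacter G => χ.2.isCharacter.conj_apply, ← map_inv, inv_inv] at h1
  have hm : (f.range.index : ℂ) ≠ 0 := Nat.cast_ne_zero.mpr f.range.index_ne_zero_of_finite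
  rw [h1, sum_congr rfl (g := fun χ : IrrCharacter G => χ.1 (f 6) * χ.1 (f 6) * χ.1 (f y) / χ.1 1)
    fun _ _ => by ring]
  push_cast
  field_simp

/-- The centralizers of the elements of order three and five are not both inside the image. -/
theorem not_small [Finite G] (h3 : ∀ g, g * f 15 = f 15 * g → g ∈ f.range)
    (h5 : ∀ g, g * f 33 = f 33 * g → g ∈ f.range) : False := by
  obtain ⟨ζ, hζ⟩ : ∃ ζ : ℂ, ζ ^ 4 + ζ ^ 3 + ζ ^ 2 + ζ + 1 = 0 := by
    have h1 := (Complex.isPrimitiveRoot_exp 5 (by norm_num)).geom_sum_eq_zero (by norm_num)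
    simp only [sum_range_succ, sum_range_zero] at h1
    exact ⟨_, by linear_combination h1⟩
  have hp : ∀ (y z : K120) (k : ℕ), y ^ k = z → f y ^ k = f z := fun y z k e => by rw [← e, map_pow]
  have hc : ∀ x y z : K120, x * y = z * x → IsConj (f y) (f z) := fun x y z e =>
    f.map_isConj (isConj_iff.mpr ⟨x, mul_inv_eq_iff_eq_mul.mpr e⟩)
  have v6 := fun χ : IrrCharacter G => χ.2.isCharacter.exists_col_six (w := f 36)
    (by rw [hp 36 1 6 (by decide +kernel), map_one])
    (by rw [hp 36 39 5 (by decide +kernel)]; exact hc 4 _ _ (by decide +kernel))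
  have v10 := fun χ : IrrCharacter G => χ.2.isCharacter.exists_col_ten (c := f 61)
    (by rw [hp 61 1 10 (by decide +kernel), map_one])
    (by rw [hp 61 57 9 (by decide +kernel)]; exact hc 4 _ _ (by decide +kernel)) hζ
  have v2 : ∀ χ : IrrCharacter G, ∃ τ : ℤ, χ.1 (f 6) = τ := fun χ => by
    obtain ⟨m, hm⟩ := χ.2.isCharacter.exists_fourier ((pow_two _).trans (t_sq (f := f))) (one_pow 2)
    obtain ⟨n, -, hn⟩ := χ.2.exists_apply_one
    simp only [sum_range_succ, sum_range_zero, pow_zero, pow_one, hn, Nat.cast_ofNat] at hm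
    exact ⟨2 * m - n, by push_cast; linear_combination hm⟩
  rw [hp 36 17 2 (by decide +kernel)] at v6
  rw [hp 61 29 4 (by decide +kernel), hp 61 93 2 (by decide +kernel),
    hp 61 118 3 (by decide +kernel)] at v10
  choose b eb using v6
  choose a ea using v10
  choose τ eτ using v2
  choose d hd ed using fun χ : IrrCharacter G => χ.2.exists_apply_one
  set η := ζ + ζ ^ 4 with hη
  have hη2 : η ^ 2 + η - 1 = 0 := by
    rw [hη]; linear_combination (ζ ^ 4 - ζ ^ 3 + 2 * ζ - 1) * hζ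
  have T3 : ∀ (y : K120) (k : ℕ), y ^ k = 15 → TI f y := fun y k => h.ti h3 (by decide +kernel)
  have T5 : ∀ (y : K120) (k : ℕ), y ^ k = 33 → TI f y := fun y k => h.ti h5 (by decide +kernel)
  have t1 := T3 36 4 (by decide +kernel)
  have t2 := T3 17 2 (by decide +kernel)
  have t3 := T5 61 6 (by decide +kernel)
  have t4 := T5 29 4 (by decide +kernel)
  have t5 := T5 93 3 (by decide +kernel)
  have t6 := T5 118 2 (by decide +kernel)
  have colb : ∀ F : IrrCharacter G → ℂ, 2 * ∑ χ, b χ * F χ =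
      ∑ χ, χ.1 (f 36) * F χ + ∑ χ, χ.1 (f 17) * F χ := fun F => by
    simp only [mul_sum, ← sum_add_distrib]
    exact sum_congr rfl fun χ _ => by linear_combination -F χ * eb χ
  have cola : ∀ F : IrrCharacter G → ℂ, 10 * ∑ χ, a χ * F χ =
      (2 - η) * (∑ χ, χ.1 (f 61) * F χ + ∑ χ, χ.1 (f 29) * F χ) +
      (3 + η) * (∑ χ, χ.1 (f 93) * F χ + ∑ χ, χ.1 (f 118) * F χ) := fun F => by
    simp only [mul_sum, ← sum_add_distrib]
    exact sum_congr rfl fun χ _ => by linear_combination -F χ * ea χ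
  have ob : ∀ (y : K120) (i j : ℕ), (univ.filter fun x : K120 => x * 36 = y⁻¹ * x).card = i ∧
      (univ.filter fun x : K120 => x * 17 = y⁻¹ * x).card = j →
      2 * ∑ χ, b χ * χ.1 (f y) = (i : ℂ) + j := fun y i j e => by
    rw [colb, h.orth t1 y e.1, h.orth t2 y e.2]
  have oa : ∀ (y : K120) (i j k l : ℕ), (univ.filter fun x : K120 => x * 61 = y⁻¹ * x).card = i ∧
      (univ.filter fun x : K120 => x * 29 = y⁻¹ * x).card = j ∧
      (univ.filter fun x : K120 => x * 93 = y⁻¹ * x).card = k ∧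
      (univ.filter fun x : K120 => x * 118 = y⁻¹ * x).card = l →
      10 * ∑ χ, a χ * χ.1 (f y) = (2 - η) * (i + j) + (3 + η) * (k + l) := fun y i j k l e => by
    rw [cola, h.orth t3 y e.1, h.orth t4 y e.2.1, h.orth t5 y e.2.2.1, h.orth t6 y e.2.2.2]
  have b1 := ob 1 0 0 (by decide +kernel)
  have b2 := ob 6 0 0 (by decide +kernel)
  have b3 := ob 36 6 0 (by decide +kernel)
  have b4 := ob 17 0 6 (by decide +kernel)
  have a1 := oa 1 0 0 0 0 (by decide +kernel)
  have a2 := oa 6 0 0 0 0 (by decide +kernel)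
  have a3 := oa 36 0 0 0 0 (by decide +kernel)
  have a4 := oa 17 0 0 0 0 (by decide +kernel)
  have a5 := oa 61 10 0 0 0 (by decide +kernel)
  have a6 := oa 29 0 10 0 0 (by decide +kernel)
  have a7 := oa 93 0 0 10 0 (by decide +kernel)
  have a8 := oa 118 0 0 0 10 (by decide +kernel)
  have bb := colb fun χ => b χ
  have ba := colb fun χ => a χ
  have aa := cola fun χ => a χ
  have pb := colb fun χ => χ.1 (f 6) ^ 2 / χ.1 1
  have pa := cola fun χ => χ.1 (f 6) ^ 2 / χ.1 1
  have s1 := h.pair_sum (T3 36⁻¹ 2 (by decide +kernel)) (n := 6) (by decide +kernel)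
  have s2 := h.pair_sum (T3 17⁻¹ 1 (by decide +kernel)) (n := 6) (by decide +kernel)
  have s3 := h.pair_sum (T5 61⁻¹ 4 (by decide +kernel)) (n := 10) (by decide +kernel)
  have s4 := h.pair_sum (T5 29⁻¹ 1 (by decide +kernel)) (n := 10) (by decide +kernel)
  have s5 := h.pair_sum (T5 93⁻¹ 2 (by decide +kernel)) (n := 10) (by decide +kernel)
  have s6 := h.pair_sum (T5 118⁻¹ 8 (by decide +kernel)) (n := 10) (by decide +kernel)
  simp only [fun (χ : IrrCharacter G) (x : G) (n : ℤ) => mul_comm (χ.1 x) (n : ℂ)] at bb ba aa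
  simp only [Nat.cast_ofNat, Nat.cast_zero, map_one] at b1 b2 b3 b4 a1 a2 a3 a4 a5 a6 a7 a8
  simp only [Nat.cast_ofNat] at s1 s2 s3 s4 s5 s6
  have g1 : ∑ χ, (b χ : ℂ) ^ 2 = 3 := by
    simp only [sq]; linear_combination bb / 2 + (b3 + b4) / 4
  have g2 : ∑ χ, (a χ * b χ : ℂ) = 0 := by
    simp only [mul_comm (a _ : ℂ)]; linear_combination ba / 2 + (a3 + a4) / 20
  have g3 : ∑ χ, (a χ : ℂ) ^ 2 = 3 := by
    simp only [sq]
    linear_combination aa / 10 + (2 - η) * (a5 + a6) / 100 + (3 + η) * (a7 + a8) / 100 + 2 / 5 * hη2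
  have g4 : (f.range.index : ℂ) * ∑ χ, b χ * (χ.1 (f 6) ^ 2 / χ.1 1) = 720 := by
    linear_combination (f.range.index : ℂ) * pb / 2 + (s1 + s2) / 2
  have g5 : (f.range.index : ℂ) * ∑ χ, a χ * (χ.1 (f 6) ^ 2 / χ.1 1) = 1200 := by
    linear_combination (f.range.index : ℂ) * pa / 10 + (2 - η) * (s3 + s4) / 10 +
      (3 + η) * (s5 + s6) / 10
  simp only [eτ, ed] at g4 g5 a1 a2 b1 b2
  let o : IrrCharacter G := ⟨_, isIrrCharacter_one⟩
  refine j1_arith (d := fun χ => d χ) (τ := τ) (a := a) (b := b) (o := o) (m := f.range.index)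
    (by exact_mod_cast h.odd) (fun χ => by exact_mod_cast hd χ) (fun χ => ?_)
    (by exact_mod_cast (show (1 : ℂ) = _ from ed o).symm)
    (by exact_mod_cast (show (1 : ℂ) = _ from eτ o).symm) ?_ ?_ (by exact_mod_cast g3)
    (by exact_mod_cast g1) (by exact_mod_cast g2) ?_ ?_ ?_ ?_ (by exact_mod_cast g5)
    (by exact_mod_cast g4)
  · have := χ.2.isCharacter.norm_le (f 6)
    rw [eτ, ed, Complex.norm_intCast, Complex.norm_natCast] at this
    rw [sq_le_sq, Nat.abs_cast]
    exact_mod_cast this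
  · have : (a o : ℂ) = 1 := by
      linear_combination (exp := 1) -(ea o : (2 - η) * (1 + 1) + (3 + η) * (1 + 1) = _) / 10
    exact_mod_cast this
  · have : (b o : ℂ) = 1 := by linear_combination (exp := 1) -(eb o : (1 : ℂ) + 1 = _) / 2
    exact_mod_cast this
  · have : ∑ χ, (a χ * d χ : ℂ) = 0 := by linear_combination a1 / 10
    exact_mod_cast this
  · have : ∑ χ, (a χ * τ χ : ℂ) = 0 := by linear_combination a2 / 10
    exact_mod_cast this
  · have : ∑ χ, (b χ * d χ : ℂ) = 0 := by linear_combination b1 / 2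
    exact_mod_cast this
  · have : ∑ χ, (b χ * τ χ : ℂ) = 0 := by linear_combination b2 / 2
    exact_mod_cast this

end JC

end Cfsg.H4
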