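import Cfsg.Agent.H4.J1Char
import Cfsg.Agent.H8.Frobenius
import Cfsg.Agent.H9.Generation

/-!
# Groups with an involution centralizer `2 × A₅`: the local structure
-/

set_option autoImplicit false
set_option maxRecDepth 100000

open Subgroup

namespace Cfsg.H4

open K120

universe u

variable {G : Type u} [Group G]

/-- The linear map of `𝔽₂³` with the given images of the basis. -/
def lin8 (a b c i : Fin 8) : Fin 8 :=
  ⟨((if i.val % 2 = 1 then a.val else 0) ^^^ (if i.val / 2 % 2 = 1 then b.val else 0) ^^^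
    (if i.val / 4 = 1 then c.val else 0)) % 8, Nat.mod_lt _ (by norm_num)⟩

/-- The action of a word. -/
def wA (π : Fin 8 → Fin 8) (w : List Bool) : Fin 8 → Fin 8 :=
  w.foldr (fun b q => q ∘ (if b then π else lin8 1 4 6)) id

/-- Conjugation by `g` acts on the Sylow 2-subgroup as `π`. -/
def Act (f : K120 →* G) (g : G) (π : Fin 8 → Fin 8) : Prop :=
  ∀ i, g⁻¹ * f (emb i) * g = f (emb (π i))

theorem Act.mul {f : K120 →* G} {g g' : G} {π π' : Fin 8 → Fin 8} (h : Act f g π)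
    (h' : Act f g' π') : Act f (g * g') (π' ∘ π) := fun i => by
  rw [Function.comp, ← h', ← h]; group

theorem Act.pow {f : K120 →* G} {g : G} {π : Fin 8 → Fin 8} (h : Act f g π) (n : ℕ) :
    Act f (g ^ n) π^[n] := by
  induction n with
  | zero => intro i; simp
  | succ n ih => rw [pow_succ', Function.iterate_succ]; exact h.mul ih

theorem Act.congr {f : K120 →* G} {g : G} {π π' : Fin 8 → Fin 8} (h : Act f g π)
    (e : ∀ i, π i = π' i) : Act f g π' := fun i => e i ▸ h i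

theorem act_map (f : K120 →* G) {y : K120} {π : Fin 8 → Fin 8}
    (h : ∀ i, y⁻¹ * emb i * y = emb (π i)) : Act f (f y) π := fun i => by
  rw [← h, map_mul, map_mul, map_inv]

theorem act_lin {f : K120 →* G} {g : G} {a b c : Fin 8} (h1 : g⁻¹ * f 6 * g = f (emb a))
    (h2 : g⁻¹ * f 4 * g = f (emb b)) (h3 : g⁻¹ * f 25 * g = f (emb c)) : Act f g (lin8 a b c) := by
  intro i
  have k1 : ∀ i, emb i = 6 ^ (i.val % 2) * 4 ^ (i.val / 2 % 2) * 25 ^ (i.val / 4) := by
    decide +kernel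
  have k2 : ∀ a b c i, emb (lin8 a b c i) =
      emb a ^ (i.val % 2) * emb b ^ (i.val / 2 % 2) * emb c ^ (i.val / 4) := by decide +kernel
  rw [k2, k1 i]
  simp only [map_mul, map_pow]
  rw [← h1, ← h2, ← h3]
  simp only [← MulAut.conj_inv_apply, map_mul, map_pow]

theorem Act.word {f : K120 →* G} {g : G} {π : Fin 8 → Fin 8} (h : Act f g π) (w : List Bool) :
    ∃ g', Act f g' (wA π w) := by
  induction w with
  | nil => exact ⟨1, fun i => by simp [wA]⟩
  | cons b w ih =>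
    obtain ⟨g', hg⟩ := ih
    cases b
    · exact ⟨_, (act_map f (y := 2) (π := lin8 1 4 6) (by decide +kernel)).mul hg⟩
    · exact ⟨_, h.mul hg⟩

namespace JC

variable {f : K120 →* G} (h : JC f)
include h

theorem exists_emb {g : G} (h1 : Act f g id) : ∃ i, f (emb i) = g := by
  have h2 : ∀ i, g * f (emb i) = f (emb i) * g := fun i => by
    nth_rewrite 1 [← show _ = f (emb i) from h1 i]; group
  obtain ⟨y, rfl⟩ := (h.cen g).mp (h2 1)
  have key : ∀ y : K120, y * emb 2 = emb 2 * y → ∃ i, emb i = y := by decide +kernel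
  obtain ⟨i, rfl⟩ := key y (h.inj (by simpa using h2 2))
  exact ⟨i, rfl⟩

theorem act_id [Finite G] {g : G} {π : Fin 8 → Fin 8} (h1 : Act f g π) (h2 : ∀ i, π (π i) = i)
    (i : Fin 8) : π i = i := by
  set P := (centralizer ({4} : Set K120)).map f with hP
  have hm : ∀ x, x ∈ P ↔ ∃ i, f (emb i) = x := fun x => by
    have key : ∀ y : K120, y * 4 = 4 * y ↔ ∃ i, emb i = y := by decide +kernel
    constructor
    · rintro ⟨y, hy, rfl⟩
      obtain ⟨i, rfl⟩ := (key y).mp (mem_centralizer_singleton_iff.mp hy)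
      exact ⟨i, rfl⟩
    · rintro ⟨i, rfl⟩
      exact ⟨_, mem_centralizer_singleton_iff.mpr ((key _).mpr ⟨i, rfl⟩), rfl⟩
  have hc : Nat.card P = 8 := by
    rw [card_map_of_injective h.inj]
    rw [Nat.card_congr (Equiv.subtypeEquivRight fun _ => mem_centralizer_singleton_iff),
      Nat.card_eq_fintype_card, Fintype.card_subtype]
    decide +kernel
  have hn : g ∈ normalizer (P : Set G) := inv_mem_iff.mp (H8.mem_normalizer_of_forall fun x hx => by
    obtain ⟨j, rfl⟩ := (hm x).mp hx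
    exact (hm _).mpr ⟨π j, by rw [inv_inv, h1]⟩)
  have h3 := P.index_mul_card
  rw [hc, h.card_eq] at h3
  have h4 : Odd P.index := by
    rw [show P.index = f.range.index * 15 by omega]; exact h.odd.mul (by decide)
  obtain ⟨j, rfl⟩ := (hm g).mp (H8.mem_of_pow_mem (Nat.coprime_two_left.mpr
    (h4.of_dvd_nat (relIndex_dvd_index_of_le le_normalizer)))
    ((hm _).mpr (h.exists_emb ((h1.pow 2).congr h2))) (H8.pow_relIndex_mem le_rfl hn))
  have key : ∀ i j k, (emb j)⁻¹ * emb i * emb j = emb k → k = i := by decide +kernel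
  exact key i j _ (h.inj (by simpa using h1 i))

theorem exists_act [Finite G] : ∃ r, Act f r (lin8 2 4 3) ∨ Act f r (lin8 2 6 5) := by
  obtain ⟨g, hg⟩ := isConj_iff.mp (h.isConj_four (h.ne_one (by decide +kernel)) t_sq)
  have h1 : ∀ y : K120, y * 4 = 4 * y → ∃ a, f a = g * f y * g⁻¹ := fun y hy =>
    (h.cen _).mp (by rw [← hg, conj_mul, conj_mul, ← map_mul, hy, map_mul])
  obtain ⟨a, ha⟩ := h1 6 (by decide +kernel)
  obtain ⟨c, hc⟩ := h1 25 (by decide +kernel)
  have key : ∀ a : K120, a * a = 1 → a ≠ 1 → a ≠ 6 →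
      ∃ k, ∀ c, c * a = a * c → ∃ i, k⁻¹ * c * k = emb i := by decide +kernel
  obtain ⟨k, hk⟩ := key a (h.inj (by rw [map_mul, ha, conj_mul, t_sq]; simp))
    (by rintro rfl; exact h.ne_one (y := 6) (by decide +kernel) (by simpa using ha.symm))
    (by rintro rfl; exact absurd (h.inj (by simpa using hg.trans ha : f 4 = f 6)) (by decide +kernel))
  obtain ⟨i, hi⟩ := hk a rfl
  obtain ⟨j, hj⟩ := hk c (h.inj (by
    rw [map_mul, map_mul, ha, hc, conj_mul, conj_mul, ← map_mul, ← map_mul]; rfl))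
  have h2 : ∀ x, (g⁻¹ * f k)⁻¹ * x * (g⁻¹ * f k) = f k⁻¹ * (g * x * g⁻¹) * f k := fun x => by
    rw [map_inv]; group
  have h3 : Act f (g⁻¹ * f k) (lin8 i 1 j) := act_lin
    (by rw [h2, ← ha, ← hi, map_mul, map_mul])
    (by rw [h2, hg, ← map_mul, ← map_mul, show ∀ k : K120, k⁻¹ * 6 * k = emb 1 by decide +kernel])
    (by rw [h2, ← hc, ← hj, map_mul, map_mul])
  have key2 : ∀ i j, (∃ l, l ≠ 0 ∧ lin8 i 1 j l = 0) ∨ ∃ w ∈ [[true, false, true, true, false, true],
      [true, false, false, true, false, true], [true, true, true, true, true, true],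
      [false, false, true, true], [false, true, false, true]],
      ((∀ l, wA (lin8 i 1 j) w (wA (lin8 i 1 j) w l) = l) ∧ ∃ l, wA (lin8 i 1 j) w l ≠ l) ∨
      (∀ l, wA (lin8 i 1 j) w l = lin8 2 4 3 l) ∨ ∀ l, wA (lin8 i 1 j) w l = lin8 2 6 5 l := by
    decide +kernel
  rcases key2 i j with ⟨l, a1, a2⟩ | ⟨w, -, hw⟩
  · have h4 := h3 l
    rw [a2, show emb 0 = 1 from rfl, map_one, mul_assoc, inv_mul_eq_one, right_eq_mul] at h4
    exact absurd h4 (h.ne_one ((by decide +kernel : ∀ l, l ≠ 0 → emb l ≠ 1) l a1))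
  obtain ⟨r, hr⟩ := h3.word w
  rcases hw with ⟨a1, l, a2⟩ | a1 | a1
  · exact absurd (h.act_id hr a1 l) a2
  · exact ⟨r, Or.inl (hr.congr a1)⟩
  · exact ⟨r, Or.inr (hr.congr a1)⟩

omit h in
/-- The relations of the element of order seven. -/
structure Gen (f : K120 →* G) (r : G) : Prop where
  act : Act f r (lin8 2 4 3)
  pow : r ^ 7 = 1
  conj : f 3 * r * f 2 = r ^ 2

theorem exists_gen_of_act {r : G} (hr : Act f r (lin8 2 4 3)) : ∃ r, Gen f r := by
  classical
  have h7 : ∀ r, Act f r (lin8 2 4 3) → r ^ 7 = 1 := fun r hr => by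
    obtain ⟨i, hi⟩ := h.exists_emb ((hr.pow 7).congr (by decide +kernel))
    have h1 : emb i = emb (lin8 2 4 3 i) := h.inj (by rw [← hr, hi]; group)
    rw [← hi, (by decide +kernel : ∀ i, emb i = emb (lin8 2 4 3 i) → emb i = 1) i h1, map_one]
  have e : Fin 8 ≃ {r // Act f r (lin8 2 4 3)} := Equiv.ofBijective
    (fun i => ⟨r * f (emb i), (hr.mul (act_map f (π := id) (by revert i; decide +kernel)))⟩)
    ⟨fun i j e => (by decide +kernel : ∀ i j, emb i = emb j → i = j) i j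
      (h.inj (mul_left_cancel (congrArg Subtype.val e))), fun ⟨s, hs⟩ => by
      obtain ⟨i, hi⟩ := h.exists_emb (g := r ^ 6 * s) (((hr.pow 6).mul hs).congr (by decide +kernel))
      exact ⟨i, Subtype.ext (by simp only [hi]; rw [← mul_assoc, ← pow_succ', h7 r hr, one_mul])⟩⟩
  have := Fintype.ofEquiv _ e
  let φ : Function.End {r // Act f r (lin8 2 4 3)} := fun s => ⟨(f 3 * s.1 * f 2) ^ 4,
    ((((act_map f (y := 3) (π := lin8 1 6 2) (by decide +kernel)).mul s.2).mul
      (act_map f (y := 2) (π := lin8 1 4 6) (by decide +kernel))).pow 4).congr (by decide +kernel)⟩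
  have e3 : f 3 = (f 2)⁻¹ := by rw [← map_inv]; rfl
  have e2 : f 2 * f 2 * f 2 = 1 := by rw [← map_mul, ← map_mul, ← map_one f]; rfl
  have h1 := Equiv.Perm.card_fixedPoints_modEq (f := φ) (p := 3) (n := 1) (by
    funext s
    apply Subtype.ext
    change (f 3 * (f 3 * (f 3 * s.1 * f 2) ^ 4 * f 2) ^ 4 * f 2) ^ 4 = s.1
    have h2 : ∀ (x : G) (n : ℕ), (f 3 * x * f 2) ^ n = f 3 * x ^ n * f 2 := fun x n => by
      rw [e3]; nth_rewrite 2 4 [← inv_inv (f 2)]; exact conj_pow
    simp only [h2, ← pow_mul]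
    rw [show 4 * (4 * 4) = 7 * 9 + 1 from rfl, pow_succ, pow_mul, h7 _ s.2, one_pow, one_mul, e3]
    calc _ = (f 2 * f 2 * f 2)⁻¹ * s.1 * (f 2 * f 2 * f 2) := by group
      _ = _ := by rw [e2]; group)
  rw [← Fintype.card_congr e, Fintype.card_fin] at h1
  obtain ⟨⟨⟨s, hs⟩, h2⟩⟩ := Fintype.card_pos_iff.mp (Nat.pos_of_ne_zero fun e0 => by
    rw [e0] at h1; exact absurd h1 (by decide) : 0 < Fintype.card φ.fixedPoints)
  have h3 : (f 3 * s * f 2) ^ 4 = s := congrArg Subtype.val h2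
  refine ⟨s, hs, h7 s hs, ?_⟩
  have h4 : (f 3 * s * f 2) ^ 7 = 1 := by
    rw [e3]; nth_rewrite 2 [← inv_inv (f 2)]; rw [conj_pow, h7 s hs]; group
  conv_rhs => rw [← h3, ← pow_mul, show 4 * 2 = 7 + 1 from rfl, pow_succ, h4, one_mul]

theorem exists_gen [Finite G] : ∃ (f : K120 →* G) (r : G), JC f ∧ Gen f r := by
  obtain ⟨r, hr | hr⟩ := h.exists_act
  · obtain ⟨r, h1⟩ := h.exists_gen_of_act hr
    exact ⟨f, r, h, h1⟩
  · obtain ⟨r, h1⟩ := h.swap.exists_gen_of_act (r := r)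
      (act_lin (f := f.comp phi.toMonoidHom) (hr 1) (hr 2) (hr 6))
    exact ⟨_, r, h.swap, h1⟩

end JC

end Cfsg.H4
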