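import Cfsg.Agent.H4.Low

/-!
# Search certificates with packed tables and branching over the point stabilizer
-/

set_option autoImplicit false

namespace Cfsg.H4.Low2

open Cfsg.H6 Cfsg.H4.Low

/-- Search trees. -/
inductive Tr : Type
  | deds (m c : ℕ) (t : Tr) : Tr
  | con (m c : ℕ) : Tr
  | cm (u : List ℕ) (t : Tr) : Tr
  | st (u ps : List ℕ) (t : Tr) : Tr
  | leaf (k : ℕ) : Tr
  | closed : Tr
  | br (i l : ℕ) (t : Tr) : Tr
  | kill (k c : ℕ) (t : Tr) : Tr
  | alt (y n : Tr) : Tr
  | new (t : Tr) : Tr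
  | full : Tr
  | hole (k : ℕ) : Tr

/-- The fixed data of a search. -/
structure Par where
  K : ℕ
  N : ℕ
  B : ℕ
  inv : ℕ
  Z : List ℕ
  S : List (List ℕ)
  T : List ℕ

variable (P : Par)

/-- Evaluate a number before passing it on. -/
noncomputable def force {α : Type} (n : ℕ) (k : ℕ → α) : α :=
  Nat.rec (k 0) (fun m _ => k (Nat.succ m)) n

@[simp] theorem force_eq {α : Type} (n : ℕ) (k : ℕ → α) : force n k = k n := by cases n <;> rfl

/-- The entry of the table: zero, or the successor of the image of `i` under `l`. -/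
def get (tab i l : ℕ) : ℕ :=
  Nat.mod (Nat.shiftRight tab (Nat.mul P.B (Nat.add (Nat.mul l P.N) i))) (Nat.pow 2 P.B)

/-- Fill an empty entry. -/
def put (tab i l j : ℕ) : ℕ :=
  cond (Nat.beq (get P tab i l) 0)
    (Nat.lor tab (Nat.shiftLeft (Nat.succ j) (Nat.mul P.B (Nat.add (Nat.mul l P.N) i)))) tab

/-- Record a fact and its inverse. -/
noncomputable def add (tab i l j : ℕ) : ℕ :=
  force (put P tab i l j) fun tab => put P tab j (invL P.inv l) i

/-- Follow a word. -/
noncomputable def fol (tab : ℕ) (w : List ℕ) : ℕ → ℕ :=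
  List.rec (fun q => q) (fun l _ ih q => Nat.rec 0 (fun i _ => ih (get P tab i l)) q) w

/-- A field of a code. -/
def fld (c a b : ℕ) : ℕ := Nat.mod (Nat.shiftRight c a) b

/-- One deduction. -/
noncomputable def step (R : List (List ℕ)) (n tab c : ℕ) : ℕ :=
  force (fld c 0 4096) fun i => force (fld c 22 1024) fun k =>
    (fun w : List ℕ => Nat.rec tab (fun p _ => add P tab p (w.getD k 0) i)
      (fol P tab (w.take k) (fol P tab (w.drop (Nat.succ k)) (cond (Nat.blt i n) (Nat.succ i) 0))))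
    (R.getD (fld c 12 1024) [])

/-- A run of deductions. -/
noncomputable def run (R : List (List ℕ)) (n c m : ℕ) : ℕ → ℕ :=
  Nat.rec (fun tab => tab)
    (fun f ih tab => force (step P R n tab (fld c (Nat.mul 32 f) 4294967296)) ih) m

/-- A relator fails to close. -/
noncomputable def bad (R : List (List ℕ)) (n tab c : ℕ) : Bool :=
  force (fld c 0 4096) fun i => force (fld c 22 1024) fun k =>
    (fun w : List ℕ => force (fol P tab (w.take k) (fol P tab (w.drop k) (Nat.succ i))) fun q =>
      Nat.blt i n && !Nat.beq q 0 && !Nat.beq q (Nat.succ i))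
    (R.getD (fld c 12 1024) [])

/-- Deductions ending in a contradiction. -/
noncomputable def dead (R : List (List ℕ)) (n tab m c : ℕ) : Bool :=
  force (run P R n (Nat.shiftRight c 32) m tab) fun tab => bad P R n tab c

/-- The old points which may be the image of `i` under `l`. -/
noncomputable def cands (tab i l n : ℕ) : List ℕ :=
  Nat.rec [] (fun j acc => force (get P tab j (invL P.inv l)) fun g =>
    cond (Nat.beq g 0 || Nat.beq g (Nat.succ i)) (j :: acc) acc) n

/-- The stabilizer words compatible with the action of `u` on some points. -/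
noncomputable def filt (tab n : ℕ) (u ps : List ℕ) : List (List ℕ) :=
  List.rec P.S (fun p _ acc => force (fol P tab u (cond (Nat.blt p n) (Nat.succ p) 0)) fun q =>
    acc.filter fun w => force (fol P tab w q) fun r => Nat.beq r 0 || Nat.beq r (Nat.succ p)) ps

/-- All entries of the first `n` points are filled. -/
def filled (tab n : ℕ) : Bool :=
  (List.range P.K).all fun l => (List.range n).all fun i => !Nat.beq (get P tab i l) 0

/-- Refute the first candidates. -/
noncomputable def kills (R : List (List ℕ)) (n tab i l k : ℕ) : ℕ → List ℕ → Bool :=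
  Nat.rec (fun _ _ => true) (fun _ ih c js => List.casesOn js true fun j js =>
    force (fld c 0 256) fun m => Nat.blt j n &&
      dead P R n (add P tab i l j) m (fld c 8 (Nat.pow 2 (Nat.mul 32 (Nat.succ m)))) &&
      force (Nat.shiftRight c (Nat.add 40 (Nat.mul 32 m))) fun c => ih c js) k

/-- The checker. In mode `1` the image of `i` under `l` is new or listed in `js`; in mode `2` one
of the words `cs` is a relator. -/
noncomputable def chk (H : List (List (List ℕ) × ℕ × ℕ)) :
    Tr → ℕ → ℕ → ℕ → List ℕ → List (List ℕ) → List (List ℕ) → ℕ → ℕ → Bool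
  | .deds m c t, _, _, _, _, _, R, n, tab =>
      force (run P R n c m tab) fun tab => chk H t 0 0 0 [] [] R n tab
  | .con m c, _, _, _, _, _, R, n, tab => dead P R n tab m c
  | .cm u t, _, _, _, _, _, R, n, tab => Nat.beq (fol P tab u 1) 1 &&
      chk H t 0 0 0 [] [] (red P.inv (u ++ P.Z ++ invW P.inv u ++ invW P.inv P.Z) :: R) n tab
  | .st u ps t, _, _, _, _, _, R, n, tab => Nat.beq (fol P tab u 1) 1 &&
      chk H t 2 0 0 [] ((filt P tab n u ps).map fun w => red P.inv (u ++ w)) R n tab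
  | .leaf k, _, _, _, _, _, _, n, tab =>
      Nat.blt k P.T.length && Nat.beq n P.N && Nat.beq tab (P.T.getD k 0) && filled P tab n
  | .closed, _, _, _, _, _, _, n, tab => Nat.blt n P.N && filled P tab n
  | .br i l t, _, _, _, _, _, R, n, tab =>
      Nat.blt i n && chk H t 1 i l (cands P tab i l n) [] R n tab
  | .kill k c t, m, i, l, js, _, R, n, tab =>
      Nat.beq m 1 && kills P R n tab i l k c js && chk H t 1 i l (js.drop k) [] R n tab
  | .alt y t, m, i, l, js, cs, R, n, tab =>
      match m, js, cs with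
      | 1, j :: js, _ => Nat.blt j n &&
          (force (add P tab i l j) fun tab => chk H y 0 0 0 [] [] R n tab) &&
          chk H t 1 i l js [] R n tab
      | 2, _, r :: cs => chk H y 0 0 0 [] [] (r :: R) n tab && chk H t 2 0 0 [] cs R n tab
      | _, _, _ => false
  | .new t, m, i, l, js, _, R, n, tab => Nat.beq m 1 && js.isEmpty && Nat.blt n P.N &&
      force (add P (put P tab n 0 n) i l n) fun tab =>
        force (Nat.succ n) fun n => chk H t 0 0 0 [] [] R n tab
  | .full, m, _, _, js, cs, _, n, _ =>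
      (Nat.beq m 1 && js.isEmpty && Nat.beq n P.N) || (Nat.beq m 2 && cs.isEmpty)
  | .hole k, _, _, _, _, _, R, n, tab => Nat.blt k H.length && (H.getD k ([], 0, 0) == (R, n, tab))

variable {G : Type*} [Group G] {X : Type*} [MulAction G X]

/-- The recorded facts hold for the labelling `x`. -/
def Val (ev : ℕ → G) (x : ℕ → X) (n tab : ℕ) : Prop :=
  ∀ i l j, i < P.N → get P tab i l = j + 1 → i < n ∧ j < n ∧ (ev l)⁻¹ • x i = x j

/-- A state of the search is realised by a labelling. -/
structure Real (ev : ℕ → G) (x0 : X) (x : ℕ → X) (R : List (List ℕ)) (n tab : ℕ) : Prop where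
  rel : ∀ r ∈ R, evL ev r = 1
  inj : Inj x n
  pos : 0 < n
  le : n ≤ P.N
  val : Val P ev x n tab
  zero : x 0 = x0

/-- The action has one of the listed tables. -/
def Goal (ev : ℕ → G) (X : Type*) [MulAction G X] : Prop :=
  ∃ k < P.T.length, ∃ y : ℕ → X, Inj y P.N ∧
    Tab ev y P.K P.N fun i l => get P (P.T.getD k 0) i l - 1

/-- The standing hypotheses of a search. -/
structure Hyp (ev : ℕ → G) (x0 : X) : Prop where
  good : Good ev P.inv
  lt : P.N < 2 ^ P.B
  card : Nat.card X = P.N
  comm : ∀ g : G, g • x0 = x0 → g * evL ev P.Z = evL ev P.Z * g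
  stab : ∀ g : G, g • x0 = x0 → ∃ w ∈ P.S, g * evL ev w = 1
  tr : ∀ S : Set X, S.Nonempty → (∀ l < P.K, ∀ p ∈ S, (ev l)⁻¹ • p ∈ S) → S = Set.univ

variable {P} {ev : ℕ → G} {x0 : X} {x : ℕ → X} {R : List (List ℕ)} {n tab : ℕ}

theorem get_lor {i l i' l' v : ℕ} (hi : i < P.N) (hi' : i' < P.N) (hv : v < 2 ^ P.B) :
    get P (tab ||| v <<< (P.B * (l * P.N + i))) i' l' =
      if i = i' ∧ l = l' then get P tab i l ||| v else get P tab i' l' := by
  have key : ∀ t a b, get P t a b = (t >>> (P.B * (b * P.N + a))) % 2 ^ P.B := fun _ _ _ => rfl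
  simp only [key]
  apply Nat.eq_of_testBit_eq
  intro k
  split_ifs with h
  · obtain ⟨rfl, rfl⟩ := h
    simp only [Nat.testBit_mod_two_pow, Nat.testBit_shiftRight, Nat.testBit_or,
      Nat.testBit_shiftLeft, Nat.add_sub_cancel_left, ge_iff_le, Nat.le_add_right, decide_true,
      Bool.true_and]
    by_cases hk : k < P.B
    · simp [hk]
    · simp [hk, Nat.testBit_lt_two_pow (hv.trans_le (Nat.pow_le_pow_right two_pos (not_lt.mp hk)))]
  · simp only [Nat.testBit_mod_two_pow, Nat.testBit_shiftRight, Nat.testBit_or,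
      Nat.testBit_shiftLeft]
    by_cases hk : k < P.B
    · have hne : l * P.N + i ≠ l' * P.N + i' := fun e => h (by
        have h1 := congrArg (· % P.N) e
        simp only [Nat.mul_add_mod_of_lt hi, Nat.mul_add_mod_of_lt hi'] at h1
        subst h1
        exact ⟨rfl, Nat.eq_of_mul_eq_mul_right (by omega) (Nat.add_right_cancel e)⟩)
      generalize l * P.N + i = a at hne ⊢
      generalize l' * P.N + i' = a' at hne ⊢
      rcases lt_or_gt_of_ne hne with h1 | h1
      · have h2 := Nat.mul_le_mul_left P.B (Nat.succ_le_of_lt h1)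
        rw [Nat.mul_succ] at h2
        rw [Nat.testBit_lt_two_pow (hv.trans_le (Nat.pow_le_pow_right two_pos (by omega)))]
        simp
      · have h2 := Nat.mul_le_mul_left P.B (Nat.succ_le_of_lt h1)
        rw [Nat.mul_succ] at h2
        rw [decide_eq_false (show ¬ P.B * a' + k ≥ P.B * a by omega)]
        simp
    · simp [hk]

theorem Real.put (hy : Hyp P ev x0) (h : Real P ev x0 x R n tab) {i l j : ℕ} (hi : i < n)
    (hj : j < n) (e : (ev l)⁻¹ • x i = x j) : Real P ev x0 x R n (put P tab i l j) := by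
  unfold Low2.put
  cases h0 : Nat.beq (get P tab i l) 0
  · exact h
  refine { h with val := fun i' l' j' hi' h1 => ?_ }
  have h2 := h.le
  have h3 := hy.lt
  have h4 := (get_lor (tab := tab) (l := l) (l' := l') (v := j + 1) (show i < P.N by omega) hi'
    (by omega)).symm.trans h1
  split_ifs at h4 with h5
  · obtain ⟨rfl, rfl⟩ := h5
    rw [Nat.eq_of_beq_eq_true h0, Nat.zero_or, Nat.add_right_cancel_iff] at h4
    exact h4 ▸ ⟨hi, hj, e⟩
  · exact h.val _ _ _ hi' h4

theorem Real.add (hy : Hyp P ev x0) (h : Real P ev x0 x R n tab) {i l j : ℕ} (hi : i < n)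
    (hj : j < n) (e : (ev l)⁻¹ • x i = x j) : Real P ev x0 x R n (add P tab i l j) := by
  rw [Low2.add, force_eq]
  exact (h.put hy hi hj e).put hy hj hi (by rw [hy.good.inv, ← e, inv_inv, smul_inv_smul])

theorem fol_zero (w : List ℕ) : fol P tab w 0 = 0 := by cases w <;> rfl

theorem Real.fol (h : Real P ev x0 x R n tab) (w : List ℕ) : ∀ {i p : ℕ}, i < n →
    fol P tab w (i + 1) = p + 1 → p < n ∧ (evL ev w)⁻¹ • x i = x p := by
  induction w with
  | nil =>
    intro i p hi h1
    obtain rfl : i = p := Nat.succ_injective h1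
    exact ⟨hi, by simp [evL]⟩
  | cons l w ih =>
    intro i p hi h1
    change Low2.fol P tab w (get P tab i l) = _ at h1
    rcases h2 : get P tab i l with _ | j
    · rw [h2, fol_zero] at h1; omega
    · obtain ⟨-, h3, h4⟩ := h.val i l j (hi.trans_le h.le) h2
      obtain ⟨h5, h6⟩ := ih h3 (h2 ▸ h1)
      exact ⟨h5, by rw [evL_cons, mul_inv_rev, mul_smul, h4, h6]⟩

theorem Real.fol₂ (h : Real P ev x0 x R n tab) (u w : List ℕ) {i p : ℕ} (hi : i < n)
    (h1 : Low2.fol P tab w (Low2.fol P tab u (i + 1)) = p + 1) :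
    p < n ∧ (evL ev u * evL ev w)⁻¹ • x i = x p := by
  rcases h2 : Low2.fol P tab u (i + 1) with _ | j
  · rw [h2, fol_zero] at h1; omega
  · obtain ⟨h3, h4⟩ := h.fol u hi h2
    obtain ⟨h5, h6⟩ := h.fol w h3 (h2 ▸ h1)
    exact ⟨h5, by rw [mul_inv_rev, mul_smul, h4, h6]⟩

theorem Real.fol₃ (h : Real P ev x0 x R n tab) (u w : List ℕ) {i p : ℕ}
    (h1 : Low2.fol P tab w (Low2.fol P tab u (cond (Nat.blt i n) (Nat.succ i) 0)) = p + 1) :
    i < n ∧ p < n ∧ (evL ev u * evL ev w)⁻¹ • x i = x p := by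
  cases h2 : Nat.blt i n
  · rw [h2, cond_false, fol_zero, fol_zero] at h1; omega
  · rw [h2] at h1
    exact ⟨Nat.blt_eq.mp h2, h.fol₂ u w (Nat.blt_eq.mp h2) h1⟩

theorem Real.getD (h : Real P ev x0 x R n tab) (r : ℕ) : evL ev (R.getD r []) = 1 := by
  by_cases hr : r < R.length
  · rw [List.getD_eq_getElem _ _ hr]; exact h.rel _ (List.getElem_mem hr)
  · rw [List.getD_eq_default _ _ (by omega)]; rfl

theorem evL_rot {w : List ℕ} (h : evL ev w = 1) (k : ℕ) :
    evL ev (w.drop k) * evL ev (w.take k) = 1 := by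
  rw [mul_eq_one_comm, ← evL_append, List.take_append_drop, h]

theorem Real.step (hy : Hyp P ev x0) (h : Real P ev x0 x R n tab) (c : ℕ) :
    Real P ev x0 x R n (step P R n tab c) := by
  simp only [Low2.step, force_eq]
  have h1 := h.getD (fld c 12 1024)
  generalize R.getD (fld c 12 1024) [] = w at h1
  generalize fld c 0 4096 = i
  generalize fld c 22 1024 = k
  rcases h2 : Low2.fol P tab (w.take k) (Low2.fol P tab (w.drop k.succ)
    (cond (Nat.blt i n) i.succ 0)) with _ | p
  · exact h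
  obtain ⟨h3, h4, h5⟩ := h.fol₃ _ _ h2
  refine h.add hy h4 h3 ?_
  have h6 : evL ev (w.drop k) = ev (w.getD k 0) * evL ev (w.drop k.succ) := by
    by_cases hk : k < w.length
    · rw [List.drop_eq_getElem_cons hk, evL_cons, List.getD_eq_getElem _ _ hk]
    · rw [List.drop_eq_nil_of_le (by omega), List.drop_eq_nil_of_le (by omega),
        List.getD_eq_default _ _ (by omega), hy.good.zero, one_mul]
  have h7 := evL_rot h1 k
  rw [h6, mul_assoc, mul_eq_one_comm] at h7
  rw [← h5, ← mul_smul, ← mul_inv_rev, h7, inv_one, one_smul]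

theorem Real.run (hy : Hyp P ev x0) (c m : ℕ) : ∀ {tab : ℕ}, Real P ev x0 x R n tab →
    Real P ev x0 x R n (run P R n c m tab) := by
  induction m with
  | zero => exact id
  | succ f ih =>
    intro tab h
    change Real P ev x0 x R n (force _ _)
    rw [force_eq]
    exact ih (h.step hy _)

theorem Real.not_dead (hy : Hyp P ev x0) (h : Real P ev x0 x R n tab) (m c : ℕ) :
    dead P R n tab m c ≠ true := by
  intro h1
  have h2 := h.run hy (Nat.shiftRight c 32) m
  simp only [dead, bad, force_eq, Bool.and_eq_true, Nat.blt_eq, Bool.not_eq_true',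
    ← Bool.not_eq_true, Nat.beq_eq] at h1
  obtain ⟨⟨h3, h4⟩, h5⟩ := h1
  obtain ⟨p, hp⟩ := Nat.exists_eq_succ_of_ne_zero h4
  obtain ⟨h6, h7⟩ := h2.fol₂ _ _ h3 hp
  rw [evL_rot (h2.getD _), inv_one, one_smul] at h7
  exact h5 (hp.trans (congrArg Nat.succ (h.inj _ h3 _ h6 h7).symm))

theorem cands_succ (i l j : ℕ) : cands P tab i l (j + 1) =
    force (get P tab j (invL P.inv l)) fun g => cond (Nat.beq g 0 || Nat.beq g (Nat.succ i))
      (j :: cands P tab i l j) (cands P tab i l j) := rfl

theorem filt_cons (u ps : List ℕ) (p : ℕ) : filt P tab n u (p :: ps) =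
    force (fol P tab u (cond (Nat.blt p n) (Nat.succ p) 0)) fun q => (filt P tab n u ps).filter
      fun w => force (fol P tab w q) fun r => Nat.beq r 0 || Nat.beq r (Nat.succ p) := rfl

theorem kills_succ (i l k c j : ℕ) (js : List ℕ) : kills P R n tab i l (k + 1) c (j :: js) =
    force (fld c 0 256) fun m => Nat.blt j n &&
      dead P R n (add P tab i l j) m (fld c 8 (Nat.pow 2 (Nat.mul 32 (Nat.succ m)))) &&
      force (Nat.shiftRight c (Nat.add 40 (Nat.mul 32 m))) fun c =>
        kills P R n tab i l k c js := rfl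

theorem Real.mem_cands (hy : Hyp P ev x0) (h : Real P ev x0 x R n tab) {i l j : ℕ} (hi : i < n)
    (hj : j < n) (e : (ev l)⁻¹ • x i = x j) (m : ℕ) : j < m → j ∈ cands P tab i l m := by
  induction m with
  | zero => simp
  | succ m ih =>
    intro hm
    rw [cands_succ, force_eq]
    rcases Nat.lt_succ_iff_lt_or_eq.mp hm with hm | rfl
    · cases (Nat.beq _ 0 || Nat.beq _ _)
      exacts [ih hm, List.mem_cons_of_mem _ (ih hm)]
    rcases h1 : get P tab j (invL P.inv l) with _ | q
    · exact List.mem_cons_self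
    · obtain ⟨-, h2, h3⟩ := h.val _ _ _ (hj.trans_le h.le) h1
      rw [hy.good.inv, ← e, inv_inv, smul_inv_smul] at h3
      rw [← h.inj _ hi _ h2 h3, Nat.beq_refl, Bool.or_true]
      exact List.mem_cons_self

theorem Real.mem_filt (h : Real P ev x0 x R n tab) {u w : List ℕ} (hw : w ∈ P.S)
    (e : evL ev u * evL ev w = 1) (ps : List ℕ) : w ∈ filt P tab n u ps := by
  induction ps with
  | nil => exact hw
  | cons p ps ih =>
    rw [filt_cons, force_eq, List.mem_filter, force_eq]
    refine ⟨ih, ?_⟩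
    rcases h1 : Low2.fol P tab w (Low2.fol P tab u (cond (Nat.blt p n) p.succ 0)) with _ | q
    · rfl
    · obtain ⟨h2, h3, h4⟩ := h.fol₃ _ _ h1
      rw [e, inv_one, one_smul] at h4
      rw [← h.inj _ h2 _ h3 h4, Nat.beq_refl, Bool.or_true]

theorem Real.filled (h : Real P ev x0 x R n tab) (hf : filled P tab n = true) {i l : ℕ}
    (hi : i < n) (hl : l < P.K) :
    get P tab i l - 1 < n ∧ (ev l)⁻¹ • x i = x (get P tab i l - 1) := by
  simp only [Low2.filled, List.all_eq_true, List.mem_range] at hf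
  have h1 : get P tab i l ≠ 0 := fun e => by simpa [e] using hf l hl i hi
  exact (h.val i l _ (hi.trans_le h.le) (by omega)).2

theorem Real.kills (hy : Hyp P ev x0) (h : Real P ev x0 x R n tab) {i l j : ℕ} (hi : i < n)
    (e : (ev l)⁻¹ • x i = x j) (k : ℕ) : ∀ (c : ℕ) (js : List ℕ),
    kills P R n tab i l k c js = true → j ∈ js → j ∈ js.drop k := by
  induction k with
  | zero => exact fun _ _ _ => id
  | succ k ih =>
    rintro c (_ | ⟨j', js⟩) h1 h2
    · exact h2
    simp only [kills_succ, force_eq, Bool.and_eq_true, Nat.blt_eq] at h1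
    rcases List.mem_cons.mp h2 with rfl | h2
    · exact absurd h1.1.2 ((h.add hy hi h1.1.1 e).not_dead hy _ _)
    · exact ih _ js h1.2 h2

theorem Real.fix (h : Real P ev x0 x R n tab) {u : List ℕ}
    (hu : Nat.beq (Low2.fol P tab u 1) 1 = true) : evL ev u • x0 = x0 := by
  have h1 := (h.fol u h.pos (Nat.eq_of_beq_eq_true hu)).2
  rw [h.zero, inv_smul_eq_iff] at h1
  exact h1.symm

theorem Real.cons (h : Real P ev x0 x R n tab) {r : List ℕ} (hr : evL ev r = 1) :
    Real P ev x0 x (r :: R) n tab :=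
  { h with rel := List.forall_mem_cons.mpr ⟨hr, h.rel⟩ }

theorem chk_sound [Finite X] (hy : Hyp P ev x0) {H : List (List (List ℕ) × ℕ × ℕ)}
    (hH : ∀ s ∈ H, ∀ x, Real P ev x0 x s.1 s.2.1 s.2.2 → Goal P ev X) (t : Tr) :
    ∀ (m i l : ℕ) (js : List ℕ) (cs R : List (List ℕ)) (n tab : ℕ) (x : ℕ → X),
      Real P ev x0 x R n tab → (m = 1 → i < n ∧ ∀ j < n, (ev l)⁻¹ • x i = x j → j ∈ js) →
      (m = 2 → ∃ r ∈ cs, evL ev r = 1) → chk P H t m i l js cs R n tab = true → Goal P ev X := by
  induction t with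
  | deds m c t ih =>
    intro _ _ _ _ _ R n tab x hx _ _ h
    simp only [chk, force_eq] at h
    exact ih _ _ _ _ _ _ _ _ x (hx.run hy c m) (by simp) (by simp) h
  | con m c =>
    intro _ _ _ _ _ R n tab x hx _ _ h
    exact absurd h (hx.not_dead hy m c)
  | cm u t ih =>
    intro _ _ _ _ _ R n tab x hx _ _ h
    simp only [chk, Bool.and_eq_true] at h
    refine ih _ _ _ _ _ _ _ _ x (hx.cons ?_) (by simp) (by simp) h.2
    simp only [evL_red hy.good, evL_append, evL_invW hy.good, hy.comm _ (hx.fix h.1)]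
    group
  | st u ps t ih =>
    intro _ _ _ _ _ R n tab x hx _ _ h
    simp only [chk, Bool.and_eq_true] at h
    obtain ⟨w, hw, e⟩ := hy.stab _ (hx.fix h.1)
    exact ih _ _ _ _ _ _ _ _ x hx (by simp) (fun _ => ⟨_, List.mem_map_of_mem (hx.mem_filt hw e ps),
      by rw [evL_red hy.good, evL_append, e]⟩) h.2
  | leaf k =>
    intro _ _ _ _ _ R n tab x hx _ _ h
    simp only [chk, Bool.and_eq_true, Nat.blt_eq, Nat.beq_eq] at h
    obtain ⟨⟨⟨h1, rfl⟩, rfl⟩, h2⟩ := h
    exact ⟨k, h1, x, hx.inj, fun i hi l hl => hx.filled h2 hi hl⟩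
  | closed =>
    intro _ _ _ _ _ R n tab x hx _ _ h
    simp only [chk, Bool.and_eq_true, Nat.blt_eq] at h
    have h1 := hy.tr (x '' {i | i < n}) ⟨x 0, 0, hx.pos, rfl⟩ (by
      rintro l hl _ ⟨i, hi, rfl⟩
      obtain ⟨h2, h3⟩ := hx.filled h.2 hi hl
      exact ⟨_, h2, h3.symm⟩)
    have h2 : Nat.card X ≤ n := by
      have := Nat.card_le_card_of_surjective (fun i : Fin n => x i) fun p => by
        obtain ⟨i, hi, e⟩ : p ∈ x '' {i | i < n} := h1 ▸ Set.mem_univ p
        exact ⟨⟨i, hi⟩, e⟩
      simpa using this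
    have := hy.card
    omega
  | br i l t ih =>
    intro _ _ _ _ _ R n tab x hx _ _ h
    simp only [chk, Bool.and_eq_true, Nat.blt_eq] at h
    exact ih _ _ _ _ _ _ _ _ x hx (fun _ => ⟨h.1, fun j hj e => hx.mem_cands hy h.1 hj e n hj⟩)
      (by simp) h.2
  | kill k c t ih =>
    intro m i l js _ R n tab x hx h1 _ h
    simp only [chk, Bool.and_eq_true, Nat.beq_eq] at h
    obtain ⟨a, b⟩ := h1 h.1.1
    exact ih _ _ _ _ _ _ _ _ x hx
      (fun _ => ⟨a, fun j hj e => hx.kills hy a e k c js h.1.2 (b j hj e)⟩) (by simp) h.2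
  | alt y t ihy iht =>
    intro m i l js cs R n tab x hx h1 h2 h
    simp only [chk] at h
    split at h
    · rename_i j js
      simp only [Bool.and_eq_true, Nat.blt_eq, force_eq] at h
      obtain ⟨a, b⟩ := h1 rfl
      by_cases e : (ev l)⁻¹ • x i = x j
      · exact ihy _ _ _ _ _ _ _ _ x (hx.add hy a h.1.1 e) (by simp) (by simp) h.1.2
      · refine iht _ _ _ _ _ _ _ _ x hx (fun _ => ⟨a, fun j' hj' e' => ?_⟩) (by simp) h.2
        exact (List.mem_cons.mp (b j' hj' e')).resolve_left (by rintro rfl; exact e e')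
    · rename_i r cs
      simp only [Bool.and_eq_true] at h
      by_cases he : evL ev r = 1
      · exact ihy _ _ _ _ _ _ _ _ x (hx.cons he) (by simp) (by simp) h.1
      · refine iht _ _ _ _ _ _ _ _ x hx (by simp) (fun _ => ?_) h.2
        obtain ⟨r', hr', h3⟩ := h2 rfl
        exact ⟨r', (List.mem_cons.mp hr').resolve_left (by rintro rfl; exact he h3), h3⟩
    · simp at h
  | new t ih =>
    intro m i l js cs R n tab x hx h1 _ h
    simp only [chk, Bool.and_eq_true, Nat.blt_eq, Nat.beq_eq, List.isEmpty_iff, force_eq] at h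
    obtain ⟨⟨⟨rfl, rfl⟩, h3⟩, h4⟩ := h
    obtain ⟨a, c⟩ := h1 rfl
    let x' := Function.update x n ((ev l)⁻¹ • x i)
    have hx' : ∀ k < n, x' k = x k := fun k hk => Function.update_of_ne hk.ne _ _
    have hxj : x' n = (ev l)⁻¹ • x i := Function.update_self _ _ _
    have h5 : Real P ev x0 x' R (n + 1) tab := by
      refine ⟨hx.rel, fun p hp q hq e => ?_, by omega, h3, fun p l' q hp e => ?_,
        (hx' 0 hx.pos).trans hx.zero⟩
      · rcases Nat.lt_succ_iff_lt_or_eq.mp hp with hp | rfl <;>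
          rcases Nat.lt_succ_iff_lt_or_eq.mp hq with hq | rfl
        · rw [hx' p hp, hx' q hq] at e; exact hx.inj p hp q hq e
        · rw [hx' p hp, hxj] at e; simpa using c p hp e.symm
        · rw [hx' q hq, hxj] at e; simpa using c q hq e
        · rfl
      · obtain ⟨d1, d2, d3⟩ := hx.val p l' q hp e
        exact ⟨by omega, by omega, by rw [hx' p d1, hx' q d2, d3]⟩
    exact ih _ _ _ _ _ _ _ _ x' ((h5.put hy n.lt_succ_self n.lt_succ_self
      (by rw [hy.good.zero, inv_one, one_smul])).add hy (by omega) n.lt_succ_self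
        (by rw [hx' i a, hxj])) (by simp) (by simp) h4
  | full =>
    intro m i l js cs R n tab x hx h1 h2 h
    simp only [chk, Bool.or_eq_true, Bool.and_eq_true, Nat.beq_eq, List.isEmpty_iff] at h
    rcases h with ⟨⟨rfl, rfl⟩, rfl⟩ | ⟨rfl, rfl⟩
    · obtain ⟨k, hk, e⟩ := exists_eq_of_inj (hy.card ▸ hx.inj) ((ev l)⁻¹ • x i)
      simpa using (h1 rfl).2 k (hy.card ▸ hk) e.symm
    · simpa using h2 rfl
  | hole k =>
    intro m i l js cs R n tab x hx h1 h2 h
    simp only [chk, Bool.and_eq_true, Nat.blt_eq, beq_iff_eq] at h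
    rw [List.getD_eq_getElem _ _ h.1] at h
    exact hH _ (h.2 ▸ List.getElem_mem h.1) x hx

/-- A checked state. -/
theorem sound [Finite X] (hy : Hyp P ev x0) {H : List (List (List ℕ) × ℕ × ℕ)}
    (hH : ∀ s ∈ H, ∀ x, Real P ev x0 x s.1 s.2.1 s.2.2 → Goal P ev X) {t : Tr}
    {s : List (List ℕ) × ℕ × ℕ} (h : chk P H t 0 0 0 [] [] s.1 s.2.1 s.2.2 = true) (x : ℕ → X)
    (hx : Real P ev x0 x s.1 s.2.1 s.2.2) : Goal P ev X :=
  chk_sound hy hH t _ _ _ _ _ _ _ _ x hx (by simp) (by simp) h

/-- The table at the start of a search: the letters of `L` fix the first point. -/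
noncomputable def tab0 (P : Par) (L : List ℕ) : ℕ := L.foldr (fun l tab => add P tab 0 l 0) 0

theorem real_start [Finite X] (hy : Hyp P ev x0) (hR : ∀ r ∈ R, evL ev r = 1) {L : List ℕ}
    (hL : ∀ l ∈ L, ev l • x0 = x0) : Real P ev x0 (fun _ => x0) R 1 (tab0 P L) := by
  induction L with
  | nil =>
    have : Nonempty X := ⟨x0⟩
    exact ⟨hR, fun i hi j hj _ => by omega, one_pos, hy.card ▸ Nat.card_pos,
      fun i l j _ h => absurd (show (0 >>> _) % _ = j + 1 from h) (by simp), rfl⟩
  | cons l L ih =>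
    exact (ih fun l' hl' => hL l' (List.mem_cons_of_mem _ hl')).add hy one_pos one_pos
      (by rw [inv_smul_eq_iff, hL l List.mem_cons_self])

end Cfsg.H4.Low2
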