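import Cfsg.Agent.H4.PGV1

/-! The `P(G,V)`-theorem: module lemmas. -/

set_option autoImplicit false
set_option linter.unusedSectionVars false
set_option linter.style.haveILetI false

namespace Cfsg.H4.PG

open Subgroup Cfsg.FT Cfsg.L0 Cfsg.H8 Cfsg.H7.Md
open scoped commutatorElement

variable {Γ V : Type*} [Group Γ] [AddCommGroup V] [DistribMulAction Γ V] [Finite Γ] [Finite V]
  {A K M Y R : Subgroup Γ} {p : ℕ} {a b c g k m r z : Γ} {W : AddSubgroup V} {u : V}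

theorem perf (hK : ⁅K, K⁆ = K) (h : ∀ k ∈ K, k • u - u ∈ fx V K) : u ∈ fx V K := fun k hk =>
  mem_cz_zmultiples.1 ((hK.ge.trans (commutator_le.2 fun a ha b hb => mem_cz_zmultiples.2 (by
    rw [commutatorElement_def, mul_assoc, mul_smul, mul_smul_comm_of (h _ (K.inv_mem hb) _ (K.inv_mem ha))
      (h _ (K.inv_mem ha) _ (K.inv_mem hb)), ← mul_smul]; simp))) hk)

theorem perf' (hK : ⁅K, K⁆ = K) (h : cm W K ≤ fx V K) : K ≤ cz Γ W :=
  le_fx_iff.1 fun _ hu => perf hK fun _ hk => h (sub_mem_cm hk hu)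

theorem cj_le_st (hK : K ≤ st Γ W) (hz : z ∈ st Γ W) : cj z K ≤ st Γ W := cj_le_of_mem hz hK

theorem norm_cz (h : K ≤ st Γ W) : K ≤ 𝒩 (cz Γ W) := h.trans (st_le_normalizer_cz W)

theorem norm_cz_cm (h : K ≤ st Γ W) (h2 : K ≤ 𝒩 A) : K ≤ 𝒩 (cz Γ (cm W A)) := norm_cz (le_st_cm h h2)

theorem axb [Fact p.Prime] (hV : ∀ v : V, p • v = 0) (hK : ⁅K, K⁆ = K) (hKW : K ≤ st Γ W)
    (hc : c ∈ st Γ W) (hp : c ^ p = 1) (hcK : c ∈ 𝒞 K) (h : K ≤ cz Γ (W ⊓ fx V (zpowers c))) :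
    K ≤ cz Γ W := by
  by_contra hn
  obtain ⟨u, hu, h1, h2⟩ := exists_fixed hV (elem_zpowers hp).pgroup (zpowers_le.2 hc)
    (zpowers_le.2 (normalizer_le_st_fx K (cent_le_norm K hcK))) (mt le_fx_iff.1 hn)
  refine h1 (perf hK fun k hk => le_fx_iff.2 h ⟨W.sub_mem (smul_mem (hKW hk) hu) hu, mem_fx_zpowers.2 ?_⟩)
  have := h2 c (mem_zpowers c) k hk
  rw [smul_sub, ← mul_smul] at this
  rw [smul_sub, ← mul_smul, ← mem_cent.1 hcK k hk, sub_eq_sub_iff_sub_eq_sub, this]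

theorem card_modEq {q : ℕ} (hq : q.Prime) (hR : IsPGroup q R) (hW : R ≤ st Γ W) :
    Nat.card W ≡ Nat.card ↥(fx V R ⊓ W) [MOD q] := by
  letI : MulAction R W :=
    { smul := fun g w => ⟨(g : Γ) • w, smul_mem (hW g.2) w.2⟩
      one_smul := fun w => Subtype.ext (one_smul Γ (w : V))
      mul_smul := fun g h w => Subtype.ext (mul_smul (g : Γ) (h : Γ) (w : V)) }
  have := Fact.mk hq
  convert hR.card_modEq_card_fixedPoints W using 1
  exact Nat.card_congr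
    ⟨fun w => ⟨⟨w, w.2.2⟩, fun g => Subtype.ext (w.2.1 g g.2)⟩,
      fun w => ⟨w.1, fun g hg => congrArg Subtype.val (w.2 ⟨g, hg⟩), w.1.2⟩, fun _ => rfl, fun _ => rfl⟩

theorem ri_mul (U W : AddSubgroup V) : U.relIndex W * Nat.card ↥(U ⊓ W) = Nat.card W := by
  rw [← AddSubgroup.inf_relIndex_right]; exact relIndex_mul_card inf_le_right

theorem ri_ne (U W : AddSubgroup V) : U.relIndex W ≠ 0 := AddSubgroup.index_ne_zero_of_finite

theorem off (hb : Bst V A) : (fx V A).relIndex W * ♯(A ⊓ cz Γ W) ≤ ♯A := by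
  have h1 := hb _ (inf_le_left (b := cz Γ W))
  have h2 := card_le_of_le' (sup_le (fx_anti inf_le_left) (le_fx_iff.2 inf_le_right) :
    fx V A ⊔ W ≤ fx V (A ⊓ cz Γ W))
  have h3 := card_sup_mul_inf (fx V A) W
  rw [← ri_mul (fx V A) W, ← mul_assoc] at h3
  rw [Nat.eq_of_mul_eq_mul_right Nat.card_pos h3] at h2
  refine Nat.le_of_mul_le_mul_right ?_ (Nat.card_pos (α := fx V A))
  calc _ = ♯(A ⊓ cz Γ W) * (Nat.card (fx V A) * (fx V A).relIndex W) := by ring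
    _ ≤ _ := (Nat.mul_le_mul_left _ h2).trans h1

namespace Mv

theorem d_self (h : Mv p a K) (hz : z ∈ zpowers a) (hk : k ∈ K) : z * k * z⁻¹ ∈ 𝒞₁ ((k * a) ^ p) := by
  have := mem_cent.1 (h.split_z hz hk) _ (conj_mem_cj hk)
  rw [mul_inv_cancel_left, mul_assoc, eq_inv_mul_iff_mul_eq] at this
  exact mem_cent1.2 this

variable (h : Mv p a K) (hKW : K ≤ st Γ W) (ha : a ∈ st Γ W)
include h hKW ha

theorem d_st (hk : k ∈ K) : (k * a) ^ p ∈ st Γ W := pow_mem (mul_mem (hKW hk) ha) p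

theorem odd (hp : p ≠ 2) (hD : ∀ k ∈ K, (k * a) ^ p ∈ cz Γ (cm W (zpowers a))) : K ≤ cz Γ W := by
  have hz : zpowers a ≤ st Γ W := zpowers_le.2 ha
  have key : ∀ z ∈ zpowers a, z ≠ 1 → cm W (L0.cj z K) ≤ fx V K := fun z hz' z1 => by
    obtain ⟨k, hk, hc⟩ := exists_nc h.qs
    have z2 : z ≠ z⁻¹ := fun e => z1 (eq_one_of_pow_coprime
      ((Nat.coprime_primes h.prime Nat.prime_two).2 hp) ((elem_zpowers h.pow).pow hz')
      (by rw [sq]; exact mul_eq_one_iff_eq_inv.2 e))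
    have h1 : z⁻¹ * k * z⁻¹⁻¹ ∈ 𝒞 K := h.mv _ (inv_mem hz') (inv_ne_one.2 z1) (conj_mem_cj hk)
    have h2 : L0.cj z K ≤ 𝒞 (zpowers (k⁻¹ * (z⁻¹ * k * z⁻¹⁻¹))) := cent_symm (zpowers_le.2 (mul_mem
      (cent_symm (h.mv z hz' z1) (inv_mem hk)) (h.mv' (inv_mem hz') hz' z2.symm (conj_mem_cj hk))))
    have h3 : (k * a) ^ p ∈ cz Γ (cm W (zpowers (k⁻¹ * (z⁻¹ * k * z⁻¹⁻¹)))) := by
      have kk : k⁻¹ ∈ 𝒞₁ ((k * a) ^ p) := inv_mem (by simpa using h.d_self (one_mem _) hk)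
      suffices k⁻¹ * (z⁻¹ * k * z⁻¹⁻¹) ∈ rl Γ W (fx V (zpowers ((k * a) ^ p))) from
        fun u hu => (le_rl_iff.1 (zpowers_le.2 this)).2 hu _ (mem_zpowers _)
      refine ⟨?_, fun w hw => ?_⟩
      · exact normalizer_le_st_fx _ (cent_le_norm _
          (by rw [cent_zpowers]; exact mul_mem kk (h.d_self (inv_mem hz') hk)))
      · have e : (k⁻¹ * (z⁻¹ * k * z⁻¹⁻¹)) • w - w = k⁻¹ • (z⁻¹ • k • z • w - k • z • w) + (z • w - w) := by
          simp [smul_sub, mul_smul]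
        rw [e, mem_fx_zpowers, smul_add, hD k hk _ (sub_mem_cm hz' hw), ← mul_smul, ← mem_cent1.1 kk,
          mul_smul, hD k hk _ (sub_mem_cm (inv_mem hz') (smul_mem (hKW hk) (smul_mem (hz hz') hw)))]
    have h4 := le_of_mem (h.qs.cj z) (norm_cz_cm (cj_le_st hKW (hz hz')) (le_norm_of_le_cent h2))
      (h.d_norm hz' hk) (fun e => hc (h.d_nc hz' hk e)) h3
    have h5 := le_fx_iff.1 (cm_le_fx_of_comm (cent_symm h2) (le_fx_iff.2 h4)) (mem_zpowers _)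
    exact le_fx_iff.2 (le_of_mem h.qs (norm_cz_cm hKW (le_norm_of_le_cent (cent_symm (h.mv z hz' z1))))
      (mul_mem (inv_mem (le_norm K hk)) (cent_le_norm K h1))
      (fun e => hc (inv_mem_iff.1 ((mul_mem_cancel_right h1).1 e))) h5)
  have a1 : a ≠ 1 := fun e => h.prime.one_lt.ne (by rw [← h.ord, e, orderOf_one])
  refine perf' h.qs.perfect fun v hv => perf h.qs.perfect fun k hk => ?_
  have h1 : k⁻¹ * (k * a) ^ p ∈ cz Γ (cm W K) := h.split fun z hz' z1 =>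
    le_fx_iff.1 (cm_le_fx_of_comm (h.mv z hz' z1) (key z hz' z1)) (conj_mem_cj hk)
  have h2 : (k * a) ^ p • v = k • v := by
    rw [← mul_inv_cancel_left k ((k * a) ^ p), mul_smul, h1 v hv]
  have h3 := hD k hk _ (sub_mem_cm (mem_zpowers a) (cm_le_of_le_st hKW hv))
  rw [smul_sub, ← mul_smul, ← mem_cent.1 (h.d_comm hk) a (mem_zpowers a), mul_smul, h2,
    sub_eq_sub_iff_sub_eq_sub, ← smul_sub] at h3
  refine key a (mem_zpowers a) a1 ?_
  rw [← h3]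
  have h4 := smul_mem_sm (g := a).2 ((cm W K).sub_mem (smul_mem (le_st_cm_self W K hk) hv) hv)
  rwa [sm_cm, sm_eq_of_mem_st ha] at h4

theorem tvp (hV : ∀ v : V, p • v = 0) (hi : (fx V (zpowers a)).relIndex W ≤ p) (hk : k ∈ K) :
    (k * a) ^ p ∈ cz Γ (cm W (zpowers a)) := by
  obtain ⟨D, hD, mD⟩ := h.exists_diag
  have := Fact.mk h.prime
  have h1 : cm W (zpowers a) ≤ W.map (dl a) := ((le_rl_iff (W := W.map (dl a))).1 (zpowers_le.2 ⟨mem_st_of_finite (by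
    rintro _ ⟨w, hw, rfl⟩
    exact ⟨a • w, smul_mem ha hw, by simp [smul_sub]⟩), fun w hw => ⟨w, hw, rfl⟩⟩)).2
  have h2 := card_eq_map_mul (dl a) W
  rw [← ri_mul (fx V (zpowers a)) W, show W ⊓ (dl a).ker = fx V (zpowers a) ⊓ W from AddSubgroup.ext fun v => by
    simp [mem_fx_zpowers, sub_eq_zero, and_comm, -mem_fx]] at h2
  have h3 := (card_le_of_le' h1).trans ((Nat.eq_of_mul_eq_mul_right Nat.card_pos h2).ge.trans hi)
  have h4 : D ≤ st Γ (cm W (zpowers a)) := le_st_cm (fun d hd => by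
    obtain ⟨k, hk, rfl⟩ := (mD d).1 hd; exact h.d_st hKW ha hk) fun d hd => by
    obtain ⟨k, hk, rfl⟩ := (mD d).1 hd; exact cent_le_norm _ (h.d_comm hk)
  generalize cm W (zpowers a) = U at *
  by_cases U0 : U = ⊥
  · rw [U0, cz_bot]; trivial
  obtain ⟨⟨u, hu⟩, u0⟩ := AddSubgroup.ne_bot_iff_exists_ne_zero.1 U0
  have h5 : AddSubgroup.zmultiples u = U := eq_of_le_card (AddSubgroup.zmultiples_le.2 hu) (by
    rwa [Nat.card_zmultiples, addOrderOf_eq_prime (hV u) fun e => u0 (Subtype.ext e)])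
  have h6 : ∀ d ∈ D, ∀ e ∈ D, ∀ w ∈ U, d • e • w = e • d • w := fun d hd e he w hw => by
    obtain ⟨i, hi⟩ := AddSubgroup.mem_zmultiples_iff.1 (h5.ge (smul_mem (h4 hd) hu))
    obtain ⟨j, hj⟩ := AddSubgroup.mem_zmultiples_iff.1 (h5.ge (smul_mem (h4 he) hu))
    obtain ⟨l, rfl⟩ := AddSubgroup.mem_zmultiples_iff.1 (h5.ge hw)
    simp only [smul_comm _ l, ← hi, ← hj, smul_comm d j, smul_comm e i, smul_comm i j]
  refine (hD.perfect.ge.trans (commutator_le.2 fun d hd e he => mem_cz.2 fun w hw => ?_)) ((mD _).2 ⟨k, hk, rfl⟩)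
  rw [commutatorElement_def, mul_smul, mul_smul, mul_smul, h6 _ (inv_mem hd) _ (inv_mem he) w hw]
  simp

theorem tv2 (h2 : p = 2) (hV : ∀ v : V, p • v = 0) (hi : (fx V (zpowers a)).relIndex W ≤ p) :
    K ≤ cz Γ W := by
  obtain ⟨q, hq, q5, k, hk, hc, j, hj⟩ := exists_big h.qs
  have a1 : a ≠ 1 := fun e => h.prime.one_lt.ne (by rw [← h.ord, e, orderOf_one])
  have h1 : a * k * a⁻¹ ∈ 𝒞 K := h.mv a (mem_zpowers a) a1 (conj_mem_cj hk)
  have h3 := card_modEq hq (isPGroup_zpowers (x := k⁻¹ * (a * k * a⁻¹)) (k := j) (by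
    rw [Commute.mul_pow (mem_cent.1 h1 _ (inv_mem hk)), conj_pow, inv_pow, hj]; simp))
    (zpowers_le.2 (mul_mem (inv_mem (hKW hk)) (mul_mem (mul_mem ha (hKW hk)) (inv_mem ha))))
  have h4 : (fx V (zpowers (k⁻¹ * (a * k * a⁻¹)))).relIndex W ≤ 2 * 2 := by
    refine (AddSubgroup.relIndex_le_of_le_left (H := fx V (zpowers a) ⊓ sm k⁻¹ (fx V (zpowers a)))
      (fun v hv => mem_fx_zpowers.2 ?_) (ri_ne _ _)).trans (AddSubgroup.relIndex_inf_le.trans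
      (Nat.mul_le_mul (h2 ▸ hi) ?_))
    · have e := mem_fx_zpowers.1 (mem_sm.1 hv.2)
      rw [inv_inv] at e
      rw [mul_smul, mul_smul, hv.1 _ (inv_mem (mem_zpowers a)), mul_smul, e, inv_smul_smul]
    · rw [← sm_eq_of_mem_st (inv_mem (hKW hk)), sm, sm, AddSubgroup.relIndex_map_map_of_injective _ _
        (MulAction.injective k⁻¹)]
      exact h2 ▸ hi
  refine le_of_mem h.qs (norm_cz hKW) (mul_mem (inv_mem (le_norm K hk)) (cent_le_norm K h1))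
    (fun e => hc (inv_mem_iff.1 ((mul_mem_cancel_right h1).1 e)))
    (le_fx_iff.1 (AddSubgroup.relIndex_eq_one.1 ?_) (mem_zpowers _))
  generalize fx V (zpowers (k⁻¹ * (a * k * a⁻¹))) = U at *
  rw [← ri_mul U W] at h3
  have h5 : ¬ q ∣ Nat.card ↥(U ⊓ W) := fun e => by
    have := Fact.mk hq
    obtain ⟨x, hx⟩ := exists_prime_addOrderOf_dvd_card' q e
    have := Nat.le_of_dvd two_pos (hx ▸ addOrderOf_dvd_of_nsmul_eq_zero (x := x) (Subtype.ext (h2 ▸ hV x)))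
    omega
  have h6 := Nat.ModEq.cancel_right_of_coprime (hq.coprime_iff_not_dvd.2 h5)
    (h3.trans (by rw [one_mul]) : _ ≡ 1 * _ [MOD q])
  exact h6.eq_of_lt_of_lt (by omega) (by omega)

end Mv

end Cfsg.H4.PG
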