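import Cfsg.Agent.H4.PGV2

/-! The `P(G,V)`-theorem. -/

set_option autoImplicit false
set_option linter.unusedSectionVars false
set_option linter.style.haveILetI false

namespace Cfsg.H4.PG

open Subgroup Cfsg.FT Cfsg.L0 Cfsg.H8 Cfsg.H7.Md
open scoped commutatorElement

variable {Γ V : Type*} [Group Γ] [AddCommGroup V] [DistribMulAction Γ V] [Finite Γ] [Finite V]
  {A K D : Subgroup Γ} {p : ℕ} {a b c g k m x z : Γ} {W : AddSubgroup V} {u : V}

structure Hyp (p : ℕ) (A K : Subgroup Γ) (W : AddSubgroup V) : Prop where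
  prime : p.Prime
  tor : ∀ v : V, p • v = 0
  el : Elem p A
  bst : Bst V A
  qs : QS K
  perm : ∀ a ∈ A, a ∈ 𝒩 K ∨ cj a K ≤ 𝒞 K
  AW : A ≤ st Γ W
  KW : K ≤ st Γ W
  nt : ¬ K ≤ cz Γ W

namespace Hyp

variable (h : Hyp p A K W)
include h

theorem mv (hx : x ∈ A) (hn : x ∉ 𝒩 K) : Mv p x K := by
  have ho := h.el.orderOf_eq h.prime hx fun e => hn (e ▸ one_mem _)
  refine ⟨h.prime, ho, fun z hz z1 => (h.perm z (zpowers_le.2 hx hz)).resolve_left fun e => hn ?_, h.qs⟩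
  exact zpowers_le.2 e ((eq_zpowers_of_prime (by rw [card_zpow, ho]; exact h.prime) hz z1).ge
    (mem_zpowers x))

theorem cent (hc : c ∈ A) (h1 : c ∈ cz Γ W) : c ∈ 𝒞 K := by
  refine by_contra fun e => h.nt (le_of_mem h.qs (norm_cz h.KW) ((h.perm c hc).resolve_right fun h2 => ?_) e h1)
  obtain ⟨k, hk, hn⟩ := exists_nc h.qs
  have h3 := h2 (conj_mem_cj hk)
  refine h.nt (le_of_mem h.qs (norm_cz h.KW) (mul_mem (inv_mem (le_norm K hk)) (cent_le_norm K h3))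
    (fun e => hn (inv_mem_iff.1 ((mul_mem_cancel_right h3).1 e))) ?_)
  simpa only [mul_assoc] using mul_mem (conj_mem_of_norm' (norm_cz h.KW hk) h1) (inv_mem h1)

theorem st_fx (hc : c ∈ A) : A ≤ st Γ (W ⊓ fx V (zpowers c)) :=
  le_st_inf h.AW ((h.el.abel.le_norm (zpowers_le.2 hc)).trans (normalizer_le_st_fx _))

theorem fix (hc : c ∈ A) (h1 : c ∈ 𝒞 K) : Hyp p A K (W ⊓ fx V (zpowers c)) :=
  haveI := Fact.mk h.prime
  ⟨h.prime, h.tor, h.el, h.bst, h.qs, h.perm, h.st_fx hc, le_st_inf h.KW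
    ((le_norm_of_le_cent (cent_symm (zpowers_le.2 h1))).trans (normalizer_le_st_fx _)),
    fun e => h.nt (axb h.tor h.qs.perfect h.KW (h.AW hc) (h.el.pow hc) h1 e)⟩

variable (hx : x ∈ A) (hn : x ∉ 𝒩 K) (mD : ∀ d, d ∈ D ↔ ∃ k ∈ K, d = (k * x) ^ p)
include hx hn mD

theorem diag_cent : D ≤ 𝒞 (zpowers x) := fun d hd => by
  obtain ⟨k, hk, rfl⟩ := (mD d).1 hd; exact (h.mv hx hn).d_comm hk

theorem diag_st : D ≤ st Γ W := fun d hd => by
  obtain ⟨k, hk, rfl⟩ := (mD d).1 hd; exact (h.mv hx hn).d_st h.KW (h.AW hx) hk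

theorem diag_norm (hb : b ∈ A) (hz : z ∈ zpowers x) (h1 : b * z ∈ 𝒩 K) : b ∈ 𝒩 D :=
  mem_normalizer_of_forall fun d hd => by
    obtain ⟨k, hk, rfl⟩ := (mD d).1 hd
    refine (mD _).2 ⟨_, conj_mem_of_norm h1 hk, ?_⟩
    rw [Mv.d_conj (mem_cent1.2 (h.el.abel.comm hb hx)), ← (h.mv hx hn).d_z (inv_mem hz)
      (conj_mem_of_norm h1 hk), h.el.abel.comm hb (zpowers_le.2 hx hz)]
    congr 2; group

theorem diag_mv (hb : b ∈ A) (h1 : ∀ z ∈ zpowers x, b * z ∉ 𝒩 K) : cj b D ≤ 𝒞 D :=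
  cj_le_iff_forall.2 fun d hd => mem_cent.2 fun e he => by
    obtain ⟨k, hk, rfl⟩ := (mD d).1 hd
    obtain ⟨m, hm, rfl⟩ := (mD e).1 he
    refine mem_cent1.1 ((h.mv hx hn).mem fun z hz => mem_cent1_comm.1 ?_)
    rw [Mv.d_conj (mem_cent1.2 (h.el.abel.comm hb hx))]
    refine (h.mv hx hn).mem fun y hy => ?_
    have h2 := mul_mem (inv_mem hz) hy
    have h3 := mem_cent.1 ((h.perm _ (mul_mem hb (zpowers_le.2 hx h2))).resolve_left (h1 _ h2)
      (conj_mem_cj hk)) m hm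
    rw [h.el.abel.comm hb (zpowers_le.2 hx h2)] at h3
    rw [show y * (b * k * b⁻¹) * y⁻¹ = z * (z⁻¹ * y * b * k * (z⁻¹ * y * b)⁻¹) * z⁻¹ by group,
      mem_cent1_conj]
    exact mem_cent1.2 h3.symm

theorem diag (hD : QS D) : Hyp p A D (W ⊓ fx V (zpowers x)) :=
  haveI := Fact.mk h.prime
  ⟨h.prime, h.tor, h.el, h.bst, hD, fun b hb => or_iff_not_imp_left.2 fun e => h.diag_mv hx hn mD hb
    fun z hz h1 => e (h.diag_norm hx hn mD hb hz h1), h.st_fx hx, le_st_inf (h.diag_st hx hn mD)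
    ((le_norm_of_le_cent (h.diag_cent hx hn mD)).trans (normalizer_le_st_fx _)), fun e => by
    have h1 := axb h.tor hD.perfect (h.diag_st hx hn mD) (h.AW hx) (h.el.pow hx)
      (cent_symm (h.diag_cent hx hn mD) (mem_zpowers x)) e
    obtain ⟨k, hk, hc⟩ := exists_nc h.qs
    refine h.nt (le_of_mem h.qs (norm_cz h.KW) ?_ (fun e => hc ((h.mv hx hn).d_nc (one_mem _) hk ?_))
      (h1 ((mD _).2 ⟨k, hk, rfl⟩)))
    · simpa only [cj_one] using (h.mv hx hn).d_norm (one_mem _) hk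
    · rwa [cj_one]⟩

theorem diag_cz (hD : QS D) (hb : b ∈ A) (h1 : b ∈ 𝒩 K) (h2 : b ∉ 𝒞 K) (h3 : b ∈ cz Γ (cm W A)) :
    D ≤ cz Γ (cm W (zpowers x)) := by
  refine le_of_mem hD (norm_cz_cm (h.diag_st hx hn mD) (le_norm_of_le_cent (h.diag_cent hx hn mD)))
    (h.diag_norm hx hn mD hb (one_mem _) (by rwa [mul_one]))
    (fun e => h2 (cent_of_comm h.qs.perfect h1 fun k hk => ?_)) (cz_anti (cm_mono le_rfl (zpowers_le.2 hx)) h3)
  have h4 := conj_mem_of_norm h1 (K.inv_mem hk)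
  have h5 := mem_cent.1 e _ ((mD _).2 ⟨_, K.inv_mem hk, rfl⟩)
  refine (h.mv hx hn).d_nc (one_mem _) (by simpa only [commutatorElement_def, mul_assoc] using K.mul_mem hk h4) ?_
  rw [show ⁅k, b⁆ = k * (b * k⁻¹ * b⁻¹) by simp only [commutatorElement_def, mul_assoc],
    (h.mv hx hn).d_mul hk h4, ← Mv.d_conj (mem_cent1.2 (h.el.abel.comm hb hx)), ← h5,
    mul_inv_cancel_right, ← (h.mv hx hn).d_mul hk (K.inv_mem hk), mul_inv_cancel, one_mul, h.el.pow hx]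
  exact one_mem _

end Hyp

theorem mem_two (h : a ^ 2 = 1) (hz : z ∈ zpowers a) : z = 1 ∨ z = a := by
  obtain ⟨n, rfl⟩ := hz
  change a ^ n = 1 ∨ a ^ n = a
  rcases Int.even_or_odd' n with ⟨j, rfl | rfl⟩
  · left; rw [zpow_mul, zpow_two, ← sq, h, one_zpow]
  · right; rw [zpow_add_one, zpow_mul, zpow_two, ← sq, h, one_zpow, one_mul]

theorem Hyp.two (h : Hyp 2 A K W) (ha : a ∈ A) (hn : a ∉ 𝒩 K)
    (sub : ∀ W' ≤ W, Hyp 2 A K W' → W' = W) (R1 : ∀ c ∈ A, c ∈ 𝒞 K → c ∈ cz Γ W)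
    (R2 : ∀ b ∈ A, ∃ z ∈ zpowers a, b * z ∈ 𝒩 K)
    (hD : ∀ x ∈ A, x ∉ 𝒩 K → ∀ k ∈ K, (k * x) ^ 2 ∈ cz Γ (cm W (zpowers x))) : False := by
  have hC : A ⊓ cz Γ W ≤ A ⊓ 𝒩 K := fun c hc => ⟨hc.1, cent_le_norm K (h.cent hc.1 hc.2)⟩
  obtain ⟨T, -, dp⟩ := G4.maschke (A := ⊥) h.prime (h.el.mono inf_le_left) hC bot_le bot_le (by simp)
  have a2 := h.el.pow ha
  have h1 : ∀ b ∈ A, cj b K ≤ K ⊔ cj a K := fun b hb => by
    obtain ⟨z, hz, e⟩ := R2 b hb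
    rw [← inv_mul_cancel_left z b, ← h.el.abel.comm hb (zpowers_le.2 ha hz), cj_mul, cj_eq_of_mem_norm e]
    rcases mem_two a2 (inv_mem hz) with e | e <;> rw [e]
    · rw [cj_one]; exact le_sup_left
    · exact le_sup_right
  have hL : K ⊔ cj a K ≤ st Γ W := sup_le h.KW (cj_le_st h.KW (h.AW ha))
  have h2 := sub _ (cm_le_of_le_st hL) ⟨h.prime, h.tor, h.el, h.bst, h.qs, h.perm, le_st_cm h.AW
    fun b hb => mem_norm_of_cj_le (by
      rw [cj_sup, ← cj_mul]; exact sup_le (h1 b hb) (h1 _ (mul_mem hb ha))),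
    le_sup_left.trans (le_st_cm_self _ _), fun e => h.nt (perf' h.qs.perfect
      ((cm_mono le_rfl le_sup_left).trans (le_fx_iff.2 e)))⟩
  have hA : ∀ t : T, a * t ∈ A := fun t => mul_mem ha (dp.le_right t.2).1
  have hN : ∀ t : T, a * t ∉ 𝒩 K := fun t e => hn (((𝒩 K).mul_mem_cancel_right (dp.le_right t.2).2).1 e)
  have sq' : ∀ (t : T) k, (k * (a * t)) ^ 2 = k * (a * t * k * (a * t)⁻¹) := fun t k => by
    rw [sq, inv_eq_of_mul_eq_one_right (sq (a * t : Γ) ▸ h.el.pow (hA t))]; group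
  have h3 := count (G := Multiplicative W) (fun t : T => ((fx V (zpowers (a * t))).addSubgroupOf W).toSubgroup)
    ((fx V A).addSubgroupOf W).toSubgroup (fun t v hv => fx_anti (zpowers_le.2 (hA t)) hv)
    (fun t t' e => ?_) fun t => by_contra fun e => h.nt ((h.mv (hA t) (hN t)).tv2 h.KW (h.AW (hA t)) rfl
      h.tor (Nat.le_of_lt_succ (not_le.1 e)))
  · have h4 := off (W := W) h.bst
    have h5 := Nat.le_of_dvd (Nat.mul_pos (card_pos' _) (card_pos' _)) ((card_dvd (A := A) fun b hb => by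
      obtain ⟨z, hz, e⟩ := R2 b hb
      rw [← mul_inv_cancel_right b z]
      exact mul_mem_sup ⟨mul_mem hb (zpowers_le.2 ha hz), e⟩ (inv_mem hz)).trans
      (card_sup_dvd ((zpowers_le.2 ha).trans (h.el.abel.le_norm (inf_le_left (b := 𝒩 K))))))
    rw [dp.card, card_zpow, (h.mv ha hn).ord] at h5
    change _ < (fx V A).relIndex W at h3
    nlinarith [card_pos' (A ⊓ cz Γ W)]
  obtain ⟨D, hD1, mD⟩ := (h.mv (hA t) (hN t)).exists_diag
  obtain ⟨D', hD1', mD'⟩ := (h.mv (hA t') (hN t')).exists_diag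
  have hb := dp.le_right (T.mul_mem (T.inv_mem t'.2) t.2)
  have h4 : K ≤ D ⊔ D' := (le_of_comm (Y := (D ⊔ D') ⊓ K) h.qs
    (fun k hk => mem_normalizer_of_forall fun y hy => ⟨by
      have := conj_mem_of_norm (le_norm _ (mem_sup_left ((mD _).2 ⟨k, hk, rfl⟩))) hy.1
      rwa [← mul_inv_cancel_left k (_ ^ 2), mul_assoc k, ← mem_cent.1 ((h.mv (hA t) (hN t)).split' hk) y hy.2,
        mul_inv_rev, mul_assoc, mul_assoc, mul_inv_cancel_left, ← mul_assoc] at this,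
      conj_mem_of_norm (le_norm K hk) hy.2⟩) hb.2
    (fun e1 => e (Subtype.ext (inv_mul_eq_one.1 (eq_one_of_mem dp.inf
      ⟨⟨hb.1, R1 _ hb.1 e1⟩, T.mul_mem (T.inv_mem t'.2) t.2⟩)).symm)) fun k hk => ⟨by
      have := mul_mem (mem_sup_left ((mD _).2 ⟨k, hk, rfl⟩) : _ ∈ D ⊔ D')
        (inv_mem (mem_sup_right ((mD' _).2 ⟨_, conj_mem_of_norm hb.2 hk, rfl⟩)))
      rw [sq', sq'] at this
      change _ ∈ D ⊔ D'
      convert this using 1
      rw [commutatorElement_def]; group, by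
      change _ ∈ K
      simpa only [commutatorElement_def, mul_assoc] using
        K.mul_mem hk (conj_mem_of_norm hb.2 (K.inv_mem hk))⟩).trans inf_le_left
  have h5 : cj a K ≤ D ⊔ D' := by
    rw [← cj_eq_of_mem_norm (dp.le_right t.2).2, ← cj_mul]
    refine cj_le_iff_forall.2 fun k hk => (mul_mem_cancel_left (h4 hk)).1 ?_
    rw [← sq']; exact mem_sup_left ((mD _).2 ⟨k, hk, rfl⟩)
  have h6 : ∀ (t : T) D, (∀ d, d ∈ D ↔ ∃ k ∈ K, d = (k * (a * t)) ^ 2) →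
      cm W D ≤ fx V (zpowers (a * t)) ⊓ W := fun t D mD =>
    le_inf (cm_le_fx_of_comm (cent_symm (h.diag_cent (hA t) (hN t) mD)) (le_fx_iff.2 fun d hd => by
      obtain ⟨k, hk, rfl⟩ := (mD d).1 hd; exact hD _ (hA t) (hN t) k hk))
      (cm_le_of_le_st (h.diag_st (hA t) (hN t) mD))
  have h7 := h2.ge.trans (cm_mono le_rfl (sup_le h4 h5))
  rw [cm_sup_right (h.diag_st (hA t) (hN t) mD) (h.diag_st (hA t') (hN t') mD')] at h7
  refine eq_top_iff.2 fun v _ => ?_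
  obtain ⟨y, hy, w, hw, e⟩ := AddSubgroup.mem_sup.1 (sup_le_sup (h6 t D mD) (h6 t' D' mD') (h7 v.toAdd.2))
  exact mem_sup.2 ⟨Multiplicative.ofAdd ⟨y, hy.2⟩, hy.1, Multiplicative.ofAdd ⟨w, hw.2⟩, hw.1, Subtype.ext e⟩

theorem Hyp.norm (h : Hyp p A K W) : A ≤ 𝒩 K := by
  induction hn : ♯A + Nat.card W using Nat.strong_induction_on generalizing A K W with
  | _ n ih =>
  have := Fact.mk h.prime
  refine fun a ha => by_contra fun hn' => ?_
  have sub : ∀ K', ∀ W' ≤ W, Hyp p A K' W' → W' = W ∨ A ≤ 𝒩 K' := fun K' W' h1 h2 =>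
    or_iff_not_imp_left.2 fun e => ih _ (hn ▸ Nat.add_lt_add_left
      (not_le.1 fun h3 => e (eq_of_le_card h1 h3)) _) h2 rfl
  have R1 : ∀ c ∈ A, c ∈ 𝒞 K → c ∈ cz Γ W := fun c hc h1 => le_fx_iff.1
    (((sub _ _ inf_le_left (h.fix hc h1)).resolve_right fun e => hn' (e ha)).ge.trans inf_le_right)
    (mem_zpowers c)
  have R2 : ∀ b ∈ A, ∃ z ∈ zpowers a, b * z ∈ 𝒩 K := fun b hb => by
    obtain ⟨D, hD, mD⟩ := (h.mv ha hn').exists_diag
    have h1 := (sub _ _ inf_le_left (h.diag ha hn' mD hD)).resolve_left fun e => hn' (cent_le_norm K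
      (h.cent ha (le_fx_iff.1 (e.ge.trans inf_le_right) (mem_zpowers a))))
    by_contra! h2
    have := h.diag_mv ha hn' mD hb h2
    rw [cj_eq_of_mem_norm (h1 hb)] at this
    exact hD.comm_ne_bot (comm_eq_bot_iff.2 this)
  have hAA := smul_comm_of_ea (V := V) h.el.abel
  by_cases h1 : ∃ b ∈ A ⊓ cz Γ (cm W A), b ∈ 𝒩 K ∧ b ∉ cz Γ W
  · obtain ⟨b, hb, h1, h2⟩ := h1
    have hD : ∀ x ∈ A, x ∉ 𝒩 K → ∀ k ∈ K, (k * x) ^ p ∈ cz Γ (cm W (zpowers x)) := fun x hx hn k hk => by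
      obtain ⟨D, hD, mD⟩ := (h.mv hx hn).exists_diag
      exact h.diag_cz hx hn mD hD hb.1 h1 (fun e => h2 (R1 b hb.1 e)) hb.2 ((mD _).2 ⟨k, hk, rfl⟩)
    by_cases h2 : p = 2
    · subst h2
      exact h.two ha hn' (fun W' h1 h2 => (sub K W' h1 h2).resolve_right fun e => hn' (e ha)) R1 R2 hD
    · exact h.nt ((h.mv ha hn').odd h.KW (h.AW ha) h2 (hD a ha hn'))
  push Not at h1
  have h2 : A ⊓ cz Γ (cm W A) = A := by_contra fun e => by
    have h3 := ih _ (hn ▸ Nat.add_lt_add_right (card_lt (lt_of_le_of_ne inf_le_left e)) _)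
      (⟨h.prime, h.tor, h.el.mono inf_le_left, fun B hB => tim_ms hAA h.bst W ▸ h.bst B
        (hB.trans inf_le_left), h.qs, fun b hb => h.perm b hb.1, inf_le_left.trans h.AW, h.KW, h.nt⟩ :
        Hyp p _ K W) rfl
    have h4 := le_fx_iff.2 fun b hb => h1 b hb (h3 hb)
    rw [tim_fx hAA h.bst W] at h4
    refine hn' (cent_le_norm K (h.cent ha (le_fx_iff.1 (cm_eq_bot_iff.1 (eq_bot_of_le_cm h.tor
      h.el.pgroup (le_st_cm_self W A) ((cm_mono h4 le_rfl).trans ?_))) ha)))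
    rw [cm_sup_left]; exact sup_le le_rfl (cm_le_of_le_fx le_rfl)
  have h3 := Nat.le_of_dvd (Nat.mul_pos (card_pos' _) (card_pos' _)) ((card_dvd (A := A) fun b hb => by
    obtain ⟨z, hz, e⟩ := R2 b hb
    have := mul_mem hb (zpowers_le.2 ha hz)
    rw [← mul_inv_cancel_right b z]
    exact mul_mem_sup ⟨this, h1 _ (h2.ge this) e⟩ (inv_mem hz)).trans
    (card_sup_dvd ((zpowers_le.2 ha).trans (h.el.abel.le_norm (inf_le_left (b := cz Γ W))))))
  rw [card_zpow, (h.mv ha hn').ord, mul_comm] at h3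
  have h4 := (AddSubgroup.relIndex_le_of_le_left (fx_anti (zpowers_le.2 ha)) (ri_ne _ W)).trans
    (Nat.le_of_mul_le_mul_right ((off h.bst).trans h3) (card_pos' _))
  by_cases h5 : p = 2
  · exact h.nt ((h.mv ha hn').tv2 h.KW (h.AW ha) h5 h.tor h4)
  · exact h.nt ((h.mv ha hn').odd h.KW (h.AW ha) h5 fun k hk =>
      (h.mv ha hn').tvp h.KW (h.AW ha) h.tor h4 hk)

end Cfsg.H4.PG
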