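import Cfsg.Agent.FT.PGen4b
import Cfsg.Agent.FT.PGen2

/-! `p`-groups whose elements of order `p` are central, and `p`-groups of rank two. -/

set_option autoImplicit false
set_option linter.unusedSectionVars false
set_option linter.style.haveILetI false

namespace Cfsg.RK2

open Subgroup Cfsg.L0 Cfsg.H8 Cfsg.FT Cfsg.FT.G4
open scoped commutatorElement

variable {X : Type} [Group X] [Finite X]
  {A B C D E F G H K L M N P R S T U V W Y Z : Subgroup X} {p q k n : ℕ} {x y g : X}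

theorem pc1 (hp : p.Prime) (ho : Odd p) (hR : IsPGroup p R) (h : ∀ g ∈ R, g ^ p = 1 → g ∈ 𝒞 R)
    (hy : y ∈ R) (hyp : y ^ p ∈ 𝒞 R) (hg : g ∈ R) : ⁅y, g⁆ ^ p = 1 := by
  induction R using WellFoundedLT.induction generalizing y g with
  | ind R ih =>
  by_cases hM : R ≤ ⁅R, R⁆ ⊔ zpowers y
  · have h1 := (nil_of_pgroup hp hR).le_of_le_der_sup (zpowers_le.2 hy) hM
    rw [commutatorElement_eq_one_iff_mul_comm.2 ((cyc_zpowers y).abel.comm (mem_zpowers y) (h1 hg)),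
      one_pow]
  have h1 : ⁅R, R⁆ ⊔ zpowers y ≤ R := sup_le (der_le R) (zpowers_le.2 hy)
  have h2 := nrm_of_der_le le_sup_left h1
  have h3 : y ∈ ⁅R, R⁆ ⊔ zpowers y := mem_sup_right (mem_zpowers y)
  have h4 := inv_mem (h2.conj_mem hg h3)
  have h5 : (g * y * g⁻¹)⁻¹ ^ p = (y ^ p)⁻¹ := by
    rw [inv_pow, conj_pow, mem_cent.1 hyp g hg, mul_inv_cancel_right]
  have h6 := ih _ (lt_of_le_of_ne h1 fun e => hM e.ge) (hR.to_le h1)
    (fun u hu hup => cent_anti h1 (h u (h1 hu) hup)) h4 (h5 ▸ cent_anti h1 (inv_mem hyp)) h3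
  have h7 := h _ (der_le R (commutator_mem_commutator (h1 h4) hy)) h6
  have h8 := mul_pow_of_comm hp ho (mem_cent.1 h7 y hy).symm (mem_cent.1 h7 _ (h1 h4)).symm h6
  rw [h5, mul_inv_cancel] at h8
  rw [← h8, commutatorElement_def]; group

/-- `E` is the set of elements of order dividing `p` in `R`, and it is central -/
structure PC (p : ℕ) (R E : Subgroup X) : Prop where
  mem : ∀ g, g ∈ E ↔ g ∈ R ∧ g ^ p = 1
  cent : E ≤ 𝒞 R

theorem PC.le (h : PC p R E) : E ≤ R := fun g hg => ((h.mem g).1 hg).1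

theorem PC.elem (h : PC p R E) : Elem p E :=
  ⟨h.cent.trans (cent_anti h.le), fun g hg => ((h.mem g).1 hg).2⟩

theorem PC.Om_eq (h : PC p R E) : Om p R = E :=
  le_antisymm (Om_le_iff.2 fun g hg hp => (h.mem g).2 ⟨hg, hp⟩) (h.elem.le_Om h.le)

theorem PC.norm (h : PC p R E) : 𝒩 R ≤ 𝒩 E := h.Om_eq ▸ norm_le_norm_Om p R

theorem PC.inf (h : PC p R E) (hS : S ≤ R) : PC p S (E ⊓ S) :=
  ⟨fun g => ⟨fun hg => ⟨hg.2, ((h.mem g).1 hg.1).2⟩, fun hg => ⟨(h.mem g).2 ⟨hS hg.1, hg.2⟩, hg.1⟩⟩,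
    inf_le_left.trans (h.cent.trans (cent_anti hS))⟩

theorem PC.cyc (h : PC p R E) (hp : p.Prime) (ho : Odd p) (hR : IsPGroup p R) (hc : ♯E ≤ p) :
    Cyc R := by
  refine cyc_of_rk hp ho hR ?_
  by_contra h2
  obtain ⟨F, hF⟩ := exists_el (k := 2) hp (not_le.1 h2)
  have := card_le (h.Om_eq ▸ hF.elem.le_Om hF.le)
  rw [hF.card] at this
  exact (this.trans hc).not_gt (lt_self_pow₀ hp.one_lt (by omega))

/-- the second layer -/
structure W2 (p : ℕ) (R E W : Subgroup X) : Prop where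
  mem : ∀ g, g ∈ W ↔ g ∈ R ∧ g ^ p ∈ E
  comm : ⁅W, R⁆ ≤ E
  hom : ∀ u ∈ W, ∀ v ∈ W, (u * v) ^ p = u ^ p * v ^ p

theorem PC.exists_W2 (h : PC p R E) (hp : p.Prime) (ho : Odd p) (hR : IsPGroup p R) :
    ∃ W, W2 p R E W := by
  have k1 : ∀ u ∈ R, u ^ p ∈ E → ∀ g ∈ R, ⁅u, g⁆ ∈ E := fun u hu hup g hg =>
    (h.mem _).2 ⟨der_le R (commutator_mem_commutator hu hg),
      pc1 hp ho hR (fun g hg hp => h.cent ((h.mem g).2 ⟨hg, hp⟩)) hu (h.cent hup) hg⟩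
  have k2 : ∀ u ∈ R, ∀ v ∈ R, v ^ p ∈ E → (u * v) ^ p = u ^ p * v ^ p := fun u hu v hv hvp => by
    have := k1 v hv hvp u hu
    exact mul_pow_of_comm hp ho (mem_cent.1 (h.cent this) u hu).symm
      (mem_cent.1 (h.cent this) v hv).symm (h.elem.pow this)
  refine ⟨⟨⟨⟨{g | g ∈ R ∧ g ^ p ∈ E}, fun {u v} hu hv => ⟨mul_mem hu.1 hv.1, ?_⟩⟩,
    ⟨one_mem _, by rw [one_pow]; exact one_mem _⟩⟩, fun {u} hu => ⟨inv_mem hu.1, ?_⟩⟩,
    fun g => Iff.rfl, commutator_le.2 fun u hu g hg => k1 u hu.1 hu.2 g hg,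
    fun u hu v hv => k2 u hu.1 v hv.1 hv.2⟩
  · rw [k2 u hu.1 v hv.1 hv.2]; exact mul_mem hu.2 hv.2
  · rw [inv_pow]; exact inv_mem hu.2

theorem W2.le (h : W2 p R E W) : W ≤ R := fun g hg => ((h.mem g).1 hg).1

theorem W2.ge (h : W2 p R E W) (h0 : PC p R E) : E ≤ W := fun g hg =>
  (h.mem g).2 ⟨h0.le hg, pow_mem hg p⟩

theorem W2.norm (h : W2 p R E W) (h0 : PC p R E) : 𝒩 R ≤ 𝒩 W := fun n hn =>
  mem_norm_of_cj_le (by
    rintro _ ⟨g, hg, rfl⟩
    obtain ⟨h1, h2⟩ := (h.mem g).1 hg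
    refine (h.mem _).2 ⟨conj_mem_of_norm hn h1, ?_⟩
    change (n * g * n⁻¹) ^ p ∈ E
    rw [conj_pow]; exact conj_mem_of_norm (h0.norm hn) h2)

theorem W2.mho_le (h : W2 p R E W) : Mho p W ≤ E := Mho_le_iff.2 fun g hg => ((h.mem g).1 hg).2

theorem W2.mem_mho (h : W2 p R E W) : y ∈ Mho p W ↔ ∃ u ∈ W, u ^ p = y := (pow_hom h.hom).2.1 y

theorem W2.ri (h : W2 p R E W) (h0 : PC p R E) : E.relIndex W = ♯(Mho p W) := by
  have h1 := (pow_hom h.hom).2.2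
  rw [(h0.inf h.le).Om_eq, inf_eq_left.2 (h.ge h0), ← card_mul_ri (h.ge h0)] at h1
  exact (Nat.eq_of_mul_eq_mul_left (card_pos' E) h1).symm

theorem W2.down (h : W2 p R E W) {Q : Type} [Group Q] [Finite Q] {f : N →* Q} (hk : up f ⊥ = E)
    (hR : R ≤ N) : PC p (down f R) (down f W) := by
  refine ⟨fun y => ⟨?_, ?_⟩, (down_le_cent_iff' (h.le.trans hR) hR).2 (hk ▸ h.comm)⟩
  · rintro ⟨g, hg, rfl⟩
    obtain ⟨h1, h2⟩ := (h.mem g).1 hg
    rw [← hk] at h2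
    exact ⟨mem_down_of_mem h1, by rw [← map_pow]; exact mem_bot.1 (coe_mem_up.1 h2)⟩
  · rintro ⟨⟨g, hg, rfl⟩, h2⟩
    refine mem_down_of_mem ((h.mem g).2 ⟨hg, hk ▸ ?_⟩)
    rw [← map_pow] at h2
    exact coe_mem_up.2 (mem_bot.2 h2)

theorem W2.abel (h : W2 p R E W) (h0 : PC p R E) (hp : p.Prime) (ho : Odd p) (hR : IsPGroup p R)
    (hE : ♯E ≤ p ^ 2) (hM : Mho p W ≠ E) : Abel R := by
  obtain ⟨Q, _, _, f, -, hk⟩ := exists_quo (nrm_norm E)
  have hN := (le_norm R).trans h0.norm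
  have h1 : ♯(Mho p W) ∣ p ^ 1 :=
    card_dvd_of_lt hp h0.elem.pgroup (lt_of_le_of_ne h.mho_le hM) hE
  have h2 := (h.down hk hN).cyc hp ho (isPGroup_down f hR) (by
    rw [card_down f (h.le.trans hN), hk, h.ri h0]
    exact Nat.le_of_dvd hp.pos (h1.trans (pow_one p).dvd))
  exact CycMod.abel (hk ▸ (cyc_down_iff hN).1 h2) h0.cent h0.le

theorem PC.fix (hp : p.Prime) (ho : Odd p) (h : PC p R E) (hR : IsPGroup p R) (hE : ♯E ≤ p ^ 2)
    (hA : ¬ p ∣ ♯A) (hRA : ⁅R, A⁆ = R) : R ⊓ 𝒞 A = ⊥ := by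
  induction hn : ♯R using Nat.strong_induction_on generalizing X with | _ n ih => ?_
  subst hn
  have nA : A ≤ 𝒩 R := hRA ▸ right_le_norm_comm R A
  by_contra hne
  have ha : ¬ Abel R := fun ha => hne (hRA ▸ ha.comm_inf_cent nA (cop_of_pgroup hp hR hA))
  obtain ⟨x, hx, hxo⟩ := exists_orderOf_eq hp (dvd_card_of_pgroup hp hR.to_inf_left hne)
  have hx1 : x ≠ 1 := by rintro rfl; exact hp.ne_one (hxo.symm.trans orderOf_one)
  have hxE : x ∈ E := (h.mem x).2 ⟨hx.1, hxo ▸ pow_orderOf_eq_one x⟩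
  obtain ⟨W, hW⟩ := h.exists_W2 hp ho hR
  have hM : Mho p W = E := by_contra fun e => ha (hW.abel h hp ho hR hE e)
  obtain ⟨u, hu, rfl⟩ := hW.mem_mho.1 (hM ▸ hxE)
  obtain ⟨Q, _, _, f, -, hk⟩ := exists_quo (nrm_norm E)
  have hN := (le_norm R).trans h.norm
  have hAN := nA.trans h.norm
  have h1 := ih _ (card_down_lt hN (by rw [hk, inf_eq_left.2 h.le]; exact ne_bot_of_mem hxE hx1))
    (hW.down hk hN) (isPGroup_down f hR) (by rwa [card_down f (hW.le.trans hN), hk, hW.ri h, hM])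
    (fun hd => hA (hd.trans (card_down_dvd f A))) (by rw [← down_commutator f hN hAN, hRA]) rfl
  have h2 : down f (zpowers u) = ⊥ := eq_bot_of_le h1 (le_inf (down_mono f (zpowers_le.2 (hW.le hu)))
    ((down_le_cent_iff (zpowers_le.2 (hN (hW.le hu))) hAN).2 (hk.ge.trans' (commutator_le.2 fun a ha v hv => by
      have hv' := zpowers_le.2 hu hv
      have h3 := conj_mem_of_norm (hW.norm h (nA ha)) hv'
      have h4 : v ^ p ∈ 𝒞 A := by
        obtain ⟨i, rfl⟩ := hv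
        rw [← zpow_natCast, ← zpow_mul, mul_comm, zpow_mul, zpow_natCast]
        exact Subgroup.zpow_mem _ hx.2 i
      refine (h.mem _).2 ⟨mul_mem (hW.le h3) (inv_mem (hW.le hv')), ?_⟩
      rw [commutatorElement_def, hW.hom _ h3 _ (inv_mem hv'), conj_pow, mem_cent.1 h4 a ha, inv_pow]
      group))))
  rw [down_eq_bot_iff (zpowers_le.2 (hN (hW.le hu))), hk, zpowers_le] at h2
  exact hx1 (h.elem.pow h2)

theorem comm_le_of_ri (hp : p.Prime) (hP : IsPGroup p P) (hU : U ⊴ P) (hV : V ⊴ P)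
    (h : U.relIndex V ≤ p) : ⁅V, P⁆ ≤ U := by
  obtain ⟨Q, _, _, f, -, hk⟩ := exists_quo hU
  exact hk ▸ (down_le_cent_iff' hV.le le_rfl).1 (le_cent_of_card_le hp (isPGroup_down f hP)
    (hV.down f) (by rwa [card_down f hV.le, hk]))

theorem comm2_le_of_ri (hp : p.Prime) (hP : IsPGroup p P) (hU : U ⊴ P) (hV : V ⊴ P)
    (h : U.relIndex V ≤ p ^ 2) : ⁅⁅V, P⁆, P⁆ ≤ U := by
  obtain ⟨Q, _, _, f, -, hk⟩ := exists_quo hU
  have h1 := hV.comm (Nrm.refl P)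
  refine hk ▸ (down_le_cent_iff' h1.le le_rfl).1 (le_cent_of_card_le hp (isPGroup_down f hP)
    (h1.down f) ?_)
  rw [down_commutator f hV.le le_rfl]
  simpa using card_comm_le (n := 1) hp (isPGroup_down f hP) (hV.down f)
    (by rwa [card_down f hV.le, hk])

/-- no quotient `C_p ≀ C_p` -/
theorem nw (hp : p.Prime) (ho : Odd p) (hP : IsPGroup p P) (hE : E ⊴ P) (cE : ♯E = p ^ 2)
    (hB : PC p (P ⊓ 𝒞 E) E) (hD : D ≤ P) (hi : D.relIndex P = p) : ⁅⁅D, P⁆, P⁆ ≤ phi p D := by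
  haveI := gen2
  haveI := Fact.mk hp
  induction hn : ♯P using Nat.strong_induction_on generalizing X with | _ n ih => ?_
  subst hn
  have nD := nrm_of_ri hp hP hD hi
  have nF : phi p D ⊴ P := nD.char (phi_le D) (normalizer_le_normalizer_phi D)
  have key : ∀ Y, Y ⊴ P → ¬ Y ≤ D → ⁅⁅D, Y⁆, Y⁆ ≤ phi p D → ⁅⁅D, P⁆, P⁆ ≤ phi p D := by
    intro Y hY h1 h2
    have e : D ⊔ Y = P := sup_eq_of_ri_prime hD hY.le (hi ▸ hp) h1
    have h3 := nF.sup (nD.comm hY)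
    have h4 : ⁅D, P⁆ ≤ phi p D ⊔ ⁅D, Y⁆ := by
      conv_lhs => rw [← e]
      exact H7.commutator_sup_le (hD.trans h3.norm) (hY.le.trans h3.norm)
        ((commutator_le_phi D).trans le_sup_left) le_sup_right
    refine (comm_mono h4 le_rfl).trans (H7.sup_commutator_le (nF.le.trans nF.norm)
      ((nD.comm hY).le.trans nF.norm) (nF.comm_le le_rfl) ?_)
    conv_lhs => rw [← e]
    exact H7.commutator_sup_le (hD.trans nF.norm) (hY.le.trans nF.norm)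
      ((comm_mono (nD.comm_le hY.le) le_rfl).trans (commutator_le_phi D)) h2
  have nB := hE.cent
  have hBp : IsPGroup p ↥(P ⊓ 𝒞 E) := hP.to_inf_left
  obtain ⟨W, hW⟩ := hB.exists_W2 hp ho hBp
  have nW : W ⊴ P := nB.char hW.le (hW.norm hB)
  by_cases hM : Mho p W = E
  swap
  · have ha := hW.abel hB hp ho hBp cE.le hM
    by_cases h1 : P ⊓ 𝒞 E ≤ D
    swap
    · exact key _ nB h1 ((comm_mono (comm_le_right (hD.trans nB.norm)) le_rfl).trans
        ((abel_iff_der.1 ha).le.trans bot_le))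
    have h2 : P ⊓ 𝒞 E = D := by
      have h3 := ri_cent_dvd hp hP hE.norm hB.elem cE.le
      rw [← inf_relIndex_left] at h3
      have h4 := ri_mul h1 hD
      rw [hi] at h4
      refine le_antisymm h1 (relIndex_eq_one.1 ?_)
      exact Nat.dvd_one.1 (Nat.dvd_of_mul_dvd_mul_right hp.pos (by rwa [h4, one_mul]))
    rw [h2] at hB ha
    refine comm2_le_of_ri hp hP nF nD ?_
    have h3 := (pow_hom (p := p) (H := D) fun u hu v hv => Commute.mul_pow (ha.comm hu hv) p).2.2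
    have h4 : Mho p D ≤ phi p D := Mho_le_iff.2 fun u hu => pow_mem_phi hu
    rw [hB.Om_eq, cE, ← card_mul_ri (h4.trans (phi_le D)), mul_comm] at h3
    rw [Nat.eq_of_mul_eq_mul_left (card_pos' _) h3]
    exact Nat.le_of_dvd (relIndex_pos _ _) (ri_dvd_of_le_left h4 D)
  by_cases hWD : W ≤ D
  · obtain ⟨Q, _, _, f, -, hk⟩ := exists_quo hE
    have h1 : E ≤ phi p D := hM ▸ Mho_le_iff.2 fun u hu => pow_mem_phi (hWD hu)
    have h2 : down f P ⊓ 𝒞 (down f W) = down f (P ⊓ 𝒞 E) := by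
      refine le_antisymm ?_ (le_inf (down_mono f inf_le_left)
        ((down_le_cent_iff inf_le_left nW.le).2 (hk ▸ hW.comm)))
      rintro _ ⟨⟨g, hg, rfl⟩, h3⟩
      refine mem_down_of_mem ⟨hg, mem_cent.2 fun e he => ?_⟩
      obtain ⟨u, hu, rfl⟩ := hW.mem_mho.1 (hM ▸ he)
      have h4 := (mem_up_cent g.2 nW.le).1 (coe_mem_up.2 h3) u⁻¹ (inv_mem hu)
      rw [hk] at h4
      have h5 := hW.hom u hu _ (hW.ge hB h4)
      rw [hB.elem.pow h4, mul_one, show u * ⁅u⁻¹, (g : X)⁆ = g * u * (g : X)⁻¹ by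
        rw [commutatorElement_def]; group, conj_pow, mul_inv_eq_iff_eq_mul] at h5
      exact h5.symm
    have h3 := ih _ (card_down_lt le_rfl (by
        rw [hk, inf_eq_left.2 hE.le]
        exact ne_bot_of_dvd hp (cE ▸ dvd_pow_self p two_ne_zero))) (isPGroup_down f hP) (nW.down f)
      (by rw [card_down f nW.le, hk, hW.ri hB, hM, cE]) (h2 ▸ hW.down hk inf_le_left)
      (down_mono f hD) (by rw [ri_down hD le_rfl (hk.le.trans (h1.trans (phi_le D))), hi]) rfl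
    refine comm_le_of_down (nD.comm (Nrm.refl P)).le le_rfl nF.le (hk.le.trans h1) ?_
    rw [down_commutator f hD le_rfl]
    refine h3.trans (phi_le_iff.2 ⟨?_, ?_⟩)
    · rw [← down_commutator f hD hD]; exact down_mono f (commutator_le_phi D)
    · rintro _ ⟨u, hu, rfl⟩
      rw [← map_pow]; exact mem_down_of_mem (pow_mem_phi hu)
  refine key W nW hWD ?_
  by_cases hc : P ≤ 𝒞 E
  · have h1 : ⁅D, W⁆ ≤ E := by
      rw [commutator_comm]; exact (comm_mono le_rfl (le_inf hD (hD.trans hc))).trans hW.comm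
    exact (comm_mono h1 le_rfl).trans
      ((comm_eq_bot_iff.2 (hW.le.trans inf_le_right)).le.trans bot_le)
  have nL := nW.inf nD
  have l1 : E ≤ W ⊓ D := le_inf (hW.ge hB) (hM ▸ Mho_le_iff.2 fun u hu =>
    pow_mem_of_relIndex_eq nD.norm hi (nW.le hu))
  have l2 : (W ⊓ D).relIndex W = p := by
    rw [inf_relIndex_left]
    exact ((Nat.dvd_prime hp).1 (hi ▸ FT.ri_dvd_of_le nW.le nD.norm)).resolve_left
      fun e => hWD (relIndex_eq_one.1 e)
  have l3 : E.relIndex (W ⊓ D) = p := by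
    have := ri_mul l1 (inf_le_left : W ⊓ D ≤ W)
    rw [l2, hW.ri hB, hM, cE, pow_two] at this
    exact Nat.eq_of_mul_eq_mul_right hp.pos this
  have l4 : Abel (W ⊓ D) := abel_of_ri hp
    (le_inf l1 (hB.cent.trans (cent_anti (inf_le_left.trans hW.le)))) l3.dvd
  have l5 : ⁅W ⊓ D, W⁆ ≤ 𝒞 P := three_subgroups_cent
    ((comm_le_of_ri hp hP nL nW l2.le).trans l4) (by
      rw [commutator_comm]
      exact (comm_le_of_ri hp hP hE nL l3.le).trans (hB.cent.trans (cent_anti hW.le)))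
  have l6 : ♯(E ⊓ 𝒞 P) ∣ p ^ 1 := card_dvd_of_lt hp hB.elem.pgroup
    (lt_of_le_of_ne inf_le_left fun e => hc (cent_symm (inf_eq_left.1 e))) cE.le
  have l7 : E ⊓ phi p D ⊓ 𝒞 P ≠ ⊥ := by
    refine inf_cent_ne_bot_of_pgroup hp hP hB.elem.pgroup.to_inf_left (hE.inf nF).norm ?_
    obtain ⟨l, hl, hlE⟩ := SetLike.exists_of_lt (lt_of_le_of_ne l1 fun e => hp.ne_one (by
      rw [← l3, ← e, relIndex_self]))
    exact ne_bot_of_mem (mem_inf.2 ⟨((hW.mem l).1 hl.1).2, pow_mem_phi hl.2⟩)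
      fun e => hlE ((hB.mem l).2 ⟨hW.le hl.1, e⟩)
  have l8 : E ⊓ 𝒞 P ≤ phi p D := by
    have h1 : E ⊓ phi p D ⊓ 𝒞 P ≤ E ⊓ 𝒞 P := inf_le_inf_right _ inf_le_left
    rw [pow_one] at l6
    have h2 := ((Nat.dvd_prime hp).1 l6).resolve_left fun e =>
      l7 (eq_bot_of_le (card_eq_one_iff.1 e) h1)
    exact ((eq_bot_or_eq_of_prime (h2 ▸ hp) h1).resolve_left l7).ge.trans
      (inf_le_left.trans inf_le_right)
  refine (comm_mono (le_inf (comm_le_right (hD.trans nW.norm)) (nD.comm_le nW.le)) le_rfl).trans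
    (le_trans (le_inf ((comm_mono inf_le_left hW.le).trans hW.comm) l5) l8)

theorem pc_of_rk (hp : p.Prime) (hr : rk p P ≤ 2) (hE : El p 2 E P) : PC p (P ⊓ 𝒞 E) E :=
  ⟨fun _ => ⟨fun hg => ⟨⟨hE.le hg, hE.abel hg⟩, hE.elem.pow hg⟩,
    fun hg => (hE.elMax hp hr).mem_of_cent hg.1.1 hg.2 hg.1.2⟩, cent_symm inf_le_right⟩

theorem nw_rk (hp : p.Prime) (ho : Odd p) (hP : IsPGroup p P) (hr : rk p P ≤ 2) (hD : D ≤ P)
    (hi : D.relIndex P = p) : ⁅⁅D, P⁆, P⁆ ≤ phi p D := by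
  by_cases hc : Cyc P
  · exact (comm_mono ((comm_mono hD le_rfl).trans (der_le P)) le_rfl).trans
      ((abel_iff_der.1 hc.abel).le.trans bot_le)
  obtain ⟨E, e1, e2⟩ := t4_5a hp ho hP hc
  exact nw hp ho hP e2 e1.card (pc_of_rk hp hr e1) hD hi

end Cfsg.RK2
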