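import Cfsg.Agent.H4.RK1

/-! `p`-groups of rank two with an operator group fixing a central element. -/

set_option autoImplicit false
set_option linter.unusedSectionVars false
set_option linter.style.haveILetI false

namespace Cfsg.RK2

open Subgroup Cfsg.L0 Cfsg.H8 Cfsg.FT Cfsg.FT.G4
open scoped commutatorElement

theorem abs3 {M : Type*} [CommGroup M] [Finite M] (σ α : M →* M) (M1 M0 : Subgroup M)
    (h3 : ∀ b, σ (σ (σ b)) = b) (hα : ∀ b, α (σ b) = σ (σ (α b)))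
    (h1 : ∀ b ∈ M1, α b = b⁻¹) (h0 : ∀ b ∈ M0, α b = b) (hs : ∀ b, ∃ u ∈ M1, ∃ v ∈ M0, u * v = b)
    (ho : ∀ b : M, b * b = 1 → b = 1) (hr : ∀ c ∈ M0, ∃ t, c = t * (σ t)⁻¹)
    (hf : ∀ b, σ b = b → α b = b) :
    (∀ b, σ b = b → b ^ 3 = 1) ∧ Nat.card M = Nat.card M1 ^ 2 := by
  have n1 : ∀ b, σ (b * σ b * σ (σ b)) = b * σ b * σ (σ b) := fun b => by
    rw [map_mul, map_mul, h3, mul_comm, mul_assoc]
  have n2 : ∀ b ∈ M1, b * σ b * σ (σ b) = 1 := fun b hb => by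
    have := hf _ (n1 b)
    rw [map_mul, map_mul, hα, hα, hα, h3, h1 b hb] at this
    simp only [map_inv] at this
    refine ho _ ?_
    nth_rw 1 [← this]
    apply Additive.ofMul.injective
    simp only [ofMul_mul, ofMul_inv, ofMul_one]; abel
  have n3 : ∀ b ∈ M0, b * σ b * σ (σ b) = 1 := fun b hb => by
    obtain ⟨t, rfl⟩ := hr b hb
    simp only [map_mul, map_inv, h3]
    apply Additive.ofMul.injective
    simp only [ofMul_mul, ofMul_inv, ofMul_one]; abel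
  have n4 : ∀ b, b * σ b * σ (σ b) = 1 := fun b => by
    obtain ⟨u, hu, v, hv, rfl⟩ := hs b
    rw [← mul_one (1 : M)]
    nth_rw 1 [← n2 u hu]
    rw [← n3 v hv]
    simp only [map_mul]
    apply Additive.ofMul.injective
    simp only [ofMul_mul]; abel
  refine ⟨fun b hb => by rw [← n4 b, hb, hb, pow_three'], ?_⟩
  let φ : M →* M := σ * (σ.comp σ)⁻¹
  have f0 : ∀ b, φ b = σ b * (σ (σ b))⁻¹ := fun b => rfl
  have f1 : ∀ b, α (φ b) = (φ (α b))⁻¹ := fun b => by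
    rw [f0, f0, map_mul, map_inv, hα, hα, hα, h3, mul_inv_rev, inv_inv]
  have m0 : ∀ b, α b = b → b ∈ M0 := fun b hb => by
    obtain ⟨u, hu, v, hv, rfl⟩ := hs b
    rw [map_mul, h1 u hu, h0 v hv, mul_left_inj, inv_eq_iff_mul_eq_one] at hb
    rwa [ho u hb, one_mul]
  have m1 : ∀ b, α b = b⁻¹ → b ∈ M1 := fun b hb => by
    obtain ⟨u, hu, v, hv, rfl⟩ := hs b
    rw [map_mul, h1 u hu, h0 v hv, mul_inv, mul_right_inj, eq_inv_iff_mul_eq_one] at hb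
    rwa [ho v hb, mul_one]
  have m2 : ∀ b ∈ M1, b ∈ M0 → b = 1 := fun b hb hb' =>
    ho b (eq_inv_iff_mul_eq_one.1 ((h0 b hb').symm.trans (h1 b hb)))
  have f2 : ∀ b ∈ M1, φ b ∈ M0 := fun b hb => m0 _ (by rw [f1, h1 b hb, map_inv, inv_inv])
  have f3 : ∀ b ∈ M0, φ b ∈ M1 := fun b hb => m1 _ (by rw [f1, h0 b hb])
  have c1 : Nat.card M1 = Nat.card M0 := by
    refine Nat.card_eq_of_bijective (fun b : M1 => (⟨φ b, f2 b b.2⟩ : M0)) ⟨fun u v h => ?_, ?_⟩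
    · have e : φ ((u : M) * (v : M)⁻¹) = 1 := by
        rw [map_mul, map_inv, mul_inv_eq_one]; exact congrArg Subtype.val h
      rw [f0, mul_inv_eq_one] at e
      have e2 := congrArg (fun z => σ (σ z)) e
      simp only [h3] at e2
      exact Subtype.ext (mul_inv_eq_one.1 (m2 _ (mul_mem u.2 (inv_mem v.2)) (m0 _ (hf _ e2.symm))))
    · rintro ⟨c, hc⟩
      obtain ⟨t, ht⟩ := hr c hc
      obtain ⟨u, hu, v, hv, e⟩ := hs (σ (σ t))
      have e2 : φ u * φ v = c := by rw [← map_mul, e, f0, h3, ht]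
      have e3 := m2 _ (f3 v hv) (by
        rw [eq_inv_mul_of_mul_eq e2]; exact mul_mem (inv_mem (f2 u hu)) hc)
      exact ⟨⟨u, hu⟩, Subtype.ext (by rwa [e3, mul_one] at e2)⟩
  have c2 := card_sup_of_inf (N := M1) (H := M0) (by simp [normalizer_eq_top])
    (eq_bot_iff.2 fun b hb => m2 b hb.1 hb.2)
  rw [show M1 ⊔ M0 = ⊤ from eq_top_iff.2 fun b _ => by
    obtain ⟨u, hu, v, hv, rfl⟩ := hs b
    exact mul_mem_sup hu hv, card_top, ← c1] at c2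
  rw [c2, sq]

section
variable {X : Type*} [Group X] [Finite X]
  {A B C D E F G H K L M N P R S T U V W Y Z : Subgroup X} {p q k n : ℕ} {x y g s : X}

/-- conjugation as an endomorphism of a subgroup -/
def cjh (B : Subgroup X) (g : X) (hg : g ∈ 𝒩 B) : B →* B where
  toFun b := ⟨g * b * g⁻¹, conj_mem_of_norm hg b.2⟩
  map_one' := Subtype.ext (by simp)
  map_mul' a b := Subtype.ext (by simp)

theorem cjh_coe (hg : g ∈ 𝒩 B) (b : B) : (cjh B g hg b : X) = g * b * g⁻¹ := rfl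

theorem comm_range (hB : Abel B) (hs : s ∈ 𝒩 D) (hD : D ≤ B) :
    (∀ y ∈ ⁅D, B ⊔ zpowers s⁆, ∃ d ∈ D, y = ⁅d, s⁆) ∧
      ♯(D ⊓ 𝒞₁ s) * ♯⁅D, B ⊔ zpowers s⁆ = ♯D := by
  have hc : ∀ d ∈ D, ⁅d, s⁆ ∈ D := fun d hd => commutatorElement_mem_of_normalizer' hs hd
  let δ : D →* X := MonoidHom.mk' (fun d => ⁅(d : X), s⁆) fun a b => by
    have := (hB.mono hD).comm (hc b b.2) (conj_mem_of_norm hs (inv_mem a.2))
    simp only [commutatorElement_def, coe_mul] at this ⊢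
    calc _ = a * (b * s * (b : X)⁻¹ * s⁻¹ * (s * (a : X)⁻¹ * s⁻¹)) := by group
      _ = _ := by rw [this]; group
  have h1 : δ.range ≤ D := by rintro _ ⟨d, rfl⟩; exact hc d d.2
  have h2 : s ∈ 𝒩 δ.range := mem_norm_of_cj_le (by
    rintro _ ⟨_, ⟨d, rfl⟩, rfl⟩
    refine ⟨⟨_, conj_mem_of_norm hs d.2⟩, ?_⟩
    change ⁅s * d * s⁻¹, s⁆ = s * ⁅(d : X), s⁆ * s⁻¹
    simp only [commutatorElement_def]; group)
  have h3 : ⁅D, B ⊔ zpowers s⁆ = δ.range := by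
    refine le_antisymm (H7.commutator_sup_le (hB.le_norm (h1.trans hD)) (zpowers_le.2 h2)
      ((comm_eq_bot_iff.2 (cent_mono hB le_rfl hD)).le.trans bot_le) ?_) ?_
    · rw [commutator_comm]
      exact (H7.le_stab_iff.1 (zpowers_le.2 (H7.mem_stab.2 ⟨h2, fun d hd => ⟨⟨d, hd⟩, rfl⟩⟩))).2.trans'
        (commutator_comm _ _).le
    · rintro _ ⟨d, rfl⟩
      exact commutator_mem_commutator d.2 (mem_sup_right (mem_zpowers s))
  rw [h3]
  refine ⟨by rintro _ ⟨d, rfl⟩; exact ⟨d, d.2, rfl⟩, ?_⟩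
  have h4 : δ.ker = (D ⊓ 𝒞₁ s).subgroupOf D := by
    ext d
    rw [mem_subgroupOf, mem_inf, and_iff_right d.2, mem_cent1, MonoidHom.mem_ker]
    exact commutatorElement_eq_one_iff_mul_comm
  rw [← δ.ker.card_mul_index, index_ker, h4,
    Nat.card_congr (subgroupOfEquivOfLe (inf_le_left : D ⊓ 𝒞₁ s ≤ D)).toEquiv]

theorem der_eq (hB : Abel B) (hs : s ∈ 𝒩 B) :
    ⁅B ⊔ zpowers s, B ⊔ zpowers s⁆ = ⁅B, B ⊔ zpowers s⁆ := by
  refine le_antisymm ?_ (comm_mono le_sup_left le_rfl)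
  rw [der_sup_eq (zpowers_le.2 hs), abel_iff_der.1 hB, abel_iff_der.1 (cyc_zpowers s).abel,
    bot_sup_eq, sup_bot_eq]
  exact comm_mono le_rfl le_sup_right

theorem card_lcs (hp : p.Prime) (hR : IsPGroup p R) (hB : Abel B) (hn : B ⊴ R)
    (e : B ⊔ zpowers s = R) (hZ : ♯(𝒵 R) = p) (i j : ℕ) (h : ♯B = p ^ (i + j + 1)) :
    R.lowerCentralSeries (i + 1) ≤ B ∧ ♯(R.lowerCentralSeries (i + 1)) = p ^ j := by
  have hs : s ∈ R := e ▸ mem_sup_right (mem_zpowers s)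
  have key : ∀ D j, D ⊴ R → D ≤ B → ♯D = p ^ (j + 1) → ♯⁅D, R⁆ = p ^ j := fun D j hD h1 h2 => by
    have h3 := (comm_range hB (hD.norm hs) h1).2
    have h4 : D ⊓ 𝒞₁ s = 𝒵 R := by
      have h5 : D ⊓ 𝒞₁ s ≤ 𝒵 R := le_inf (inf_le_left.trans hD.le) (by
        rw [← e, cent_sup, cent_zpowers]
        exact inf_le_inf_right _ (h1.trans hB))
      refine (eq_bot_or_eq_of_prime (hZ ▸ hp) h5).resolve_left (ne_bot_of_le
        ((nil_of_pgroup hp hR).inf_cent_ne_bot hD (ne_bot_of_dvd hp (h2 ▸ dvd_pow_self p j.succ_ne_zero)))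
        (inf_le_inf_left _ (cent_le_cent1 hs)))
    rw [e, h4, hZ, h2, pow_succ'] at h3
    exact Nat.eq_of_mul_eq_mul_left hp.pos h3
  induction i generalizing j with
  | zero =>
    have h1 := der_eq hB (hn.norm hs)
    rw [e] at h1
    rw [Subgroup.lowerCentralSeries_succ, Subgroup.lowerCentralSeries_zero, h1]
    exact ⟨hn.comm_le le_rfl, key B j hn le_rfl (by simpa using h)⟩
  | succ i ih =>
    obtain ⟨h1, h2⟩ := ih (j + 1) (by rw [h]; congr 1; omega)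
    refine ⟨(R.lowerCentralSeries_antitone (by omega)).trans h1, ?_⟩
    rw [Subgroup.lowerCentralSeries_succ]
    exact key _ j ⟨lowerCentralSeries_le_self R _, self_le_normalizer_lowerCentralSeries R _⟩ h1 h2

end

variable {X : Type} [Group X] [Finite X]
  {A B C D E F G H K L M N P R S T U V W Y Z : Subgroup X} {p q k n : ℕ} {x y g s : X}

theorem exp_of_card3 (hp : p.Prime) (ho : Odd p) (h : ♯R = p ^ 3) (ha : ¬ Abel R) (hA : ¬ p ∣ ♯A)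
    (hRA : ⁅R, A⁆ = R) : ExpDvd p R := by
  have hR : IsPGroup p R := IsPGroup.of_card h
  intro g hg
  by_contra hgp
  have h1 := zpowers_le.2 hg
  have h2 := card_dvd_of_lt (n := 2) hp hR
    (lt_of_le_of_ne h1 fun e => ha (e ▸ (cyc_zpowers g).abel)) h.le
  obtain ⟨k, hk, e⟩ := (Nat.dvd_prime_pow hp).1 h2
  obtain rfl : k = 2 := by
    by_contra hk2
    refine hgp (orderOf_dvd_iff_pow_eq_one.1 ?_)
    rw [← card_zpow, e]
    exact (pow_dvd_pow p (by omega)).trans (pow_one p).dvd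
  have h3 : (zpowers g).relIndex R = p := by
    have := card_mul_ri h1
    rw [e, h, pow_succ p 2] at this
    exact Nat.eq_of_mul_eq_mul_left (pow_pos hp.pos 2) this
  obtain ⟨y, hy, e2⟩ := exists_sup_zpowers h1 hp h3.dvd
  exact ha (abel_of_meta hp ho hR hA (hRA ▸ right_le_norm_comm R A)
    ⟨_, nrm_of_ri hp hR h1 h3, cyc_zpowers g, y, hy, e2.ge⟩ hRA)

/-- the situation with an abelian subgroup of index `p` -/
structure Ab (p : ℕ) (R A B E : Subgroup X) : Prop where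
  pc : PC p B E
  card : ♯E = p ^ 2
  nB : 𝒩 R ≤ 𝒩 B
  le : B ≤ R
  ri : B.relIndex R = p
  abel : Abel B
  ctr : 𝒵 R ≤ 𝒞 A
  cyc : Cyc ⁅B, A⁆
  ncent : ¬ R ≤ 𝒞 E
  fix : ♯(E ⊓ 𝒞 R) = p

theorem exists_ab (hp : p.Prime) (ho : Odd p) (hR : IsPGroup p R) (hr : rk p R ≤ 2) (hA : ¬ p ∣ ♯A)
    (hRA : ⁅R, A⁆ = R) (hx : x ∈ 𝒵 R) (hx1 : x ≠ 1) (hxp : x ^ p = 1) (hxA : x ∈ 𝒞 A) :
    ♯R = p ^ 3 ∨ ∃ B E, Ab p R A B E := by
  haveI := gen2
  have nA : A ≤ 𝒩 R := hRA ▸ right_le_norm_comm R A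
  have ha : ¬ Abel R := fun ha => hx1 (eq_one_of_mem
    (hRA ▸ ha.comm_inf_cent nA (cop_of_pgroup hp hR hA) : R ⊓ 𝒞 A = ⊥) ⟨hx.1, hxA⟩)
  obtain ⟨v1, v2⟩ := t4_5c hp ho hR fun h => ha h.abel
  set V := Om p (Z2 R) with hV
  have v3 : V ≤ R := (Om_le _ _).trans (Z2_le R)
  have v4 : 𝒩 R ≤ 𝒩 V := (norm_le_norm_Z2 R).trans (norm_le_norm_Om p _)
  have v5 : V ⊴ R := ⟨v3, (le_norm R).trans v4⟩
  have hxo : ♯(zpowers x) = p := (el_zpowers hp hx.1 hxp hx1).card1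
  have hxV : x ∈ V := mem_Om (le_Z2 (zpowers_le.2 hx.1) ((comm_eq_bot_iff'.2
    (zpowers_le.2 hx.2)).le.trans bot_le) (mem_zpowers x)) hxp
  have v6 := t4_8a hp ((rk_mono hp v3).trans hr) v2
  by_cases hab : Abel V
  swap
  · left
    have c3 : ♯V = p ^ 3 := by
      obtain ⟨k, hk⟩ := card_eq_pow hp (ExpDvd.pgroup' v2)
      have h1 := mt (abel_of_card hp (ExpDvd.pgroup' v2)) hab
      rw [hk, Nat.pow_le_pow_iff_right hp.one_lt] at v6 h1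
      rw [hk, show k = 3 by omega]
    obtain ⟨e1, e2⟩ := es_ctr hp hab c3
    have h1 := sup_cent_eq hp hR v5 hab c3 (e1 ▸ le_inf (v5.comm_le le_rfl) (by
      rw [commutator_comm]
      exact (comm_mono le_rfl (Om_le _ _)).trans ((comm_Z2_le R).trans
        (inf_le_right.trans (cent_anti v3)))))
    obtain ⟨F, f1, -⟩ := t4_5a hp ho (hR.to_le v3) v1
    have h2 : zpowers x = 𝒵 V := eq_zpowers_of_prime (e2 ▸ hp) ⟨hxV, cent_anti v3 hx.2⟩ hx1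
    have h3 : A ≤ 𝒞 (R ⊓ 𝒞 V) := cent_of_cent_Om hp ho hR.to_inf_left
      (le_norm_inf nA (le_norm_cent (nA.trans v4))) hA (cent_symm (le_trans (Om_le_iff.2 fun g hg hgp =>
        h2.ge ⟨f1.le (((f1.mono' v3).elMax hp hr).mem_of_cent hg.1 hgp (cent_anti f1.le hg.2)), hg.2⟩)
        (zpowers_le.2 hxA)))
    have h4 : R ≤ V := by
      rw [← hRA]
      conv_lhs => rw [← h1]
      exact H7.sup_commutator_le (le_norm V) (inf_le_left.trans v5.norm) (comm_le_left (nA.trans v4))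
        ((comm_eq_bot_iff.2 h3).le.trans bot_le)
    rw [le_antisymm h4 v3, c3]
  right
  have hE : El p 2 V R := by
    obtain ⟨F, f1⟩ := Elem.exists_el2 hp ⟨hab, v2⟩ v1
    exact (((f1.mono' v3).elMax hp hr).max V v3 ⟨hab, v2⟩ f1.le) ▸ f1.mono' v3
  have hpc := pc_of_rk hp hr hE
  have nB : 𝒩 R ≤ 𝒩 (R ⊓ 𝒞 V) := le_norm_inf le_rfl (le_norm_cent v4)
  have hBp : IsPGroup p ↥(R ⊓ 𝒞 V) := hR.to_inf_left
  have b1 : ¬ R ≤ 𝒞 V := fun h => hx1 (eq_one_of_mem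
    (PC.fix hp ho (inf_eq_left.2 h ▸ hpc) hR hE.card.le hA hRA) ⟨hx.1, hxA⟩)
  have b2 : ¬ V ≤ 𝒞 A := fun h => b1 (hRA ▸ three_subgroups_cent
    ((comm_eq_bot_iff.2 h).le.trans bot_le) ((v5.comm_le le_rfl).trans h))
  have key : ∀ Y, x ∈ Y → ¬ V ≤ Y → V ⊓ Y = zpowers x := fun Y h1 h2 =>
    (eq_of_lt_card (n := 1) hp hE.pgroup (zpowers_le.2 (mem_inf.2 ⟨hxV, h1⟩))
      (lt_of_le_of_ne inf_le_left fun e => h2 (inf_eq_left.1 e)) (by rw [hxo, pow_one]) hE.card).symm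
  have b3 := key _ hx.2 fun h => b1 (cent_symm h)
  have b4 : 𝒵 R ≤ 𝒞 A := cent_symm (cent_of_cent_Om hp ho hR.to_inf_left
    (nA.trans (norm_le_norm_ctr R)) hA (cent_symm (le_trans (Om_le_iff.2 fun g hg hgp => b3.le
      ⟨(hpc.mem g).2 ⟨⟨hg.1, cent_anti v3 hg.2⟩, hgp⟩, hg.2⟩) (zpowers_le.2 hxA))))
  have nAB := nA.trans nB
  have b5 : ⁅R ⊓ 𝒞 V, A⁆ ≤ R ⊓ 𝒞 V := comm_le_left nAB
  have b6 : ⁅R ⊓ 𝒞 V, A⁆ ⊓ 𝒞 A = ⊥ := (hpc.inf b5).fix hp ho (hBp.to_le b5)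
    ((card_le inf_le_left).trans hE.card.le) hA (comm_comm nAB (cop_of_pgroup hp hBp hA))
  have b7 : Cyc (R ⊓ 𝒞 V ⊓ 𝒞 A) := (hpc.inf inf_le_left).cyc hp ho hBp.to_inf_left
    ((card_le ((inf_le_inf_left _ inf_le_right).trans (key _ hxA b2).le)).trans hxo.le)
  have b8 : ⁅R ⊓ 𝒞 V, R ⊓ 𝒞 V⁆ ≤ ⁅R ⊓ 𝒞 V, A⁆ := by
    have := der_sup_le (K := ⁅R ⊓ 𝒞 V, A⁆) (H := R ⊓ 𝒞 V ⊓ 𝒞 A)
      (inf_le_left.trans (left_le_norm_comm _ A))
    rwa [(mkCA_p' hp nAB hBp hA).comm_sup_cent, abel_iff_der.1 b7.abel, sup_bot_eq] at this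
  refine ⟨_, _, hpc, hE.card, nB, inf_le_left, ?_, abel_iff_der.2 ?_, b4,
    (hpc.inf b5).cyc hp ho (hBp.to_le b5) ?_, b1, b3 ▸ hxo⟩
  · rw [inf_relIndex_left]
    exact ((Nat.dvd_prime hp).1 (ri_cent_dvd hp hR v5.norm hE.elem hE.card.le)).resolve_left
      fun e => b1 (relIndex_eq_one.1 e)
  · by_contra h
    exact (nil_of_pgroup hp hR).inf_cent_ne_bot v5.cent.der h (eq_bot_of_le b6 (le_inf
      (inf_le_left.trans b8) ((inf_le_inf_right _ v5.cent.der.le).trans b4)))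
  · refine Nat.le_of_dvd hp.pos ((card_dvd_of_lt (n := 1) hp hE.pgroup (lt_of_le_of_ne inf_le_left
      fun e => hx1 (eq_one_of_mem b6 ⟨inf_eq_left.1 e hxV, hxA⟩)) hE.card.le).trans (pow_one p).dvd)

theorem Ab.nrm (h : Ab p R A B E) : B ⊴ R := ⟨h.le, (le_norm R).trans h.nB⟩

theorem Ab.fix0 (h : Ab p R A B E) (hp : p.Prime) (hR : IsPGroup p R) (hA : ¬ p ∣ ♯A)
    (nA : A ≤ 𝒩 R) : ⁅B, A⁆ ⊓ 𝒞 A = ⊥ :=
  h.abel.comm_inf_cent (nA.trans h.nB) (cop_of_pgroup hp (hR.to_le h.le) hA)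

theorem Ab.large (h : Ab p R A B E) (hp : p.Prime) (h3 : 3 < p) (hR : IsPGroup p R)
    (hr : rk p R ≤ 2) (hA : ¬ p ∣ ♯A) (hRA : ⁅R, A⁆ = R) : ♯R = p ^ 3 := by
  haveI := gen2
  have ho : Odd p := hp.odd_of_ne_two (by omega)
  have nA : A ≤ 𝒩 R := hRA ▸ right_le_norm_comm R A
  have ha : ¬ Abel R := fun ha => h.ncent (cent_mono ha le_rfl (h.pc.le.trans h.le))
  have he := t4_8b hp h3 hR hr
  have h1 : Om p R ⊓ B ≤ E := fun g hg => (h.pc.mem g).2 ⟨hg.2, he g hg.1⟩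
  have h2 : ¬ Om p R ≤ B := fun h2 => ha (abel_of_meta hp ho hR hA nA
    (t4_11 hp h3 hR ((card_le ((le_inf le_rfl h2).trans h1)).trans h.card.le)) hRA)
  have nS := (Nrm.refl R).Om p
  have h4 : ⁅R, R⁆ ≤ E := by
    refine le_trans (le_inf ?_ (der_le_of_ri_prime h.nrm.norm (h.ri ▸ hp))) h1
    conv_lhs => rw [← sup_eq_of_ri_prime h.le nS.le (h.ri ▸ hp) h2]
    rw [der_sup_eq (nS.le.trans h.nrm.norm), abel_iff_der.1 h.abel, bot_sup_eq]
    exact sup_le (comm_le_right (h.le.trans nS.norm)) (der_le _)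
  have h5 : ⁅B, A⁆ ≤ E := fun b hb => by
    have hb' := comm_le_left (nA.trans h.nB) hb
    refine (h.pc.mem b).2 ⟨hb', eq_one_of_mem (h.fix0 hp hR hA nA) ⟨pow_mem hb p,
      h.ctr ⟨pow_mem (h.le hb') p, mem_cent.2 fun r hr => ?_⟩⟩⟩
    have h6 := h4 (commutator_mem_commutator (h.le hb') hr)
    have h7 := commutatorElement_pow_left (n := p) (h.abel.comm hb' (h.pc.le h6) : Commute _ _).symm
    rw [h.pc.elem.pow h6, commutatorElement_eq_one_iff_mul_comm] at h7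
    exact h7.symm
  have h6 : B ≤ E := (mkCA_p' hp (nA.trans h.nB) (hR.to_le h.le) hA).comm_sup_cent.ge.trans
    (sup_le h5 ((inf_le_inf_right _ h.le).trans
      ((inf_cent_le_der nA (cop_of_pgroup hp hR hA) hRA).trans h4)))
  rw [← card_mul_ri h.le, h.ri, le_antisymm h6 h.pc.le, h.card, pow_succ p 2]

theorem Ab.three (h : Ab 3 R A B E) (hR : IsPGroup 3 R) (hA : ¬ 3 ∣ ♯A) (hRA : ⁅R, A⁆ = R) :
    ♯(𝒵 R) = 3 ∧ ♯B = ♯⁅B, A⁆ ^ 2 := by
  have hp := Nat.prime_three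
  have ho : Odd 3 := by decide
  haveI := Fact.mk hp
  have nA : A ≤ 𝒩 R := hRA ▸ right_le_norm_comm R A
  have nAB := nA.trans h.nB
  have hBp := hR.to_le h.le
  have nE : E ⊴ R := h.nrm.char h.pc.le h.pc.norm
  obtain ⟨s, hs, e⟩ := exists_sup_zpowers h.le hp h.ri.dvd
  have hsN := h.nrm.norm hs
  have hs3 : s ^ 3 ∈ B := pow_mem_of_relIndex_eq h.nrm.norm h.ri hs
  have hsB : s ∉ B := fun hsB => h.ncent (e.ge.trans (sup_le (cent_symm h.pc.cent)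
    ((zpowers_le.2 hsB).trans (cent_symm h.pc.cent))))
  obtain ⟨a, ha, has⟩ : ∃ a ∈ A, ⁅s, a⁆ ∉ B := by
    by_contra! hh
    refine hsB (hRA.ge.trans ?_ hs)
    conv_lhs => rw [← e]
    refine H7.sup_commutator_le (le_norm B) (zpowers_le.2 hsN) (comm_le_left nAB)
      (commutator_le.2 fun u hu a ha => comm_mem_of_zpowers hsN (hh a ha) u hu)
  have haN := nAB ha
  have h1 : ∀ b ∈ B, a * s * a⁻¹ * b * (a * s * a⁻¹)⁻¹ = s * (s * b * s⁻¹) * s⁻¹ := by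
    obtain ⟨b0, hb0, _, ⟨i, rfl⟩, e2⟩ := (mem_sup_l (zpowers_le.2 hsN)).1
      (e.ge (conj_mem_of_norm (nA ha) hs))
    dsimp only at e2
    obtain ⟨j, hj⟩ : ∃ j : ℤ, i = 3 * j ∨ i = 3 * j + 1 ∨ i = 3 * j + 2 := ⟨i / 3, by omega⟩
    have h2 : b0 * s ^ (3 * j) ∈ B := mul_mem hb0 (by
      rw [zpow_mul, zpow_ofNat]; exact zpow_mem hs3 j)
    rcases hj with rfl | rfl | rfl
    · rw [e2] at h2
      exact absurd (by simpa [mul_assoc] using conj_mem_of_norm' haN h2) hsB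
    · refine absurd ?_ has
      have h3 := conj_mem_of_norm' hsN (inv_mem h2)
      have h4 := conj_mem_of_norm hsN h3
      rw [commutatorElement_def, mul_assoc s, mul_assoc s, show a * s⁻¹ * a⁻¹ = (a * s * a⁻¹)⁻¹ by group,
        ← e2]
      convert inv_mem h2 using 1; group
    · intro b hb
      have h3 := h.abel.comm h2 (conj_mem_of_norm hsN (conj_mem_of_norm hsN hb))
      rw [← e2, show b0 * s ^ (3 * j + 2) = b0 * s ^ (3 * j) * s * s by group]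
      generalize b0 * s ^ (3 * j) = c at h3
      calc _ = c * (s * (s * b * s⁻¹) * s⁻¹) * c⁻¹ := by group
        _ = _ := by rw [h3, mul_inv_cancel_right]
  have hodd : ∀ b ∈ R, b * b = 1 → b = 1 := fun b hb hbb => by
    obtain ⟨k, hk⟩ := isPGroup_iff_forall.1 hR b hb
    exact mem_bot.1 (mem_of_pow_mem (m := 2) (n := 3 ^ k) (Nat.Coprime.pow_right k (by decide))
      (by rw [sq, hbb]; exact one_mem _) (hk ▸ one_mem _))
  have h2 : a ∉ 𝒞 E := fun hc => h.ncent (by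
    rw [← e]
    refine sup_le (cent_symm h.pc.cent) (zpowers_le.2 (mem_cent.2 fun w hw => ?_))
    have hw' := nE.conj_mem hs hw
    have h3 := h1 w (h.pc.le hw)
    have h4 : a * s * a⁻¹ * w * (a * s * a⁻¹)⁻¹ = s * w * s⁻¹ := by
      calc _ = a * (s * (a⁻¹ * (w * a)) * s⁻¹) * a⁻¹ := by group
        _ = _ := by rw [mem_cent.1 hc w hw, inv_mul_cancel_left, ← mem_cent.1 hc _ hw',
          mul_inv_cancel_right]
    rw [h4, mul_left_inj, mul_right_inj, eq_mul_inv_iff_mul_eq] at h3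
    exact h3)
  have hB1 : ⁅B, A⁆ ≤ B := comm_le_left nAB
  have haN1 : a ∈ 𝒩 ⁅B, A⁆ := right_le_norm_comm B A ha
  have hCA := mkCA_p' hp nAB hBp hA
  have hd : ∀ u ∈ A, ¬ 3 ∣ ♯(zpowers u) := fun u hu hd => hA (hd.trans (card_dvd (zpowers_le.2 hu)))
  have h3 : ⁅B, A⁆ ⊓ 𝒞 (zpowers a) = ⊥ := by
    by_contra hne
    have h4 := zpowers_le.1 (cyc_cent_of_ne hp (hBp.to_le hB1) h.cyc (zpowers_le.2 haN1) (hd a ha) hne)
    refine h2 (cent_anti h.pc.le ?_)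
    rw [← hCA.comm_sup_cent, cent_sup]
    exact ⟨h4, cent_symm inf_le_right ha⟩
  have h4 : a ^ 2 ∈ 𝒞 ⁅B, A⁆ := by
    refine zpowers_le.1 (cent_of_cent_Om hp ho (hBp.to_le hB1) (zpowers_le.2 (pow_mem haN1 2))
      (hd _ (pow_mem ha 2)) (zpowers_le.2 (cyc_aut hp ?_ (norm_le_norm_Om 3 _ haN1))))
    have h5 := h.cyc.abel.elem_Om 3
    exact (dvd_of_lt_pow (n := 1) hp (card_eq_pow hp h5.pgroup)
      ((h5.card_le_of_cyc hp (h.cyc.mono (Om_le _ _))).trans_lt (by norm_num))).trans (by norm_num)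
  have h5 : ∀ b ∈ ⁅B, A⁆, a * b * a⁻¹ = b⁻¹ := fun b hb => by
    have h6 := conj_mem_of_norm haN1 hb
    rw [eq_inv_iff_mul_eq_one]
    refine eq_one_of_mem h3 (mem_inf.2 ⟨mul_mem h6 hb, ?_⟩)
    rw [cent_zpowers, mem_cent1, h.cyc.abel.comm h6 hb, eq_comm,
      ← mul_inv_eq_iff_eq_mul]
    calc _ = a * b * a⁻¹ * (a ^ 2 * b * (a ^ 2)⁻¹) := by rw [sq]; group
      _ = _ := by rw [← mem_cent.1 h4 b hb, mul_inv_cancel_right, h.cyc.abel.comm h6 hb]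
  have hZ : ∀ b ∈ B, s * b * s⁻¹ = b → b ∈ 𝒵 R := fun b hb hsb => ⟨h.le hb, by
    rw [← e, cent_sup, cent_zpowers]
    exact ⟨h.abel hb, mem_cent1.2 (mul_inv_eq_iff_eq_mul.1 hsb).symm⟩⟩
  letI : CommGroup B := { (inferInstance : Group B) with
    mul_comm := fun u v => Subtype.ext (h.abel.comm u.2 v.2) }
  obtain ⟨k1, k2⟩ := abs3 (cjh B s hsN) (cjh B a haN) (⁅B, A⁆.subgroupOf B) ((𝒞 A).subgroupOf B)
    (fun b => Subtype.ext (by
      simp only [cjh_coe]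
      calc _ = s ^ 3 * b * (s ^ 3)⁻¹ := by rw [pow_three]; group
        _ = _ := by rw [h.abel.comm hs3 b.2, mul_inv_cancel_right]))
    (fun b => Subtype.ext (by
      simp only [cjh_coe]
      rw [← h1 _ (conj_mem_of_norm haN b.2)]; group))
    (fun b hb => Subtype.ext (h5 b hb))
    (fun b hb => Subtype.ext (by
      rw [cjh_coe, mem_cent.1 (mem_subgroupOf.1 hb) a ha, mul_inv_cancel_right]))
    (fun b => by
      obtain ⟨u, hu, v, hv, e2⟩ := (mem_sup_l (inf_le_left.trans (left_le_norm_comm B A))).1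
        (hCA.comm_sup_cent.ge b.2)
      exact ⟨⟨u, hB1 hu⟩, hu, ⟨v, hv.1⟩, hv.2, Subtype.ext e2⟩)
    (fun b hb => Subtype.ext (hodd b (h.le b.2) (congrArg Subtype.val hb)))
    (fun c hc => by
      have h6 := inf_cent_le_der nA (cop_of_pgroup hp hR hA) hRA ⟨h.le c.2, hc⟩
      rw [← e, der_eq h.abel hsN] at h6
      obtain ⟨d, hd, e2⟩ := (comm_range h.abel hsN le_rfl).1 _ h6
      refine ⟨⟨d, hd⟩, Subtype.ext (e2.trans ?_)⟩
      change _ = d * (s * d * s⁻¹)⁻¹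
      rw [commutatorElement_def]; group)
    (fun b hb => Subtype.ext (by
      rw [cjh_coe, mem_cent.1 (h.ctr (hZ b b.2 (congrArg Subtype.val hb))) a ha, mul_inv_cancel_right]))
  refine ⟨?_, by rw [k2, Nat.card_congr (subgroupOfEquivOfLe hB1).toEquiv]⟩
  have h6 : 𝒵 R ≤ B := by
    by_contra hn
    have := sup_eq_of_ri_prime h.le inf_le_left (h.ri ▸ hp) hn
    exact h.ncent (this.ge.trans (sup_le (cent_symm h.pc.cent)
      (inf_le_right.trans (cent_anti nE.le))))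
  rw [← h.fix]
  congr 2
  refine le_antisymm (le_inf (fun z hz => (h.pc.mem z).2 ⟨h6 hz, congrArg Subtype.val
    (k1 ⟨z, h6 hz⟩ (Subtype.ext ?_))⟩) inf_le_right) (inf_le_inf_right _ nE.le)
  rw [cjh_coe, mem_cent.1 hz.2 s hs, mul_inv_cancel_right]

/-- the two possible structures -/
def Concl {Y : Type*} [Group Y] (p : ℕ) (R : Subgroup Y) : Prop :=
  (¬ Abel R ∧ ♯R = p ^ 3 ∧ ExpDvd p R) ∨ (p = 3 ∧ ∃ k, 2 ≤ k ∧ ♯R = 3 ^ (2 * k + 1) ∧
    R.lowerCentralSeries (2 * k) = ⊥ ∧ R.lowerCentralSeries (2 * k - 1) ≠ ⊥)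

theorem struct (hp : p.Prime) (ho : Odd p) (hR : IsPGroup p R) (hr : rk p R ≤ 2) (hA : ¬ p ∣ ♯A)
    (hRA : ⁅R, A⁆ = R) (hx : x ∈ 𝒵 R) (hx1 : x ≠ 1) (hxp : x ^ p = 1) (hxA : x ∈ 𝒞 A) :
    Concl p R := by
  have nA : A ≤ 𝒩 R := hRA ▸ right_le_norm_comm R A
  have ha : ¬ Abel R := fun ha => hx1 (eq_one_of_mem
    (hRA ▸ ha.comm_inf_cent nA (cop_of_pgroup hp hR hA) : R ⊓ 𝒞 A = ⊥) ⟨hx.1, hxA⟩)
  by_cases hc : ♯R = p ^ 3
  · exact Or.inl ⟨ha, hc, exp_of_card3 hp ho hc ha hA hRA⟩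
  obtain ⟨B, E, h⟩ := (exists_ab hp ho hR hr hA hRA hx hx1 hxp hxA).resolve_left hc
  obtain rfl : p = 3 := by
    by_contra h3
    have := hp.two_le
    obtain ⟨m, hm⟩ := ho
    exact hc (h.large hp (by omega) hR hr hA hRA)
  obtain ⟨h1, h2⟩ := h.three hR hA hRA
  obtain ⟨k, hk⟩ := card_eq_pow hp ((hR.to_le h.le).to_le (comm_le_left (nA.trans h.nB)))
  rw [hk, ← pow_mul, mul_comm] at h2
  have h3 : ♯R = 3 ^ (2 * k + 1) := by rw [← card_mul_ri h.le, h.ri, h2, pow_succ]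
  have h4 : 2 ≤ k := by
    have h5 := card_le h.pc.le
    rw [h.card, h2, Nat.pow_le_pow_iff_right hp.one_lt] at h5
    by_contra h6
    exact hc (by rw [h3, show k = 1 by omega])
  obtain ⟨s, hs, e⟩ := exists_sup_zpowers h.le hp h.ri.dvd
  refine Or.inr ⟨rfl, k, h4, h3, ?_, ?_⟩
  · have := (card_lcs hp hR h.abel h.nrm e h1 (2 * k - 1) 0 (by rw [h2]; congr 1; omega)).2
    rwa [show 2 * k - 1 + 1 = 2 * k by omega, pow_zero, card_eq_one_iff] at this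
  · have := (card_lcs hp hR h.abel h.nrm e h1 (2 * k - 2) 1 (by rw [h2]; congr 1; omega)).2
    rw [show 2 * k - 2 + 1 = 2 * k - 1 by omega] at this
    exact ne_bot_of_card (by rw [this]; norm_num)

end Cfsg.RK2
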