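import Cfsg.Agent.H4.RK2
import Cfsg.Agent.H1.Yoshida
import Cfsg.Agent.H8.Isolated

/-! Sylow subgroups of rank two of a perfect group containing an isolated element. -/

set_option autoImplicit false
set_option linter.unusedSectionVars false
set_option linter.style.haveILetI false

namespace Cfsg.RK2

open Subgroup Cfsg.L0 Cfsg.H8 Cfsg.FT Cfsg.FT.G4
open scoped commutatorElement

theorem core0 {X : Type} [Group X] [Finite X] {P : Subgroup X} {p : ℕ} {x : X} (hp : p.Prime)
    (ho : Odd p) (hX : _root_.commutator X = ⊤) (hP : IsSyl p P ⊤) (hr : rk p P ≤ 2) (hx : x ∈ P)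
    (hx1 : x ≠ 1) (hxp : x ^ p = 1) (hN : 𝒩 P ≤ 𝒞₁ x) : Concl p P := by
  haveI := Fact.mk hp
  by_cases h : P ⊓ _root_.commutator X = P ⊓ ⁅𝒩 P, 𝒩 P⁆
  · rw [hX, inf_top_eq, left_eq_inf] at h
    obtain ⟨V, v1, v2⟩ := exists_sd_syl hp (hP.mono (le_norm P) le_top) le_rfl
    exact struct hp ho hP.isPGroup hr v2 (v1.comm_eq_of_le_der (sol_of_pgroup hp hP.isPGroup) h)
      ⟨hx, le_cent1_iff.1 ((le_norm P).trans hN)⟩ hx1 hxp (le_cent1_iff.1 (v1.le_right.trans hN))
  have hW : IsWeaklyClosed P P := ⟨le_rfl, fun g hg => eq_of_le_of_card_ge hg (card_cj g P).ge⟩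
  obtain ⟨u, hu, z, hz, D, h1, h2, h3, h4, -, h5⟩ := H1.weaklyClosed_transfer hP hW h
  rw [sup_of_le_left (zpowers_le.2 hu)] at h1 h2 h3
  refine absurd ?_ h5
  obtain ⟨m, hm⟩ : ∃ m, p - 1 = m + 2 := by
    have := hp.two_le
    obtain ⟨k, hk⟩ := ho
    exact ⟨p - 3, by omega⟩
  rw [hm, Function.iterate_add_apply]
  refine H1.iter_comm_mem' (normalizer_le_normalizer_phi D (h2 hz))
    (nw_rk hp ho hP.isPGroup hr h1.le h3 ?_) m
  have := commutator_mem_commutator (inv_mem (commutator_mem_commutator (inv_mem h4) (inv_mem hz)))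
    (inv_mem hz)
  convert this using 1
  simp only [Function.iterate_succ, Function.iterate_zero, Function.comp, id, commutatorElement_def,
    inv_inv]

theorem Concl.map {X Y : Type*} [Group X] [Group Y] {P : Subgroup X} {p : ℕ} (h : Concl p P)
    {f : X →* Y} (hf : Function.Injective f) : Concl p (P.map f) := by
  have c := (Nat.card_congr (equivMapOfInjective P f hf).toEquiv).symm
  rcases h with ⟨h1, h2, h3⟩ | ⟨h1, k, h2, h3, h4, h5⟩
  · refine Or.inl ⟨fun ha => h1 fun a ha' => mem_cent.2 fun b hb => hf ?_, c.trans h2, ?_⟩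
    · rw [map_mul, map_mul]; exact ha.comm (mem_map_of_mem f hb) (mem_map_of_mem f ha')
    · rintro _ ⟨a, ha, rfl⟩
      rw [← map_pow, h3 a ha, map_one]
  · refine Or.inr ⟨h1, k, h2, c.trans h3, ?_, ?_⟩
    · rw [← map_lowerCentralSeries, h4, Subgroup.map_bot]
    · rwa [← map_lowerCentralSeries, Ne, map_eq_bot_iff_of_injective _ hf]

variable {X : Type*} [Group X] [Finite X] {P S : Subgroup X} {p : ℕ} {x : X}

theorem rk_le_of (hp : p.Prime) (h : PRankLE p 2 X) {Y : Type*} [Group Y] [Finite Y] {f : Y →* X}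
    (hf : Function.Injective f) (P : Subgroup Y) : rk p P ≤ 2 := by
  obtain ⟨E, hE⟩ := exists_el_rk hp P
  have h1 := hE.elem.map f
  have h2 := h _ (abel_iff.1 h1.abel) h1.2
  rwa [← Nat.card_congr (equivMapOfInjective E f hf).toEquiv, hE.card,
    Nat.pow_le_pow_iff_right hp.one_lt] at h2

theorem core (hp : p.Prime) (ho : Odd p) (hX : _root_.commutator X = ⊤) (hP : IsSyl p P ⊤)
    (hr : PRankLE p 2 X) (hx : x ∈ P) (hx1 : x ≠ 1) (hxp : x ^ p = 1) (hi : IsIsolated x) :
    Concl p P := by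
  haveI := Fact.mk hp
  let e : X ≃* Shrink.{0} X := (Shrink.mulEquiv.{0} (α := X)).symm
  haveI : Finite (Shrink.{0} X) := Finite.of_equiv _ e.toEquiv
  have h1 := hP.map (e : X →* Shrink.{0} X)
  rw [map_top_of_surjective _ e.surjective] at h1
  have h2 := mem_map_of_mem (e : X →* Shrink.{0} X) hx
  have h3 := (core0 hp ho (by
      rw [commutator_def, ← map_top_of_surjective (e : X →* Shrink.{0} X) e.surjective,
        ← map_commutator, ← commutator_def, hX]) h1
    (rk_le_of hp hr (f := (e.symm : Shrink.{0} X →* X)) e.symm.injective _) h2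
    (by simpa using hx1) (by rw [← map_pow, hxp, map_one])
    (iso_normalizer_le (isIsolated_map e.surjective hi ⟨1, by rwa [pow_one]⟩) h1.isPGroup h2)).map
    (f := (e.symm : Shrink.{0} X →* X)) e.symm.injective
  rwa [map_map, show (e.symm : Shrink.{0} X →* X).comp (e : X →* Shrink.{0} X) = MonoidHom.id X by
    ext; simp, Subgroup.map_id] at h3

theorem es_ctr' (hp : p.Prime) (hn : ¬ Abel S) (h : ♯S = p ^ 3) : ⁅S, S⁆ = 𝒵 S ∧ ♯(𝒵 S) = p := by
  have hS : IsPGroup p S := IsPGroup.of_card h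
  have h1 := card_mul_ri (inf_le_left : 𝒵 S ≤ S)
  obtain ⟨k, hk⟩ := card_eq_pow hp (hS.to_le (inf_le_left : 𝒵 S ≤ S))
  obtain ⟨l, hl⟩ := ri_eq_pow hp hS (𝒵 S)
  rw [hk, hl, h, ← pow_add, Nat.pow_right_inj hp.one_lt] at h1
  have h2 : k ≠ 0 := by
    rintro rfl
    exact ctr_ne_bot (nil_of_pgroup hp hS) (by rintro rfl; exact hn abel_bot) (card_eq_one_iff.1 hk)
  have h3 : 2 ≤ l := by
    by_contra h3
    exact hn (abel_of_ri hp le_rfl (hl ▸ (pow_dvd_pow p (by omega)).trans (pow_one p).dvd))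
  obtain rfl : k = 1 := by omega
  rw [pow_one] at hk
  exact ⟨(eq_bot_or_eq_of_prime (hk ▸ hp) (der_le_of_ri hp hS (ctr_nrm S)
    (hl ▸ Nat.pow_le_pow_right hp.pos (by omega)))).resolve_left (mt abel_iff_der.2 hn), hk⟩

theorem map_center (S : Subgroup X) : (center S).map S.subtype = 𝒵 S := by
  ext x
  constructor
  · rintro ⟨y, hy, rfl⟩
    exact ⟨y.2, mem_cent.2 fun a ha => congrArg Subtype.val (mem_center_iff.1 hy ⟨a, ha⟩)⟩
  · rintro ⟨h1, h2⟩
    exact ⟨⟨x, h1⟩, mem_center_iff.2 fun a => Subtype.ext (mem_cent.1 h2 a a.2), rfl⟩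

theorem isES (hp : p.Prime) (hn : ¬ Abel S) (h : ♯S = p ^ 3) (he : ExpDvd p S) :
    IsExtraspecial p S := by
  have hS : IsPGroup p S := IsPGroup.of_card h
  obtain ⟨e1, e2⟩ := es_ctr' hp hn h
  refine ⟨⟨hS, map_injective S.subtype_injective ?_, map_injective S.subtype_injective ?_⟩, ?_⟩
  · rw [map_center, ← e1]
    exact le_antisymm ((Phi_le_iff hp hS).2 ⟨le_rfl, fun x hx => he x hx ▸ one_mem _⟩)
      (nil_of_pgroup hp hS).der_le_Phi
  · rw [map_center, ← e1, map_subtype_commutator]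
  · rw [← e2, ← map_center]
    exact Nat.card_congr (equivMapOfInjective _ _ S.subtype_injective).toEquiv

theorem class_eq [Group.IsNilpotent S] {n : ℕ} (h1 : S.lowerCentralSeries n = ⊥)
    (h2 : S.lowerCentralSeries (n - 1) ≠ ⊥) : Group.nilpotencyClass S = n := by
  rw [Ne, ← top_subtype_lowerCentralSeries, map_eq_bot_iff_of_injective _ S.subtype_injective,
    Subgroup.lowerCentralSeries_eq_bot_iff_nilpotencyClass_le] at h2
  rw [← top_subtype_lowerCentralSeries, map_eq_bot_iff_of_injective _ S.subtype_injective,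
    Subgroup.lowerCentralSeries_eq_bot_iff_nilpotencyClass_le] at h1
  omega

end Cfsg.RK2
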